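import Cfsg.Agent.TQ.Stmt

/-! The numerical data `N5` for bounded exponents. -/

set_option autoImplicit false
set_option synthInstance.maxSize 8192
set_option synthInstance.maxHeartbeats 400000

namespace TQ
namespace B2f

/-- the signed degrees -/
def SD : List ℤ := [
  -864, -729, -384, -324, -144, -64, -54, -24, -9, -4, 6, 16, 36, 81, 96, 216, 256, 486, 576,
  1296]

/-- the solutions of the degree equation -/
def QL : List (ℤ × ℤ × ℤ × ℤ) := [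
  (-729, -64, 216, 576), (-729, 216, 256, 256), (-144, -64, -9, 216), (-64, -54, 36, 81),
  (-64, -24, -9, 96), (-64, -24, 6, 81), (-64, -9, -9, 81), (-64, -9, 36, 36), (-54, -24, -4,
  81), (-24, -9, -4, 36), (-24, -9, 16, 16), (-9, -4, -4, 16), (-9, -4, 6, 6)]

theorem c1 : ∀ i ∈ List.range 10, ∀ k ∈ List.range 7, ∀ e ∈ [(1 : ℤ), -1],
    (e * (2 ^ i * 3 ^ k)) % 5 = 1 → e * (2 ^ i * 3 ^ k) ≠ 1 →
    e * (2 ^ i * 3 ^ k) * (e * (2 ^ i * 3 ^ k)) ≤ 1866240 → e * (2 ^ i * 3 ^ k) ∈ SD := by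
  decide +kernel

theorem c2 : ∀ x ∈ SD, ∀ y ∈ SD, x ≤ y → ∀ z ∈ SD, y ≤ z → z ≤ -1 - (x + y + z) →
    -1 - (x + y + z) ∈ SD → (x, y, z, -1 - (x + y + z)) ∈ QL := by
  decide +kernel

/-- the vector of a quadruple -/
def vc (t : ℤ × ℤ × ℤ × ℤ) : Fin 4 → ℤ := ![t.1, t.2.1, t.2.2.1, t.2.2.2]

theorem c3 : ∀ a ∈ List.range 10, ∀ c ∈ List.range 7, 2 ^ a * 3 ^ c % 5 = 4 → ∀ t ∈ QL,
    (∀ j, vc t j ∣ 2 ^ a * 3 ^ c) → 1 + ∑ j, vc t j * vc t j ≤ 5 * 2 ^ a * 3 ^ c →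
    ((vc t 1 < 0 ∧ 0 < vc t 2) ∨ (vc t 0 = vc t 1 ∧ vc t 2 < 0) ∨ vc t 1 = vc t 2 ∨
      (0 < vc t 1 ∧ vc t 2 = vc t 3)) →
    (∃ I : Finset (Fin 4), (∀ j ∈ I, ∀ k ∈ List.range 11, (vc t j).natAbs ≠ 2 ^ k) ∧
      2 ^ a ∣ 1 + ∑ j ∈ I, vc t j) →
    (∃ I : Finset (Fin 4), (∀ j ∈ I, ∀ k ∈ List.range 11, (vc t j).natAbs ≠ 3 ^ k) ∧
      3 ^ c ∣ 1 + ∑ j ∈ I, vc t j) →
    (a, c) = (6, 4) ∧ (t = (-64, -24, 6, 81) ∨ t = (-64, -54, 36, 81)) ∨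
      (a, c) = (8, 6) ∧ (t = (-729, -64, 216, 576) ∨ t = (-729, 216, 256, 256)) := by
  decide +kernel

end B2f
open B2f

theorem b2fin {a c : ℕ} {s : Fin 4 → ℤ} (h : N5 a c s) (ha : a ≤ 9) (hc : c ≤ 6) :
    (a, c) = (6, 4) ∧ (s = ![-64, -24, 6, 81] ∨ s = ![-64, -54, 36, 81]) ∨
      (a, c) = (8, 6) ∧ (s = ![-729, -64, 216, 576] ∨ s = ![-729, 216, 256, 256]) := by
  have bd : (5 * 2 ^ a * 3 ^ c : ℤ) ≤ 5 * 2 ^ 9 * 3 ^ 6 := by gcongr <;> norm_num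
  have mem : ∀ j, s j ∈ SD := fun j => by
    have d : (s j).natAbs ∣ 2 ^ a * 3 ^ c := by
      have := Int.natAbs_dvd_natAbs.2 (h.dv j)
      simpa [Int.natAbs_mul, Int.natAbs_pow] using this
    obtain ⟨u, v, hu, hv, e⟩ := exists_dvd_and_dvd_of_dvd_mul d
    obtain ⟨i, hi, rfl⟩ := (Nat.dvd_prime_pow Nat.prime_two).1 hu
    obtain ⟨k, hk, rfl⟩ := (Nat.dvd_prime_pow Nat.prime_three).1 hv
    have sq : s j * s j ≤ 1866240 := by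
      have := Finset.single_le_sum (f := fun j => s j * s j) (fun j _ => mul_self_nonneg (s j))
        (Finset.mem_univ j)
      have := h.sq
      omega
    obtain ⟨ε, hε, e'⟩ : ∃ ε ∈ [(1 : ℤ), -1], s j = ε * (2 ^ i * 3 ^ k) := by
      rcases Int.natAbs_eq (s j) with l | l
      · exact ⟨1, by simp, by rw [l, e]; simp⟩
      · exact ⟨-1, by simp, by rw [l, e]; simp⟩
    rw [e']
    exact c1 i (List.mem_range.2 (by omega)) k (List.mem_range.2 (by omega)) ε hε (e' ▸ h.md j)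
      (e' ▸ h.ne j) (e' ▸ sq)
  have sm := h.sum
  rw [Fin.sum_univ_four] at sm
  have e3 : -1 - (s 0 + s 1 + s 2) = s 3 := by omega
  have q := c2 _ (mem 0) _ (mem 1) (h.mono (by decide)) _ (mem 2) (h.mono (by decide))
    (e3 ▸ h.mono (by decide)) (e3 ▸ mem 3)
  rw [e3] at q
  have ev : vc (s 0, s 1, s 2, s 3) = s := by ext j; fin_cases j <;> rfl
  obtain ⟨I, i1, i2⟩ := h.bt2
  obtain ⟨J, j1, j2⟩ := h.bt3
  have := c3 a (List.mem_range.2 (by omega)) c (List.mem_range.2 (by omega)) h.syl _ q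
    (by rw [ev]; exact h.dv) (by rw [ev]; exact h.sq) (by rw [ev]; exact h.rs)
    (by rw [ev]; exact ⟨I, fun j hj k _ => i1 j hj k, i2⟩)
    (by rw [ev]; exact ⟨J, fun j hj k _ => j1 j hj k, j2⟩)
  rcases this with ⟨k, l | l⟩ | ⟨k, l | l⟩ <;> rw [l] at ev
  · exact .inl ⟨k, .inl ev.symm⟩
  · exact .inl ⟨k, .inr ev.symm⟩
  · exact .inr ⟨k, .inl ev.symm⟩
  · exact .inr ⟨k, .inr ev.symm⟩

end TQ
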