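import Mathlib.Data.Nat.ModEq
import Mathlib.Tactic

/-! Four exponential equations, killed by congruences. -/

set_option autoImplicit false
set_option maxRecDepth 100000

namespace TQ.X4

theorem pw {a N L : ℕ} (h : a ^ L % N = 1 % N) (k : ℕ) : a ^ k ≡ a ^ (k % L) [MOD N] := by
  have h' : a ^ L ≡ 1 [MOD N] := h
  conv_lhs => rw [← Nat.div_add_mod k L, pow_add, pow_mul]
  have := (h'.pow (k / L)).mul_right (a ^ (k % L))
  rwa [one_pow, one_mul] at this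

/-- modular exponentiation by squaring -/
def pm (N : ℕ) : ℕ → ℕ → ℕ → ℕ
  | 0, _, _ => 1
  | f + 1, a, e => if e = 0 then 1 else
      if e % 2 = 0 then pm N f (a * a % N) (e / 2) else a * pm N f (a * a % N) (e / 2) % N

theorem pm_eq (N : ℕ) : ∀ f a e, e < 2 ^ f → pm N f a e ≡ a ^ e [MOD N]
  | 0, a, e, h => by
    obtain rfl : e = 0 := by omega
    rfl
  | f + 1, a, e, h => by
    have ih := pm_eq N f (a * a % N) (e / 2) (by rw [pow_succ] at h; omega)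
    have ih2 : pm N f (a * a % N) (e / 2) ≡ a ^ (2 * (e / 2)) [MOD N] := by
      rw [pow_mul, sq]; exact ih.trans ((Nat.mod_modEq _ _).pow _)
    unfold pm
    split_ifs with h1 h2
    · subst h1; rfl
    · rwa [show 2 * (e / 2) = e by omega] at ih2
    · refine (Nat.mod_modEq _ _).trans ?_
      conv_rhs => rw [show e = 2 * (e / 2) + 1 by omega, pow_succ']
      exact ih2.mul_left a

/-- the test: `2 ^ i + B = A` modulo several moduli -/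
def ok (T M A B j : ℕ) : Prop :=
  A % T = B % T ∧ (2 ^ j + B) % M = A % M ∧
    pm 21523361 18 (A + 21523360 * B) 134521 % 21523361 =
      pm 21523361 18 (pm 21523361 18 2 134521) j % 21523361

instance decOk (T M A B j : ℕ) : Decidable (ok T M A B j) := by unfold ok; infer_instance

theorem ok_of {T M t A B A' B' i : ℕ} (hT : T = 2 ^ t) (hM : 2 ^ 480 % M = 1 % M) (hi : t ≤ i)
    (h : 2 ^ i + B = A)
    (a1 : A ≡ A' [MOD T]) (b1 : B ≡ B' [MOD T]) (a2 : A ≡ A' [MOD M])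
    (b2 : B ≡ B' [MOD M]) (a3 : A ≡ A' [MOD 21523361]) (b3 : B ≡ B' [MOD 21523361]) :
    ok T M A' B' (i % 480) := by
  refine ⟨?_, ?_, ?_⟩
  · refine a1.symm.trans (Nat.ModEq.trans ?_ b1)
    rw [← h]
    have : 2 ^ i ≡ 0 [MOD T] := (Nat.modEq_zero_iff_dvd).2 (hT ▸ pow_dvd_pow 2 hi)
    simpa using this.add_right B
  · refine Nat.ModEq.trans ?_ a2
    rw [← h]
    exact ((pw hM i).add b2).symm
  · have e1 : A' + 21523360 * B' ≡ 2 ^ i [MOD 21523361] := by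
      refine (a3.add (b3.mul_left 21523360)).symm.trans ?_
      rw [← h]
      have : 2 ^ i + B + 21523360 * B = 2 ^ i + 21523361 * B := by ring
      rw [this]
      exact (Nat.modEq_iff_dvd' (Nat.le_add_right _ _)).2 (by simp) |>.symm
    have w := pm_eq 21523361 18 2 134521 (by norm_num)
    refine (pm_eq _ 18 _ _ (by norm_num)).trans (Nat.ModEq.trans (e1.pow _) ?_)
    refine Nat.ModEq.trans ?_ (pm_eq _ 18 _ _ (by omega)).symm
    rw [← pow_mul, mul_comm, pow_mul]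
    refine (w.symm.pow i).trans (pw (L := 480) ?_ i)
    have := pm_eq 21523361 18 (pm 21523361 18 2 134521) 480 (by norm_num)
    refine this.symm.trans ?_
    change _ % _ = _ % _
    decide +kernel

theorem m3 {N : ℕ} (h : 3 ^ 256 % N = 1 % N) (k : ℕ) : 3 ^ k ≡ 3 ^ (k % 256) [MOD N] := pw h k

theorem n4 : 2 ^ 480 % 34571897 = 1 % 34571897 := by decide +kernel
theorem n1 : 3 ^ 256 % 1024 = 1 % 1024 := by decide +kernel
theorem n2 : 3 ^ 256 % 34571897 = 1 % 34571897 := by decide +kernel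
theorem n3 : 3 ^ 256 % 21523361 = 1 % 21523361 := by decide +kernel

theorem cA : ∀ a < 64, ∀ b < 64, (3 ^ (4 * a + 2) + 8 * 3 ^ (4 * b + 1)) % 512 = 1 % 512 →
    ∀ d < 120, ¬ ok 512 34571897 (3 ^ (4 * a + 2) + 8 * 3 ^ (4 * b + 1)) 1 (4 * d + 1) := by
  decide +kernel

theorem eqA (n k m : ℕ) (hn : 9 ≤ n) (n4 : n % 4 = 1) (k4 : k % 4 = 2) (m4 : m % 4 = 1) :
    1 + 2 ^ n ≠ 3 ^ k + 8 * 3 ^ m := fun h => by
  have n0 : 3 ^ 256 % 512 = 1 % 512 := by decide +kernel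
  have f : ∀ {N : ℕ}, 3 ^ 256 % N = 1 % N →
      3 ^ k + 8 * 3 ^ m ≡ 3 ^ (k % 256) + 8 * 3 ^ (m % 256) [MOD N] :=
    fun e => (m3 e k).add ((m3 e m).mul_left 8)
  have := ok_of (T := 512) (t := 9) (by norm_num) X4.n4 hn ((add_comm _ _).trans h) (f n0) rfl (f n2) rfl
    (f n3) rfl
  rw [show k % 256 = 4 * (k % 256 / 4) + 2 by omega, show m % 256 = 4 * (m % 256 / 4) + 1 by omega,
    show n % 480 = 4 * (n % 480 / 4) + 1 by omega] at this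
  exact cA _ (by omega) _ (by omega) this.1 _ (by omega) this

theorem cE : ∀ a < 64, ∀ b < 64, 3 ^ (4 * a + 2) % 1024 = (1 + 8 * 3 ^ (4 * b + 3)) % 1024 →
    ∀ d < 120, ¬ ok 1024 34571897 (3 ^ (4 * a + 2)) (1 + 8 * 3 ^ (4 * b + 3)) (4 * d + 1) := by
  decide +kernel

theorem eqE (n k m : ℕ) (hn : 13 ≤ n) (n4 : n % 4 = 1) (k4 : k % 4 = 2) (m4 : m % 4 = 3) :
    1 + 2 ^ n + 8 * 3 ^ m ≠ 3 ^ k := fun h => by
  have f : ∀ {N : ℕ}, 3 ^ 256 % N = 1 % N → 1 + 8 * 3 ^ m ≡ 1 + 8 * 3 ^ (m % 256) [MOD N] :=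
    fun e => ((m3 e m).mul_left 8).add_left 1
  have := ok_of (T := 1024) (t := 10) (i := n) (B := 1 + 8 * 3 ^ m) (by norm_num) X4.n4 (by omega)
    (by rw [← h]; ring) (m3 n1 k) (f n1) (m3 n2 k) (f n2) (m3 n3 k) (f n3)
  rw [show k % 256 = 4 * (k % 256 / 4) + 2 by omega, show m % 256 = 4 * (m % 256 / 4) + 3 by omega,
    show n % 480 = 4 * (n % 480 / 4) + 1 by omega] at this
  exact cE _ (by omega) _ (by omega) this.1 _ (by omega) this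

theorem l1 : 3 ^ 32 % 128 = 1 % 128 := by decide +kernel
theorem l3 : 3 ^ 32 % 21523361 = 1 % 21523361 := by decide +kernel
theorem l2 : 3 ^ 32 % 134521 = 1 % 134521 := by decide +kernel
theorem l4 : 2 ^ 480 % 134521 = 1 % 134521 := by decide +kernel

theorem cP1 : ∀ a < 8, ∀ b < 8, ∀ c < 8,
    (1 + 3 ^ (4 * a) + 2 * 3 ^ (4 * b + 1)) % 128 = (8 * 3 ^ (4 * c + 1)) % 128 → ∀ d < 120,
    ¬ ok 128 134521 (1 + 3 ^ (4 * a) + 2 * 3 ^ (4 * b + 1)) (8 * 3 ^ (4 * c + 1)) (4 * d + 2) := by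
  decide +kernel

theorem eqP1' (i k m l : ℕ) (hi : 7 ≤ i) (i4 : i % 4 = 2) (k4 : k % 4 = 0) (m4 : m % 4 = 1)
    (l4' : l % 4 = 1) : 1 + 3 ^ k + 2 * 3 ^ m ≠ 2 ^ i + 8 * 3 ^ l := fun h => by
  have f : ∀ {N : ℕ}, 3 ^ 32 % N = 1 % N →
      1 + 3 ^ k + 2 * 3 ^ m ≡ 1 + 3 ^ (k % 32) + 2 * 3 ^ (m % 32) [MOD N] :=
    fun e => ((pw e k).add_left 1).add ((pw e m).mul_left 2)
  have g : ∀ {N : ℕ}, 3 ^ 32 % N = 1 % N → 8 * 3 ^ l ≡ 8 * 3 ^ (l % 32) [MOD N] :=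
    fun e => (pw e l).mul_left 8
  have := ok_of (T := 128) (t := 7) (by norm_num) l4 hi h.symm (f l1) (g l1) (f l2) (g l2)
    (f l3) (g l3)
  rw [show k % 32 = 4 * (k % 32 / 4) by omega, show m % 32 = 4 * (m % 32 / 4) + 1 by omega,
    show l % 32 = 4 * (l % 32 / 4) + 1 by omega,
    show i % 480 = 4 * (i % 480 / 4) + 2 by omega] at this
  exact cP1 _ (by omega) _ (by omega) _ (by omega) this.1 _ (by omega) this

theorem eqP1 (i k m l : ℕ) (hi : 10 ≤ i) (i4 : i % 4 = 2) (k4 : k % 4 = 0) (m4 : m % 4 = 1)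
    (l4' : l % 4 = 1) (_ : m ≤ k) (_ : l ≤ k) : 1 + 3 ^ k + 2 * 3 ^ m ≠ 2 ^ i + 8 * 3 ^ l :=
  eqP1' i k m l (by omega) i4 k4 m4 l4'

theorem cP2 : ∀ a < 8, ∀ b < 8, ∀ c < 8,
    (1 + 3 ^ (4 * a) + 4 * 3 ^ (4 * b + 2)) % 128 = (2 * 3 ^ (4 * c + 3)) % 128 → ∀ d < 120,
    ¬ ok 128 134521 (1 + 3 ^ (4 * a) + 4 * 3 ^ (4 * b + 2)) (2 * 3 ^ (4 * c + 3)) (4 * d + 2) := by
  decide +kernel

theorem eqP2' (i k l m : ℕ) (hi : 7 ≤ i) (i4 : i % 4 = 2) (k4 : k % 4 = 0) (l4' : l % 4 = 2)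
    (m4 : m % 4 = 3) : 1 + 3 ^ k + 4 * 3 ^ l ≠ 2 ^ i + 2 * 3 ^ m := fun h => by
  have f : ∀ {N : ℕ}, 3 ^ 32 % N = 1 % N →
      1 + 3 ^ k + 4 * 3 ^ l ≡ 1 + 3 ^ (k % 32) + 4 * 3 ^ (l % 32) [MOD N] :=
    fun e => ((pw e k).add_left 1).add ((pw e l).mul_left 4)
  have g : ∀ {N : ℕ}, 3 ^ 32 % N = 1 % N → 2 * 3 ^ m ≡ 2 * 3 ^ (m % 32) [MOD N] :=
    fun e => (pw e m).mul_left 2
  have := ok_of (T := 128) (t := 7) (by norm_num) l4 hi h.symm (f l1) (g l1) (f l2) (g l2)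
    (f l3) (g l3)
  rw [show k % 32 = 4 * (k % 32 / 4) by omega, show l % 32 = 4 * (l % 32 / 4) + 2 by omega,
    show m % 32 = 4 * (m % 32 / 4) + 3 by omega,
    show i % 480 = 4 * (i % 480 / 4) + 2 by omega] at this
  exact cP2 _ (by omega) _ (by omega) _ (by omega) this.1 _ (by omega) this

theorem eqP2 (i k l m : ℕ) (hi : 10 ≤ i) (i4 : i % 4 = 2) (k4 : k % 4 = 0) (l4' : l % 4 = 2)
    (m4 : m % 4 = 3) (_ : m ≤ k) (_ : l ≤ k) : 1 + 3 ^ k + 4 * 3 ^ l ≠ 2 ^ i + 2 * 3 ^ m :=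
  eqP2' i k l m (by omega) i4 k4 l4' m4

end TQ.X4
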