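import Cfsg.Agent.TQ.B2c
import Cfsg.Agent.TQ.B2x
import Cfsg.Agent.TQ.B2f

/-! The numerical data of the principal 5-block. -/

set_option autoImplicit false

namespace TQ.B2

variable {a c : ℕ} {x y u w : ℤ}

/-- admissible numbers -/
def Ad (a c : ℕ) (z : ℤ) : Prop := ∃ i k, i ≤ a ∧ k ≤ c ∧ (0 < i ∨ 0 < k) ∧ Sg z i k

theorem eqs : Eqs := ⟨X4.eqA, X4.eqE, X4.eqP1, X4.eqP2⟩

theorem m1 (H : Cq a c x y u w) (hx : Ad a c x) (hy : Ad a c y) (hu : Ad a c u) (hw : Ad a c w)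
    (x3 : x % 3 ≠ 0) (y2 : y % 2 ≠ 0) : x = y ∨ a ≤ 9 ∧ c ≤ 6 := by
  obtain ⟨i, k', ia, -, i0, hx⟩ := hx
  obtain ⟨i', k, -, kc, k0, hy⟩ := hy
  obtain ⟨j, m, ja, mc, p, hu⟩ := hu
  obtain ⟨j', l, ja', lc, q, hw⟩ := hw
  obtain rfl : k' = 0 := by have := hx.m3; omega
  obtain rfl : i' = 0 := by have := hy.m16; omega
  have i0 : 0 < i := by omega
  have k0 : 0 < k := by omega
  have s := H.sum
  have x2 := (hx.X i0).1
  have ev : ∀ {z : ℤ} {j m : ℕ}, Sg z j m → 0 < j → z % 2 = 0 := fun h _ => by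
    have := h.m16; omega
  right
  rcases j.eq_zero_or_pos with rfl | j0 <;> rcases j'.eq_zero_or_pos with rfl | j1
  · exact (caseY H hx hy hu hw i0 k0 kc (by omega) mc (by omega) lc).elim
  · have := (hu.Y (by omega)).2.1; have := ev hw j1; omega
  · have := (hw.Y (by omega)).2.1; have := ev hu j0; omega
  rcases m.eq_zero_or_pos with rfl | m0 <;> rcases l.eq_zero_or_pos with rfl | l0
  · exact (caseX3 H hx hy hu hw i0 ia j0 ja j1 ja' k0).elim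
  · exact caseX2 eqs H hx hy hu hw i0 ia j0 ja j1 k0 kc l0 lc
  · exact caseX2 eqs H.s23 hx hy hw hu i0 ia j1 ja' j0 k0 kc m0 mc
  · exact caseX1 eqs H hx hy hu hw i0 ia j0 ja j1 ja' k0 kc m0 mc l0 lc

theorem m2 (H : Cq a c x y u w) (hx : Ad a c x) (hy : Ad a c y) (hu : Ad a c u) (hw : Ad a c w)
    (x3 : x % 3 ≠ 0) : a ≤ 9 ∧ c ≤ 6 := by
  have x2 : x % 2 = 0 := by
    obtain ⟨i, k, -, -, i0, h⟩ := hx
    have := h.m3; have := h.m16; omega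
  have s := H.sum
  rcases (by omega : y % 2 ≠ 0 ∨ u % 2 ≠ 0 ∨ w % 2 ≠ 0) with h | h | h
  · exact (m1 H hx hy hu hw x3 h).resolve_left (by omega)
  · exact (m1 H.s12 hx hu hy hw x3 h).resolve_left (by omega)
  · exact (m1 H.s23.s12 hx hw hy hu x3 h).resolve_left (by omega)

theorem m3 (H : Cq a c x y u w) (hx : Ad a c x) (hy : Ad a c y) (hu : Ad a c u) (hw : Ad a c w) :
    a ≤ 9 ∧ c ≤ 6 := by
  have s := H.sum
  rcases (by omega : x % 3 ≠ 0 ∨ y % 3 ≠ 0 ∨ u % 3 ≠ 0 ∨ w % 3 ≠ 0) with h | h | h | h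
  · exact m2 H hx hy hu hw h
  · exact m2 H.s01 hy hx hu hw h
  · exact m2 H.s12.s01 hu hx hy hw h
  · exact m2 H.s23.s12.s01 hw hx hy hu h

theorem sub {s : Fin 4 → ℤ} {n p : ℤ} (I : Finset (Fin 4)) (h : ∀ j ∈ I, s j % p = 0)
    (d : n ∣ 1 + ∑ j ∈ I, s j) : ∃ e f g h : ℤ, (e = 0 ∨ e = s 0 ∧ s 0 % p = 0) ∧
      (f = 0 ∨ f = s 1 ∧ s 1 % p = 0) ∧ (g = 0 ∨ g = s 2 ∧ s 2 % p = 0) ∧
      (h = 0 ∨ h = s 3 ∧ s 3 % p = 0) ∧ n ∣ 1 + e + f + g + h := by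
  have t : ∀ j, (if j ∈ I then s j else 0) = 0 ∨ (if j ∈ I then s j else 0) = s j ∧ s j % p = 0 :=
    fun j => by
      split_ifs with c
      · exact .inr ⟨rfl, h j c⟩
      · exact .inl rfl
  refine ⟨_, _, _, _, t 0, t 1, t 2, t 3, de d ?_⟩
  rw [← Finset.univ_inter I, ← Finset.sum_ite_mem, Fin.sum_univ_four, Finset.univ_inter]; ring

theorem bound {s : Fin 4 → ℤ} (h : N5 a c s) : a ≤ 9 ∧ c ≤ 6 := by
  have ad : ∀ j, Ad a c (s j) := fun j => sg_of (h.dv j) (h.md j) (h.ne j)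
  have sm := h.sum
  have sq := h.sq
  rw [Fin.sum_univ_four] at sm sq
  refine m3 ⟨by linarith, by linarith, ?_, ?_, ?_, ?_⟩ (ad 0) (ad 1) (ad 2) (ad 3)
  · have e : (2 : ℤ) ^ a * 3 ^ c % 5 = 4 := by exact_mod_cast h.syl
    rw [Int.mul_emod, pm 2 5 4 a (by decide), pm 3 5 4 c (by decide)] at e
    have b1 : a % 4 < 4 := Nat.mod_lt _ (by norm_num)
    have b2 : c % 4 < 4 := Nat.mod_lt _ (by norm_num)
    rw [Nat.add_mod]
    interval_cases a % 4 <;> interval_cases c % 4 <;> simp at e ⊢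
  · have m1 : s 0 ≤ s 1 := h.mono (by decide)
    have m2 : s 2 ≤ s 3 := h.mono (by decide)
    rcases h.rs with ⟨p, q⟩ | p | p | p
    · left
      rw [mul_assoc]
      exact mul_pos (mul_pos_of_neg_of_neg (by omega) p) (mul_pos q (by omega))
    all_goals tauto
  · obtain ⟨I, p, d⟩ := h.bt2
    refine sub I (fun j hj => ?_) d
    obtain ⟨i, k, -, -, -, g⟩ := ad j
    rcases g.m3 with ⟨rfl, -⟩ | g'
    · exact absurd (by rcases g with ⟨e, -⟩ | ⟨e, -⟩ <;> simp [e, Int.natAbs_pow]) (p j hj i)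
    · exact g'.2
  · obtain ⟨I, p, d⟩ := h.bt3
    refine sub I (fun j hj => ?_) d
    obtain ⟨i, k, -, -, -, g⟩ := ad j
    rcases i.eq_zero_or_pos with rfl | i0
    · exact absurd (by rcases g with ⟨e, -⟩ | ⟨e, -⟩ <;> simp [e, Int.natAbs_pow]) (p j hj k)
    · have := g.m16; omega

end TQ.B2

namespace TQ

theorem b2 {a c : ℕ} {s : Fin 4 → ℤ} (h : N5 a c s) :
    (a, c) = (6, 4) ∧ (s = ![-64, -24, 6, 81] ∨ s = ![-64, -54, 36, 81]) ∨
      (a, c) = (8, 6) ∧ (s = ![-729, -64, 216, 576] ∨ s = ![-729, 216, 256, 256]) :=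
  b2fin h (B2.bound h).1 (B2.bound h).2

end TQ
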