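import Mathlib

/-! Signed numbers `± 2 ^ i * 3 ^ k` congruent to one modulo five: tools. -/

set_option autoImplicit false

namespace TQ.B2

/-- signed degree -/
def Sg (t : ℤ) (i k : ℕ) : Prop :=
  t = 2 ^ i * 3 ^ k ∧ i % 4 = k % 4 ∨ t = -(2 ^ i * 3 ^ k) ∧ (i + 2) % 4 = k % 4

theorem pm (b M : ℤ) (T n : ℕ) (h : b ^ T ≡ 1 [ZMOD M]) : b ^ n % M = b ^ (n % T) % M := by
  have := (h.pow (n / T)).mul_right (b ^ (n % T))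
  rwa [← pow_mul, ← pow_add, Nat.div_add_mod, one_pow, one_mul] at this

theorem h16 (k : ℕ) : k % 4 = 0 ∧ (3 : ℤ) ^ k % 16 = 1 ∨ k % 4 = 1 ∧ (3 : ℤ) ^ k % 16 = 3 ∨
    k % 4 = 2 ∧ (3 : ℤ) ^ k % 16 = 9 ∨ k % 4 = 3 ∧ (3 : ℤ) ^ k % 16 = 11 := by
  rw [pm 3 16 4 k (by decide)]
  have : k % 4 < 4 := Nat.mod_lt _ (by norm_num)
  interval_cases k % 4 <;> simp

theorem h3 (i : ℕ) : i % 2 = 0 ∧ (2 : ℤ) ^ i % 3 = 1 ∨ i % 2 = 1 ∧ (2 : ℤ) ^ i % 3 = 2 := by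
  rw [pm 2 3 2 i (by decide)]
  have : i % 2 < 2 := Nat.mod_lt _ (by norm_num)
  interval_cases i % 2 <;> simp

variable {z z' x y w N : ℤ} {j m j' m' a c i k l : ℕ}

theorem Sg.m16 (h : Sg z j m) :
    j = 0 ∧ (m % 4 = 0 ∧ z % 16 = 1 ∨ m % 4 = 2 ∧ z % 16 = 7) ∨
    j = 1 ∧ (m % 4 = 1 ∧ z % 16 = 6 ∨ m % 4 = 3 ∧ z % 16 = 10) ∨
    j = 2 ∧ (m % 4 = 2 ∧ z % 16 = 4 ∨ m % 4 = 0 ∧ z % 16 = 12) ∨
    j = 3 ∧ z % 16 = 8 ∨ 4 ≤ j ∧ z % 16 = 0 := by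
  have := h16 m
  rcases j with _ | _ | _ | _ | j
  iterate 4 rcases h with ⟨rfl, h⟩ | ⟨rfl, h⟩ <;> norm_num at h ⊢ <;> omega
  have : (2 : ℤ) ^ (j + 1 + 1 + 1 + 1) * 3 ^ m = 16 * (2 ^ j * 3 ^ m) := by ring
  rcases h with ⟨rfl, h⟩ | ⟨rfl, h⟩ <;> omega

theorem Sg.m3 (h : Sg z j m) :
    m = 0 ∧ (j % 4 = 0 ∧ z % 3 = 1 ∨ j % 4 = 2 ∧ z % 3 = 2) ∨ 0 < m ∧ z % 3 = 0 := by
  have := h3 j
  rcases m with _ | m
  · rcases h with ⟨rfl, h⟩ | ⟨rfl, h⟩ <;> norm_num at h ⊢ <;> omega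
  have : (2 : ℤ) ^ j * 3 ^ (m + 1) = 3 * (2 ^ j * 3 ^ m) := by ring
  rcases h with ⟨rfl, h⟩ | ⟨rfl, h⟩ <;> omega

/-- exact power -/
def Ex (p : ℤ) (j : ℕ) (z : ℤ) : Prop := ∃ o, z = p ^ j * o ∧ ¬ p ∣ o

theorem Ex.le {p : ℤ} (h : Ex p j z) (p0 : p ≠ 0) (d : p ^ a ∣ z) : a ≤ j := by
  obtain ⟨o, rfl, ho⟩ := h
  by_contra! l
  exact ho ((mul_dvd_mul_iff_left (pow_ne_zero j p0)).1
    (pow_succ p j ▸ (pow_dvd_pow p l).trans d))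

theorem Ex.le2 {p : ℤ} (h : Ex p j z) (h' : Ex p j' z') (p0 : p ≠ 0) (l : j < j')
    (d : p ^ a ∣ z + z') : a ≤ j := by
  obtain ⟨o, rfl, ho⟩ := h
  obtain ⟨o', rfl, -⟩ := h'
  obtain ⟨e, rfl⟩ := Nat.exists_eq_add_of_lt l
  exact Ex.le ⟨o + p * (p ^ e * o'), by ring, fun c =>
    ho ((dvd_add_left (dvd_mul_right _ _)).1 c)⟩ p0 d

theorem Sg.ex2 (h : Sg z j m) : Ex 2 j z := by
  have := h16 m
  rcases h with ⟨rfl, -⟩ | ⟨rfl, -⟩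
  · exact ⟨_, rfl, by omega⟩
  · exact ⟨-3 ^ m, by ring, by omega⟩

theorem Sg.ex3 (h : Sg z j m) : Ex 3 m z := by
  have := h3 j
  rcases h with ⟨rfl, -⟩ | ⟨rfl, -⟩
  · exact ⟨2 ^ j, by ring, by omega⟩
  · exact ⟨-2 ^ j, by ring, by omega⟩

theorem Sg.sq (h : Sg z j m) : z * z = (2 ^ j * 3 ^ m) * (2 ^ j * 3 ^ m) := by
  rcases h with ⟨rfl, -⟩ | ⟨rfl, -⟩ <;> ring

theorem Sg.am (h : Sg z j m) (h' : Sg z' j' m') (s : z * z + z' * z' ≤ N) :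
    2 * ((2 ^ j * 3 ^ m) * (2 ^ j' * 3 ^ m')) ≤ N := by
  rw [h.sq, h'.sq] at s
  nlinarith [mul_self_nonneg ((2 : ℤ) ^ j * 3 ^ m - 2 ^ j' * 3 ^ m')]

theorem lte {e : ℕ} (d : (3 : ℤ) ^ (e + 1) ∣ 2 ^ i - 1) (i0 : 0 < i) (ev : i % 2 = 0) :
    2 * (3 : ℤ) ^ e ≤ i := by
  obtain ⟨n, rfl⟩ : ∃ n, i = 2 * n := ⟨i / 2, by omega⟩
  have : Fact (Nat.Prime 3) := ⟨Nat.prime_three⟩
  have l : 1 < 4 ^ n := Nat.one_lt_pow (by omega) (by norm_num)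
  have d' : 3 ^ (e + 1) ∣ 4 ^ n - 1 ^ n := by
    rw [one_pow]; zify [l.le]; rw [pow_mul] at d; exact d
  have v := padicValNat.pow_sub_pow (p := 3) (by decide) (x := 4) (y := 1) (by norm_num)
    (by norm_num) (by norm_num) (n := n) (by omega)
  rw [padicValNat_dvd_iff_le (by rw [one_pow]; omega), v, show 4 - 1 = 3 from rfl,
    padicValNat_self] at d'
  have := Nat.le_of_dvd (by omega) ((padicValNat_dvd_iff_le (p := 3) (a := n) (n := e)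
    (by omega)).2 (by omega))
  exact_mod_cast Nat.mul_le_mul_left 2 this

theorem gr (i : ℕ) (h : 10 ≤ i) : 60 * (i : ℤ) < 2 ^ i := by
  induction i, h using Nat.le_induction with
  | base => norm_num
  | succ n h ih => push_cast; rw [pow_succ]; omega

theorem p2 (h : a ≤ i + j) : (2 : ℤ) ^ a ≤ 2 ^ j * 2 ^ i := by
  rw [← pow_add]; exact pow_le_pow_right₀ (by norm_num) (by omega)

theorem p3 (h : a ≤ i + j) : (3 : ℤ) ^ a ≤ 3 ^ j * 3 ^ i := by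
  rw [← pow_add]; exact pow_le_pow_right₀ (by norm_num) (by omega)

theorem A3 (hy : Sg y 0 k) (d : 2 ^ a ∣ 1 + y) : a ≤ 3 := by
  by_contra! l
  have : (16 : ℤ) ∣ 1 + y := (pow_dvd_pow 2 l).trans d
  have := hy.m16
  omega

theorem T3' (hy : Sg y 0 k) (hw : Sg w j l) (j0 : 0 < j) (d : 3 ^ c ∣ y + w) (kc : k < c)
    (lc : l ≤ c) : l = k ∧ j % 4 = 2 ∧ 2 * (3 : ℤ) ^ c ≤ 3 * j * 3 ^ k := by
  obtain rfl : l = k := by
    rcases lt_trichotomy l k with h | h | h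
    · have := hw.ex3.le2 hy.ex3 (by norm_num) h (add_comm y w ▸ d); omega
    · exact h
    · have := hy.ex3.le2 hw.ex3 (by norm_num) h d; omega
  obtain ⟨e, rfl⟩ := Nat.exists_eq_add_of_lt kc
  have t := h3 j
  have k0 : (0 : ℤ) < 3 ^ l := by positivity
  have key : ∀ o : ℤ, y + w = 3 ^ l * o → 3 ^ (e + 1) ∣ o := fun o h => by
    rw [h, add_assoc, pow_add] at d; exact (mul_dvd_mul_iff_left k0.ne').1 d
  have fin : (3 : ℤ) ^ (e + 1) ∣ 2 ^ j - 1 → j % 2 = 0 →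
      2 * (3 : ℤ) ^ (l + e + 1) ≤ 3 * j * 3 ^ l := fun a b => by
    have := lte a j0 b
    rw [pow_succ, pow_add]; nlinarith
  have bad : ¬ (3 : ℤ) ^ (e + 1) ∣ 2 ^ j + 1 ∨ j % 2 = 1 := by
    rcases t with t | t
    · exact .inl fun c => by have := (dvd_pow_self 3 e.succ_ne_zero).trans c; omega
    · exact .inr t.1
  rcases hy with ⟨rfl, a⟩ | ⟨rfl, a⟩ <;> rcases hw with ⟨rfl, b⟩ | ⟨rfl, b⟩
  · exact absurd (key (2 ^ j + 1) (by ring)) (bad.resolve_right (by omega))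
  · exact ⟨rfl, by omega, fin (dvd_neg.1 (key _ (by ring))) (by omega)⟩
  · exact ⟨rfl, by omega, fin (key _ (by ring)) (by omega)⟩
  · exact absurd (dvd_neg.1 (key (-(2 ^ j + 1)) (by ring))) (bad.resolve_right (by omega))

theorem S2 (hx : Sg x i 0) (i4 : i % 4 = 2) (hw : Sg w j l) (d : 2 ^ a ∣ x + w) (ia : i < a)
    (ja : j ≤ a) : j = i ∧ a ≤ i + 3 ∧ (i + 2 ≤ a → l % 4 = 2) := by
  obtain rfl : j = i := by
    rcases lt_trichotomy j i with h | h | h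
    · have := hw.ex2.le2 hx.ex2 (by norm_num) h (add_comm x w ▸ d); omega
    · exact h
    · have := hx.ex2.le2 hw.ex2 (by norm_num) h d; omega
  have t := h16 l
  have key : ∀ (o : ℤ) (e : ℕ), x + w = 2 ^ j * o → j + e ≤ a → 2 ^ e ∣ o := fun o e h he => by
    have := (pow_dvd_pow 2 he).trans d
    rw [h, pow_add] at this; exact (mul_dvd_mul_iff_left (by positivity)).1 this
  rcases hx with ⟨rfl, h⟩ | ⟨rfl, -⟩
  · omega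
  rcases hw with ⟨rfl, b⟩ | ⟨rfl, b⟩
  · have := key (3 ^ l - 1) 4 (by ring)
    omega
  · have := key (-3 ^ l - 1) 2 (by ring)
    omega

theorem sg_of (d : z ∣ 2 ^ a * 3 ^ c) (h5 : z % 5 = 1) (n1 : z ≠ 1) :
    ∃ i k, i ≤ a ∧ k ≤ c ∧ (0 < i ∨ 0 < k) ∧ Sg z i k := by
  have d' : z.natAbs ∣ 2 ^ a * 3 ^ c := by exact_mod_cast Int.natAbs_dvd_natAbs.2 d
  obtain ⟨p, q, hp, hq, e⟩ := (Nat.dvd_mul).1 d'
  obtain ⟨i, hi, rfl⟩ := (Nat.dvd_prime_pow Nat.prime_two).1 hp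
  obtain ⟨k, hk, rfl⟩ := (Nat.dvd_prime_pow Nat.prime_three).1 hq
  have e' : (z.natAbs : ℤ) = 2 ^ i * 3 ^ k := by exact_mod_cast e.symm
  have m : (2 : ℤ) ^ i * 3 ^ k % 5 = (2 ^ (i % 4) % 5) * (3 ^ (k % 4) % 5) % 5 := by
    rw [Int.mul_emod, pm 2 5 4 i (by decide), pm 3 5 4 k (by decide)]
  have b1 : i % 4 < 4 := Nat.mod_lt _ (by norm_num)
  have b2 : k % 4 < 4 := Nat.mod_lt _ (by norm_num)
  refine ⟨i, k, hi, hk, ?_, ?_⟩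
  · by_contra! h
    obtain ⟨h1, h2⟩ := h
    rw [Nat.le_zero.1 h1, Nat.le_zero.1 h2] at e'
    omega
  rcases Int.natAbs_eq z with h | h <;> rw [e'] at h
  · refine .inl ⟨h, ?_⟩
    rw [← h, h5] at m
    interval_cases i % 4 <;> interval_cases k % 4 <;> simp at m ⊢
  · refine .inr ⟨h, ?_⟩
    rw [show (2 : ℤ) ^ i * 3 ^ k % 5 = 4 by omega] at m
    rw [Nat.add_mod]
    interval_cases i % 4 <;> interval_cases k % 4 <;> simp at m ⊢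

end TQ.B2
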