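import Cfsg.Agent.TQ.B2a

/-! Boundedness of the numerical data of the principal 5-block. -/

set_option autoImplicit false

namespace TQ.B2

/-- the four exponential equations -/
structure Eqs : Prop where
  A : ∀ n k m : ℕ, 9 ≤ n → n % 4 = 1 → k % 4 = 2 → m % 4 = 1 → 1 + 2 ^ n ≠ 3 ^ k + 8 * 3 ^ m
  E : ∀ n k m : ℕ, 13 ≤ n → n % 4 = 1 → k % 4 = 2 → m % 4 = 3 → 1 + 2 ^ n + 8 * 3 ^ m ≠ 3 ^ k
  P1 : ∀ i k m l : ℕ, 10 ≤ i → i % 4 = 2 → k % 4 = 0 → m % 4 = 1 → l % 4 = 1 → m ≤ k → l ≤ k →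
    1 + 3 ^ k + 2 * 3 ^ m ≠ 2 ^ i + 8 * 3 ^ l
  P2 : ∀ i k l m : ℕ, 10 ≤ i → i % 4 = 2 → k % 4 = 0 → l % 4 = 2 → m % 4 = 3 → m ≤ k → l ≤ k →
    1 + 3 ^ k + 4 * 3 ^ l ≠ 2 ^ i + 2 * 3 ^ m

/-- symmetric form of the data -/
structure Cq (a c : ℕ) (x y u w : ℤ) : Prop where
  sum : 1 + x + y + u + w = 0
  sq : x * x + y * y + u * u + w * w ≤ 5 * 2 ^ a * 3 ^ c
  syl : a % 4 = (c + 2) % 4
  rs : 0 < x * y * u * w ∨ x = y ∨ x = u ∨ x = w ∨ y = u ∨ y = w ∨ u = w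
  b2 : ∃ e f g h : ℤ, (e = 0 ∨ e = x ∧ x % 3 = 0) ∧ (f = 0 ∨ f = y ∧ y % 3 = 0) ∧
    (g = 0 ∨ g = u ∧ u % 3 = 0) ∧ (h = 0 ∨ h = w ∧ w % 3 = 0) ∧ 2 ^ a ∣ 1 + e + f + g + h
  b3 : ∃ e f g h : ℤ, (e = 0 ∨ e = x ∧ x % 2 = 0) ∧ (f = 0 ∨ f = y ∧ y % 2 = 0) ∧
    (g = 0 ∨ g = u ∧ u % 2 = 0) ∧ (h = 0 ∨ h = w ∧ w % 2 = 0) ∧ 3 ^ c ∣ 1 + e + f + g + h

variable {a c i k j m j' l : ℕ} {x y u w : ℤ}

theorem dn {p q r : ℤ} (h : p ∣ q) (e : q + r = 0) : p ∣ r :=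
  dvd_neg.1 ((eq_neg_of_add_eq_zero_left e) ▸ h)

theorem de {p q r : ℤ} (h : p ∣ q) (e : q = r) : p ∣ r := e ▸ h

theorem Cq.s01 (H : Cq a c x y u w) : Cq a c y x u w :=
  ⟨by linarith [H.sum], by linarith [H.sq], H.syl,
    by have := H.rs; rw [mul_comm y x, eq_comm (a := y) (b := x)]; tauto,
    let ⟨e, f, g, h, b1, b2, b3, b4, b5⟩ := H.b2; ⟨f, e, g, h, b2, b1, b3, b4, de b5 (by ring)⟩,
    let ⟨e, f, g, h, b1, b2, b3, b4, b5⟩ := H.b3; ⟨f, e, g, h, b2, b1, b3, b4, de b5 (by ring)⟩⟩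

theorem Cq.s12 (H : Cq a c x y u w) : Cq a c x u y w :=
  ⟨by linarith [H.sum], by linarith [H.sq], H.syl,
    by have := H.rs; rw [mul_right_comm x u y, eq_comm (a := u) (b := y)]; tauto,
    let ⟨e, f, g, h, b1, b2, b3, b4, b5⟩ := H.b2; ⟨e, g, f, h, b1, b3, b2, b4, de b5 (by ring)⟩,
    let ⟨e, f, g, h, b1, b2, b3, b4, b5⟩ := H.b3; ⟨e, g, f, h, b1, b3, b2, b4, de b5 (by ring)⟩⟩

theorem Cq.s23 (H : Cq a c x y u w) : Cq a c x y w u :=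
  ⟨by linarith [H.sum], by linarith [H.sq], H.syl,
    by have := H.rs; rw [mul_right_comm (x * y) w u, eq_comm (a := w) (b := u)]; tauto,
    let ⟨e, f, g, h, b1, b2, b3, b4, b5⟩ := H.b2; ⟨e, f, h, g, b1, b2, b4, b3, de b5 (by ring)⟩,
    let ⟨e, f, g, h, b1, b2, b3, b4, b5⟩ := H.b3; ⟨e, f, h, g, b1, b2, b4, b3, de b5 (by ring)⟩⟩

theorem d3 {n : ℤ} (c0 : 0 < c) (h : 3 ^ c ∣ n) : n % 3 = 0 :=
  Int.emod_eq_zero_of_dvd ((dvd_pow_self 3 c0.ne').trans h)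

theorem d2 {n : ℤ} (c0 : 0 < a) (h : 2 ^ a ∣ n) : n % 2 = 0 :=
  Int.emod_eq_zero_of_dvd ((dvd_pow_self 2 c0.ne').trans h)

theorem Cq.xy (H : Cq a c x y u w) : x * x + y * y ≤ 5 * 2 ^ a * 3 ^ c := by
  nlinarith [H.sq, mul_self_nonneg u, mul_self_nonneg w]

theorem Cq.xw (H : Cq a c x y u w) : x * x + w * w ≤ 5 * 2 ^ a * 3 ^ c := H.s23.s12.xy
theorem Cq.yw (H : Cq a c x y u w) : y * y + w * w ≤ 5 * 2 ^ a * 3 ^ c := H.s01.xw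

theorem Cq.ck (H : Cq a c x y u w) (hy : Sg y 0 c) (a9 : a ≤ 9) : c ≤ 6 := by
  have h := H.xy
  have := hy.m16
  have h1 := p2 (i := 0) (j := 9) a9
  by_contra! l
  have h2 := p3 (a := 8) (i := c) (j := 0) (by omega)
  rw [hy.sq] at h
  simp only [pow_zero, one_mul, mul_one] at *
  nlinarith [mul_self_nonneg x]

theorem ch0 {e n : ℤ} (h : e = 0 ∨ e = x ∧ x % n = 0) (hx : x % n ≠ 0) : e = 0 :=
  h.resolve_right fun c => hx c.2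

theorem chd {e n r : ℤ} (h : e = 0 ∨ e = x ∧ x % n = 0) (hx : x % r = 0) : e % r = 0 := by
  rcases h with rfl | ⟨rfl, -⟩ <;> simp [hx]

theorem Sg.X (h : Sg x i 0) (i0 : 0 < i) : x % 2 = 0 ∧ x % 3 ≠ 0 ∧
    (i % 4 = 0 ∧ x % 3 = 1 ∨ i % 4 = 2 ∧ x % 3 = 2) := by
  have := h.m3; have := h.m16; omega

theorem Sg.Y (h : Sg y 0 k) (k0 : 0 < k) : y % 3 = 0 ∧ y % 2 ≠ 0 ∧
    (k % 4 = 0 ∧ y % 16 = 1 ∨ k % 4 = 2 ∧ y % 16 = 7) := by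
  have := h.m3; have := h.m16; omega

theorem Sg.Z (h : Sg w j l) (j0 : 0 < j) (l0 : 0 < l) : w % 3 = 0 ∧ w % 2 = 0 := by
  have := h.m3; have := h.m16; omega

theorem caseY (H : Cq a c x y u w) (hx : Sg x i 0) (hy : Sg y 0 k) (hu : Sg u 0 m)
    (hw : Sg w 0 l) (i0 : 0 < i) (k0 : 0 < k) (kc : k ≤ c) (m0 : 0 < m) (mc : m ≤ c) (l0 : 0 < l)
    (lc : l ≤ c) : False := by
  obtain ⟨e, f, g, h, b1, b2, b3, b4, b5⟩ := H.b3
  have s := H.sum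
  obtain ⟨-, -, x3⟩ := hx.X i0
  obtain ⟨y1, y2, y3⟩ := hy.Y k0
  obtain ⟨u1, u2, -⟩ := hu.Y m0
  obtain ⟨w1, w2, -⟩ := hw.Y l0
  obtain rfl := ch0 b2 y2
  obtain rfl := ch0 b3 u2
  obtain rfl := ch0 b4 w2
  have := d3 (by omega) b5
  obtain rfl : e = x := by omega
  have c2 : 2 ≤ c := by omega
  have i4 : i % 4 = 2 := by omega
  clear b1 b2 b3 b4 x3 y3
  obtain ⟨c, rfl⟩ : ∃ d, c = d + 1 := ⟨c - 1, by omega⟩
  have bd : ∀ {z : ℤ} {n : ℕ}, Sg z 0 n → n ≤ c + 1 → z ≤ 3 * 3 ^ c := fun {z n} q r => by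
    have := p3 (j := 1) r
    have : (0 : ℤ) < 3 ^ n := by positivity
    rcases q with ⟨rfl, -⟩ | ⟨rfl, -⟩ <;> omega
  have := bd hy kc; have := bd hu mc; have := bd hw lc
  rcases hx with ⟨rfl, q⟩ | ⟨rfl, q⟩
  · omega
  have t := lte (e := c) (i := i) (dn b5 (by ring)) i0 (by omega)
  have := p3 (a := 1) (i := c) (j := 0) (by omega)
  clear b5
  by_cases i9 : 10 ≤ i
  · have := gr i i9; omega
  · have : i = 6 := by omega
    subst this; omega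

theorem caseX3 (H : Cq a c x y u w) (hx : Sg x i 0) (hy : Sg y 0 k) (hu : Sg u j 0)
    (hw : Sg w j' 0) (i0 : 0 < i) (ia : i ≤ a) (j0 : 0 < j) (ja : j ≤ a) (j1 : 0 < j')
    (ja' : j' ≤ a) (k0 : 0 < k) : False := by
  obtain ⟨e, f, g, h, b1, b2, b3, b4, b5⟩ := H.b2
  have s := H.sum
  obtain rfl := ch0 b1 (hx.X i0).2.1
  obtain rfl := ch0 b3 (hu.X j0).2.1
  obtain rfl := ch0 b4 (hw.X j1).2.1
  have := d2 (by omega) b5
  obtain rfl : f = y := by omega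
  have := A3 hy (a := a) (de b5 (by ring))
  clear b1 b2 b3 b4 b5
  have : x % 16 = 12 := by have := hx.m16; have := hx.X i0; omega
  have : u % 16 = 12 := by have := hu.m16; have := hu.X j0; omega
  have : w % 16 = 12 := by have := hw.m16; have := hw.X j1; omega
  have := hy.Y k0
  omega

theorem Cq.c2 (H : Cq a c x y u w) (a0 : 0 < a) (hx : x % 3 ≠ 0) (hu : u % 2 = 0)
    (hw : w % 2 = 0) : 2 ^ a ∣ 1 + y ∨ u % 3 = 0 ∧ 2 ^ a ∣ x + w ∨ 2 ^ a ∣ x + u ∨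
      u % 3 = 0 ∧ 2 ^ a ∣ x := by
  obtain ⟨e, f, g, h, b1, b2, b3, b4, b5⟩ := H.b2
  have s := H.sum
  obtain rfl := ch0 b1 hx
  have := d2 a0 b5
  have := chd b3 hu
  have := chd b4 hw
  obtain rfl : f = y := by clear b1 b3 b4 b5 hx; omega
  rcases b3 with rfl | ⟨rfl, q⟩ <;> rcases b4 with rfl | ⟨rfl, -⟩
  · exact .inl (de b5 (by ring))
  · exact .inr (.inr (.inl (dn b5 (by linarith))))
  · exact .inr (.inl ⟨q, dn b5 (by linarith)⟩)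
  · exact .inr (.inr (.inr ⟨q, dn b5 (by linarith)⟩))

theorem Cq.c3 (H : Cq a c x y u w) (c0 : 0 < c) (hy : y % 2 ≠ 0) (hu : u % 3 = 0)
    (hw : w % 3 = 0) : 3 ^ c ∣ 1 + x ∨ 3 ^ c ∣ y + w ∨ 3 ^ c ∣ y + u ∨ 3 ^ c ∣ y := by
  obtain ⟨e, f, g, h, b1, b2, b3, b4, b5⟩ := H.b3
  have s := H.sum
  obtain rfl := ch0 b2 hy
  have := d3 c0 b5
  have := chd b3 hu
  have := chd b4 hw
  obtain rfl : e = x := by clear b2 b3 b4 b5 hy; omega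
  rcases b3 with rfl | ⟨rfl, q⟩ <;> rcases b4 with rfl | ⟨rfl, -⟩
  · exact .inl (de b5 (by ring))
  · exact .inr (.inr (.inl (dn b5 (by linarith))))
  · exact .inr (.inl (dn b5 (by linarith)))
  · exact .inr (.inr (.inr (dn b5 (by linarith))))

theorem Cq.c3' (H : Cq a c x y u w) (c0 : 0 < c) (hy : y % 2 ≠ 0) (hx : x % 3 = 1) (hu : u % 3 = 1)
    (hw : w % 3 = 0) : 3 ^ c ∣ y + w ∨ 3 ^ c ∣ y := by
  obtain ⟨e, f, g, h, b1, b2, b3, b4, b5⟩ := H.b3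
  have s := H.sum
  obtain rfl := ch0 b2 hy
  have := d3 c0 b5
  have := chd b4 hw
  obtain ⟨rfl, rfl⟩ : e = x ∧ g = u := by clear b2 b4 b5 hy; omega
  rcases b4 with rfl | ⟨rfl, -⟩
  · exact .inl (dn b5 (by linarith))
  · exact .inr (dn b5 (by linarith))

theorem caseX2 (E : Eqs) (H : Cq a c x y u w) (hx : Sg x i 0) (hy : Sg y 0 k) (hu : Sg u j 0)
    (hw : Sg w j' l) (i0 : 0 < i) (ia : i ≤ a) (j0 : 0 < j) (ja : j ≤ a) (j1 : 0 < j')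
    (k0 : 0 < k) (kc : k ≤ c) (l0 : 0 < l) (lc : l ≤ c) : a ≤ 9 ∧ c ≤ 6 := by
  have s := H.sum
  obtain ⟨i4, j4, x3, u3⟩ : i % 4 = 0 ∧ j % 4 = 0 ∧ x % 3 = 1 ∧ u % 3 = 1 := by
    have := (hx.X i0).2.2; have := (hu.X j0).2.2; have := (hy.Y k0).1; have := (hw.Z j1 l0).1
    omega
  obtain ⟨rfl, k2⟩ : j' = 3 ∧ k % 4 = 2 := by
    have : x % 16 = 0 := by have := hx.m16; omega
    have : u % 16 = 0 := by have := hu.m16; omega
    have := (hy.Y k0).2.2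
    have := hw.m16
    clear x3 u3; omega
  have d : 2 ^ a ∣ x + u := by
    rcases H.c2 (by omega) (hx.X i0).2.1 (hu.X j0).1 (hw.Z j1 l0).2 with h | h | h | h
    · have := A3 hy h; omega
    · omega
    · exact h
    · omega
  obtain rfl : j = i := by
    rcases lt_trichotomy j i with h | h | h
    · have := hu.ex2.le2 hx.ex2 (by norm_num) h (add_comm x u ▸ d); omega
    · exact h
    · have := hx.ex2.le2 hu.ex2 (by norm_num) h d; omega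
  obtain rfl : c = k := by
    rcases H.c3' (by omega) (hy.Y k0).2.1 x3 u3 (hw.Z j1 l0).1 with h | h
    · by_contra n
      have := (T3' hy hw j1 h (by omega) lc).2.1
      omega
    · exact (hy.ex3.le (by norm_num) h).antisymm kc
  refine (fun t => ⟨t, H.ck hy t⟩) ?_
  clear x3 u3
  obtain rfl : x = 2 ^ j * 3 ^ 0 := (hx.resolve_right (by omega)).1
  obtain rfl : u = 2 ^ j * 3 ^ 0 := (hu.resolve_right (by omega)).1
  obtain rfl : y = -(2 ^ 0 * 3 ^ c) := (hy.resolve_left (by omega)).1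
  have := Ex.le (j := j + 1) ⟨1, by ring, by norm_num⟩ (by norm_num) d
  clear d
  by_contra n
  rcases hw with ⟨rfl, q⟩ | ⟨rfl, q⟩
  · exact E.E (j + 1) c l (by omega) (by omega) k2 (by omega) (by zify; linear_combination s)
  · exact E.A (j + 1) c l (by omega) (by omega) k2 (by omega) (by zify; linear_combination s)

end TQ.B2
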