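import Cfsg.Agent.TQ.B2b

/-! Boundedness of the numerical data of the principal 5-block: one power of two. -/

set_option autoImplicit false

namespace TQ.B2

variable {a c i k j m j' l : ℕ} {x y u w : ℤ}

/-- outcome of the 3-adic condition -/
def W3 (c k j l : ℕ) : Prop := l = k ∧ (j = 2 ∧ c = k + 1 ∨ j = 6 ∧ k < c ∧ c ≤ k + 2)

theorem w3 (H : Cq a c x y u w) (hx : Sg x i 0) (hy : Sg y 0 k) (hw : Sg w j l) (j0 : 0 < j)
    (d : 3 ^ c ∣ y + w) (kc : k < c) (lc : l ≤ c) (ai : a ≤ i + 3) : W3 c k j l := by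
  obtain ⟨rfl, j4, t⟩ := T3' hy hw j0 d kc lc
  have h := hx.am hw H.xw
  have h1 := p2 ai
  have p : (0 : ℤ) < 2 ^ i * 3 ^ l := by positivity
  have p' : (0 : ℤ) < 3 ^ c := by positivity
  have p'' : (0 : ℤ) < 2 ^ i := by positivity
  have p3' : (0 : ℤ) < 3 ^ l := by positivity
  have : (2 : ℤ) ^ j ≤ 30 * j := le_of_mul_le_mul_right (by nlinarith) p
  have : j < 10 := by by_contra! n; have := gr j n; omega
  refine ⟨rfl, ?_⟩
  have q : ∀ e, l + e ≤ c → (3 : ℤ) ^ e * 3 ^ l ≤ 3 ^ c := fun e he => by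
    rw [← pow_add]; exact pow_le_pow_right₀ (by norm_num) (by omega)
  obtain rfl | rfl : j = 2 ∨ j = 6 := by omega
  · have := q 2; omega
  · have := q 3; omega

theorem w3b (H : Cq a c x y u w) (hw : Sg w j l) (k2 : k % 2 = 0) (k0 : 0 < k) (W : W3 c k j l)
    (a9 : a ≤ 9) : c ≤ 6 := by
  have h : w * w ≤ 5 * 2 ^ a * 3 ^ c := by nlinarith [H.xw, mul_self_nonneg x]
  have h1 := p2 (i := 0) (j := 9) a9
  have p' : (0 : ℤ) < 3 ^ c := by positivity
  rw [hw.sq] at h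
  obtain ⟨rfl, ⟨rfl, rfl⟩ | ⟨rfl, -, t⟩⟩ := W
  · by_contra! n
    have h2 := p3 (a := 6) (i := l) (j := 0) (by omega)
    rw [pow_succ (3 : ℤ) l] at h
    nlinarith
  · have h2 := p3 (a := 2) (i := l) (j := 0) (by omega)
    have h3 := p3 t
    nlinarith

theorem big1 (E : Eqs) (H : Cq a c x y u w) (hx : Sg x i 0) (hy : Sg y 0 k) (hu : Sg u 1 m)
    (hw : Sg w j l) (i4 : i % 4 = 2) (i9 : 10 ≤ i) (k4 : k % 4 = 0) (mc : m ≤ k) (lc : l ≤ k) :
    False := by
  have s := H.sum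
  have : x % 16 = 0 := by have := hx.m16; omega
  have : y % 16 = 1 := by have := hy.m16; omega
  have c : j = 3 ∧ m % 4 = 1 ∨ j = 2 ∧ l % 4 = 2 ∧ m % 4 = 3 := by
    have := hu.m16; have := hw.m16; omega
  have rs := H.rs
  have e : 0 < x * y * u * w := by
    have : u % 16 = 6 ∨ u % 16 = 10 := by have := hu.m16; omega
    have : w % 16 = 8 ∨ w % 16 = 4 := by have := hw.m16; omega
    generalize x * y * u * w = t at rs
    omega
  obtain rfl : x = -(2 ^ i * 3 ^ 0) := (hx.resolve_left (by omega)).1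
  obtain rfl : y = 2 ^ 0 * 3 ^ k := (hy.resolve_right (by omega)).1
  rcases c with ⟨rfl, m4⟩ | ⟨rfl, l4, m4⟩
  · obtain rfl : u = 2 ^ 1 * 3 ^ m := (hu.resolve_right (by omega)).1
    rcases hw with ⟨rfl, q⟩ | ⟨rfl, q⟩
    · have : (0 : ℤ) < 2 ^ i * 3 ^ 0 * (2 ^ 0 * 3 ^ k) * (2 ^ 1 * 3 ^ m) * (2 ^ 3 * 3 ^ l) := by
        positivity
      linarith
    · exact E.P1 i k m l i9 i4 k4 m4 (by omega) mc lc (by zify; linear_combination s)
  · obtain rfl : u = -(2 ^ 1 * 3 ^ m) := (hu.resolve_left (by omega)).1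
    obtain rfl : w = 2 ^ 2 * 3 ^ l := (hw.resolve_right (by omega)).1
    exact E.P2 i k l m i9 i4 k4 l4 m4 mc lc (by zify; linear_combination s)

theorem big2 (E : Eqs) (H : Cq a c x y u w) (hx : Sg x i 0) (hy : Sg y 0 c) (hu : Sg u j m)
    (hw : Sg w i l) (i4 : i % 4 = 2) (i9 : 10 ≤ i) (k4 : c % 4 = 2) (ai : a ≤ i + 2)
    (l4 : l % 4 = 2) : False := by
  have s := H.sum
  obtain rfl : j = 3 := by
    have : x % 16 = 0 := by have := hx.m16; omega
    have : w % 16 = 0 := by have := hw.m16; omega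
    have : y % 16 = 7 := by have := hy.m16; omega
    have := hu.m16; omega
  obtain rfl : l = 2 := by
    by_contra n
    have h := hy.am hw H.yw
    have h1 := p2 ai
    have h2 := p3 (a := 3) (i := l) (j := 0) (by omega)
    have p : (0 : ℤ) < 2 ^ i * 3 ^ c := by positivity
    have p' : (0 : ℤ) < 3 ^ c := by positivity
    nlinarith
  obtain rfl : x = -(2 ^ i * 3 ^ 0) := (hx.resolve_left (by omega)).1
  obtain rfl : y = -(2 ^ 0 * 3 ^ c) := (hy.resolve_left (by omega)).1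
  obtain rfl : w = 2 ^ i * 3 ^ 2 := (hw.resolve_right (by omega)).1
  rcases hu with ⟨rfl, q⟩ | ⟨rfl, q⟩
  · exact E.E (i + 3) c m (by omega) (by omega) k4 (by omega) (by zify; linear_combination s)
  · exact E.A (i + 3) c m (by omega) (by omega) k4 (by omega) (by zify; linear_combination s)

theorem w3c (H : Cq i c x y u w) (hx : Sg x i 0) (hw : Sg w 6 l) (t : c ≤ l + 2) : False := by
  have h := hx.am hw H.xw
  have h3 := p3 t
  have p : (0 : ℤ) < 2 ^ i * 3 ^ l := by positivity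
  have p' : (0 : ℤ) < 2 ^ i := by positivity
  nlinarith

theorem caseX1 (E : Eqs) (H : Cq a c x y u w) (hx : Sg x i 0) (hy : Sg y 0 k) (hu : Sg u j m)
    (hw : Sg w j' l) (i0 : 0 < i) (ia : i ≤ a) (j0 : 0 < j) (ja : j ≤ a) (j1 : 0 < j')
    (ja' : j' ≤ a) (k0 : 0 < k) (kc : k ≤ c) (m0 : 0 < m) (mc : m ≤ c) (l0 : 0 < l) (lc : l ≤ c) :
    a ≤ 9 ∧ c ≤ 6 := by
  have s := H.sum
  have syl := H.syl
  have i4 : i % 4 = 2 := by
    have := (hx.X i0).2.2; have := (hu.Z j0 m0).1; have := (hy.Y k0).1; have := (hw.Z j1 l0).1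
    omega
  have k2 : k % 2 = 0 := by have := (hy.Y k0).2.2; omega
  have c2 : a ≤ 3 ∨ a = i ∨ i < a ∧ a ≤ i + 3 ∧ (j' = i ∧ (i + 2 ≤ a → l % 4 = 2) ∨
      j = i ∧ (i + 2 ≤ a → m % 4 = 2)) := by
    rcases ia.eq_or_lt with h | n
    · exact .inr (.inl h.symm)
    rcases H.c2 (by omega) (hx.X i0).2.1 (hu.Z j0 m0).2 (hw.Z j1 l0).2 with h | h | h | h
    · exact .inl (A3 hy h)
    · have := S2 hx i4 hw h.2 n ja'; tauto
    · have := S2 hx i4 hu h n ja; tauto
    · exact absurd (hx.ex2.le (by norm_num) h.2) n.not_ge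
  have ai : a ≤ i + 3 := by omega
  have c3 : c = k ∨ W3 c k j' l ∨ W3 c k j m ∨ 2 * (3 : ℤ) ^ c ≤ 3 * i := by
    rcases kc.eq_or_lt with h | n
    · exact .inl h.symm
    rcases H.c3 (by omega) (hy.Y k0).2.1 (hu.Z j0 m0).1 (hw.Z j1 l0).1 with h | h | h | h
    · obtain ⟨c, rfl⟩ : ∃ d, c = d + 1 := ⟨c - 1, by omega⟩
      have := lte (e := c) (i := i) (dn h (by
        rw [(hx.resolve_left (by omega)).1]; ring)) i0 (by omega)
      rw [pow_succ]
      exact .inr (.inr (.inr (by omega)))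
    · exact .inr (.inl (w3 H hx hy hw j1 h n lc ai))
    · exact .inr (.inr (.inl (w3 H.s23 hx hy hu j0 h n mc ai)))
    · exact absurd (hy.ex3.le (by norm_num) h) n.not_ge
  by_cases i9 : i < 10
  · have a9 : a ≤ 9 := by omega
    refine ⟨a9, ?_⟩
    rcases c3 with rfl | h | h | h
    · exact H.ck hy a9
    · exact w3b H hw k2 k0 h a9
    · exact w3b H.s23 hu k2 k0 h a9
    · by_contra n
      have := p3 (a := 3) (i := c) (j := 0) (by omega)
      omega
  exfalso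
  rw [not_lt] at i9
  replace c3 : c = k ∨ W3 c k j' l ∨ W3 c k j m := by
    rcases c3 with h | h | h | h
    iterate 3 tauto
    have h0 : x * x ≤ 5 * 2 ^ a * 3 ^ c := by nlinarith [H.xw, mul_self_nonneg w]
    have h1 := p2 ai
    have h2 := gr i i9
    have p' : (0 : ℤ) < 3 ^ c := by positivity
    have p'' : (0 : ℤ) < 2 ^ i := by positivity
    rw [hx.sq] at h0
    nlinarith
  have x16 : x % 16 = 0 := by have := hx.m16; omega
  unfold W3 at c3
  rcases (hy.Y k0).2.2 with ⟨k4, y16⟩ | ⟨k4, y16⟩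
  · have t : j = 1 ∧ (j' = 2 ∨ j' = 3) ∨ j' = 1 ∧ (j = 2 ∨ j = 3) := by
      have := hu.m16; have := hw.m16; clear c2 c3; omega
    clear x16 y16 s
    obtain rfl : a = i := by omega
    obtain rfl : c = k := by omega
    rcases t with ⟨rfl, -⟩ | ⟨rfl, -⟩
    · exact big1 E H hx hy hu hw i4 i9 k4 mc lc
    · exact big1 E H.s23 hx hy hw hu i4 i9 k4 lc mc
  rcases c2 with h | rfl | ⟨h1, -, ⟨rfl, h⟩ | ⟨rfl, h⟩⟩
  · omega
  · clear x16 y16 s
    rcases c3 with h | ⟨rfl, h | ⟨rfl, -, h⟩⟩ | ⟨rfl, h | ⟨rfl, -, h⟩⟩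
    · omega
    · omega
    · exact w3c H hx hw h
    · omega
    · exact w3c H.s23 hx hu h
  · have : j = 3 := by
      have : w % 16 = 0 := by have := hw.m16; omega
      have := hu.m16; clear c3; omega
    clear x16 y16 s
    obtain rfl : c = k := by omega
    exact big2 E H hx hy hu hw i4 i9 k4 (by omega) (h (by omega))
  · have : j' = 3 := by
      have : u % 16 = 0 := by have := hu.m16; omega
      have := hw.m16; clear c3; omega
    clear x16 y16 s
    obtain rfl : c = k := by omega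
    exact big2 E H.s23 hx hy hw hu i4 i9 k4 (by omega) (h (by omega))

end TQ.B2
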