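import Cfsg.Agent.MQ.Pc

/-! Simple groups of order `5 * 2 ^ a * 3 ^ c`: three candidate principal 5-blocks are
impossible. -/

set_option autoImplicit false
set_option linter.unusedSectionVars false

namespace TQ
open Cfsg H8 H2 Subgroup MQ

variable {G : Type*} [Group G] [Fintype G] [IsSimpleGroup G] {r : G} {h : DefOne 5 r}

namespace B3

/-- the multiples `m * i` with `|i| ≤ B` -/
def ml (m : ℤ) (B : ℕ) : List ℤ := (List.range (2 * B + 1)).map fun i : ℕ => m * ((i : ℤ) - B)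

theorem mem_ml {m a : ℤ} {B : ℕ} (hm : 0 < m) (h1 : m ∣ a) (h2 : |a| < m * (B + 1)) :
    a ∈ ml m B := by
  obtain ⟨i, rfl⟩ := h1
  rw [abs_mul, abs_of_pos hm] at h2
  have := abs_lt.1 (lt_of_mul_lt_mul_left h2 hm.le)
  exact List.mem_map.2 ⟨(i + B).toNat, List.mem_range.2 (by omega), by congr 1; omega⟩

theorem sq_le {p n : ℕ} [Fact p.Prime] {h : DefOne p r} (F : Full h n) {g : G}
    {a : Fin n → ℤ} (ha : ∀ j, (F.c j).1 g = a j) : 1 + ∑ j, a j * a j ≤ Nat.card (Cx g) := by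
  classical
  have h1 := sum_normSq g
  have h2 : ∑ χ ∈ insert (one1 G) (Finset.univ.image F.c), Complex.normSq (χ.1 g) ≤ _ :=
    (Finset.sum_le_sum_of_subset_of_nonneg (Finset.subset_univ _)
      fun _ _ _ => Complex.normSq_nonneg _).trans_eq h1
  rw [Finset.sum_insert (by simpa using F.ne_one), Finset.sum_image F.inj.injOn] at h2
  simp only [ha, Pi.one_apply, map_one, Complex.normSq_intCast] at h2
  exact_mod_cast h2

/-- the column of a 5-regular element with integer values -/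
theorem col (F : Full h 4) (hV : h.V = ⊥) {D : ℕ} (hN : Nat.card G = 5 * D) (h5 : ¬ D.Prime)
    {q w : Fin 4 → ℤ} (hF : ∀ j, F.s j * deg (F.c j) = q j) (hw : ∀ j, w j * q j = D) {u : G}
    (u1 : u ≠ 1) (u5 : ¬ 5 ∣ orderOf u) {a : Fin 4 → ℤ} (ha : ∀ j, (F.c j).1 u = a j) :
    ∃ I : ℕ, (Cx u).index = 5 * I ∧ Nat.card (Cx u) * I = D ∧
      1 + ∑ j, (q j).sign * a j = 0 ∧ (∀ j, |a j| < |q j| ∧ q j ∣ 5 * I * a j) ∧
      1 + ∑ j, a j * a j ≤ Nat.card (Cx u) ∧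
      (prs h u u : ℤ) * Nat.card (Cx u) ^ 2 = 5 * (D + ∑ j, w j * a j * a j) := by
  have c0 := (Cx u).card_mul_index
  have nc : ¬ IsMulCommutative G := not_comm_of_card_not_prime (by
    rw [hN, Nat.prime_mul_iff]
    rintro (⟨-, e⟩ | ⟨e, -⟩)
    · exact u1 (by
        have := orderOf_dvd_natCard u
        rw [hN, e] at this
        exact orderOf_eq_one_iff.1 (((Nat.dvd_prime Nat.prime_five).1 this).resolve_right
          fun e => u5 e.symm.dvd))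
    · exact h5 e)
  obtain ⟨I, hI⟩ : 5 ∣ (Cx u).index := ((Nat.Prime.dvd_mul Nat.prime_five).1
    (c0 ▸ hN ▸ dvd_mul_right 5 D)).resolve_left (h.not_dvd_card_Cx hV u1 u5)
  have sg : ∀ j, (q j).sign = F.s j ∧ |q j| = deg (F.c j) := fun j => by
    have h1 : ((deg (F.c j) : ℕ) : ℤ).sign = 1 :=
      Int.sign_eq_one_iff_pos.2 (by exact_mod_cast deg_pos _)
    rw [← hF j]
    rcases F.s_eq j with e | e <;> simp [e, h1]
  have cI : Nat.card (Cx u) * I = D := by rw [hI, hN] at c0; nlinarith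
  have l := F.lin u u5
  have p := Full.prs_eq F u u
  simp only [ha, hV, card_bot, hI, hN] at l p
  refine ⟨I, hI, cI, by simp only [sg]; exact_mod_cast l, fun j => ⟨?_, ?_⟩, sq_le F ha, ?_⟩
  · rw [(sg j).2]; exact irr_int_abs_lt nc (F.ne_one j) u1 (ha j)
  · have := irr_deg_dvd_index_mul _ (ha j)
    rw [hI, ← (sg j).2, abs_dvd] at this
    exact_mod_cast this
  have c1 : (Nat.card (Cx u) : ℂ) * I = D := by exact_mod_cast cI
  have D0 : (D : ℂ) ≠ 0 := fun e => by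
    have := card_ne_zero_complex (G := G)
    rw [hN] at this
    simp [e] at this
  have e : ∀ j, (F.s j * (a j * a j / deg (F.c j)) : ℂ) = w j * a j * a j / D := fun j => by
    have h1 : (w j : ℂ) * (F.s j * deg (F.c j)) = D := by exact_mod_cast hF j ▸ hw j
    have h2 : (deg (F.c j) : ℂ) ≠ 0 := by exact_mod_cast (deg_pos _).ne'
    have h3 : (F.s j : ℂ) * F.s j = 1 := by rcases F.s_eq j with e | e <;> simp [e]
    field_simp
    linear_combination (-(a j : ℂ) ^ 2 * F.s j) * h1 + (a j : ℂ) ^ 2 * w j * deg (F.c j) * h3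
  simp only [e, ← Finset.sum_div] at p
  have : (prs h u u : ℂ) * Nat.card (Cx u) ^ 2 = 5 * (D + ∑ j, (w j : ℂ) * a j * a j) := by
    rw [p]
    push_cast
    field_simp
    linear_combination ((Nat.card (Cx u) * I + D) * (D + ∑ j, (w j : ℂ) * a j ^ 2)) * c1
  exact_mod_cast this

/-- the column of an involution -/
theorem coli (F : Full h 4) (hV : h.V = ⊥) {D : ℕ} (hN : Nat.card G = 5 * D) (h5 : ¬ D.Prime)
    (pf : _root_.commutator G = ⊤) {q w : Fin 4 → ℤ} (hF : ∀ j, F.s j * deg (F.c j) = q j)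
    (hw : ∀ j, w j * q j = D) {t : G} (ht : orderOf t = 2) : ∃ (a : Fin 4 → ℤ) (I : ℕ),
    (∀ j, (F.c j).1 t = a j ∧ 4 ∣ a j - |q j|) ∧ (Cx t).index = 5 * I ∧ Nat.card (Cx t) * I = D ∧
      1 + ∑ j, (q j).sign * a j = 0 ∧ (∀ j, |a j| < |q j| ∧ q j ∣ 5 * I * a j) ∧
      1 + ∑ j, a j * a j ≤ Nat.card (Cx t) ∧ kk h t ≤ 1 ∧
      (kk h t : ℤ) * Nat.card (Cx t) ^ 2 = D + ∑ j, w j * a j * a j := by
  have z2 : t ^ 2 = 1 := ht ▸ pow_orderOf_eq_one t
  choose a a1 a2 using fun j => inv_val pf (F.c j) z2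
  obtain ⟨I, b1, b2, b3, b4, b5, b6⟩ := col F hV hN h5 hF hw (u := t) (by rintro rfl; simp at ht)
    (by rw [ht]; decide) a1
  have k := kk_le h t
  rw [hV, card_bot] at k
  rw [prs_kk h (by norm_num) z2 z2] at b6
  refine ⟨a, I, fun j => ⟨a1 j, ?_⟩, b1, b2, b3, b4, b5, k, ?_⟩
  · rw [← hF j]
    rcases F.s_eq j with e | e <;> simpa [e] using a2 j
  · rcases Nat.le_one_iff_eq_zero_or_eq_one.1 k with e | e <;> rw [e] at b6 ⊢ <;>
      push_cast at b6 ⊢ <;> linarith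

theorem chkA : ∀ I ∈ dvs 729, ∀ b ∈ ml 8 26, ∀ c ∈ ml 64 8, (729 : ℤ) ∣ 5 * I * (1 + b + c) →
    1 + ((1 + b + c) * (1 + b + c) + b * b + c * c) ≤ ((186624 / I : ℕ) : ℤ) →
    ∀ k ∈ List.range 2, (k : ℤ) * ((186624 / I : ℕ) : ℤ) ^ 2 ≠ 186624 + (-256 * (1 + b + c) *
      (1 + b + c) + 864 * b * b + 324 * c * c) := by decide +kernel

theorem chkB : ∀ I ∈ dvs 729, ∀ b ∈ ml 8 26, (729 : ℤ) ∣ 5 * I * (1 + b) →
    ∀ k ∈ List.range 2, (k : ℤ) * ((186624 / I : ℕ) : ℤ) ^ 2 ≠ 186624 + (-256 * (1 + b) *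
      (1 + b) + 864 * b * b) := by decide +kernel

theorem chkC : ∀ I ∈ dvs 64, ∀ b ∈ ml 27 1, ∀ c ∈ ml 9 3, (64 : ℤ) ∣ 5 * I * (1 - b + c) →
    1 + ((1 - b + c) * (1 - b + c) + b * b + c * c) ≤ ((5184 / I : ℕ) : ℤ) →
    ¬ ((5184 / I : ℕ) : ℤ) ^ 2 ∣ 5 * (5184 + (-81 * (1 - b + c) * (1 - b + c) + -96 * b * b +
      144 * c * c)) := by decide +kernel

theorem chkT : ∀ a ∈ ml 4 15, ∀ b ∈ ml 4 5, ∀ I ∈ dvs 5184, ((5184 / I : ℕ) : ℤ) ^ 2 =
    5184 + (-81 * a * a + -216 * b * b + 864 * 4 + 64 * (a + b + 1) * (a + b + 1)) →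
    (64 : ℤ) ∣ 5 * I * a → (24 : ℤ) ∣ 5 * I * b → (81 : ℤ) ∣ 5 * I * (a + b + 1) →
    ¬ 1 + (a * a + b * b + 4 + (a + b + 1) * (a + b + 1)) ≤ ((5184 / I : ℕ) : ℤ) := by
  decide +kernel

theorem div_of {c I D : ℕ} (h : c * I = D) (hD : D ≠ 0) : c = D / I := by
  rw [← h, Nat.mul_div_cancel _ (Nat.pos_of_ne_zero (by rintro rfl; exact hD (by simp [← h])))]

theorem cop {m I a : ℤ} {q : ℕ} (k : ℕ) (hq : q.Prime) (hm : m = q ^ k) (h5 : q ≠ 5) {J : ℕ}
    (hI : ¬ q ∣ 5 * J) (e : I = J) (h : m ∣ 5 * I * a) : m ∣ a := by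
  subst hm e
  refine IsCoprime.dvd_of_dvd_mul_left (IsCoprime.pow_left ?_) h
  exact_mod_cast Nat.isCoprime_iff_coprime.2 ((Nat.Prime.coprime_iff_not_dvd hq).2 hI)

end B3
open B3

theorem not_576 (hN : Nat.card G = 933120) (F : Full h 4) (hV : h.V = ⊥)
    (hF : ∀ j, F.s j * deg (F.c j) = ![-729, -64, 216, 576] j) : False := by
  have pf := commutator_eq_top_of_simple (G := G) (not_comm_of_card_not_prime (by rw [hN]; norm_num))
  obtain ⟨t, ht, i2⟩ := exists_central_of_prime (G := G) 2 (by rw [hN]; norm_num)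
  obtain ⟨a, I, -, b1, b2, b3, b4, b5, b6, b7⟩ := coli F hV (D := 186624) hN (by norm_num) pf hF
    (w := ![-256, -2916, 864, 324]) (by decide) ht
  rw [b1] at i2
  have c := fun (m : ℤ) (k : ℕ) hm (a : ℤ) => cop (m := m) (a := a) k Nat.prime_two hm (by norm_num) i2 rfl
  have d0 : (-729 : ℤ) ∣ _ := (b4 0).2
  have d1 := c 64 6 (by norm_num) _ (neg_dvd.1 (b4 1).2)
  have d2 := c 8 3 (by norm_num) _ (dvd_trans (by decide) (b4 2).2)
  have d3 := c 64 6 (by norm_num) _ (dvd_trans (by decide) (b4 3).2)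
  have l1 : |a 1| < 64 := (b4 1).1
  have e1 : a 1 = 0 := Int.eq_zero_of_abs_lt_dvd d1 l1
  simp only [Fin.sum_univ_four, Matrix.cons_val, e1] at b3 b5 b7
  have e0 : a 0 = 1 + a 2 + a 3 := by
    have : 1 + (-1 * a 0 + -1 * 0 + 1 * a 2 + 1 * a 3) = 0 := b3
    omega
  rw [e0] at d0 b5 b7
  have hI : I ∣ 729 := (Nat.Coprime.pow_right 8 ((Nat.coprime_comm.1
    ((Nat.Prime.coprime_iff_not_dvd Nat.prime_two).2 fun e => i2 (e.mul_left 5))))).dvd_of_dvd_mul_left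
    (Dvd.intro_left _ b2)
  refine chkA I (mem_dvs (by norm_num) hI) _ (mem_ml (by norm_num) d2 (b4 2).1) _
    (mem_ml (by norm_num) d3 (b4 3).1) (neg_dvd.1 d0) ?_ _
    (List.mem_range.2 (Nat.lt_succ_of_le b6)) ?_
  · rw [← div_of b2 (by norm_num)]; linarith
  rw [← div_of b2 (by norm_num), b7]; push_cast; ring

theorem not_256 (hN : Nat.card G = 933120) (F : Full h 4) (hV : h.V = ⊥)
    (hF : ∀ j, F.s j * deg (F.c j) = ![-729, 216, 256, 256] j) : False := by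
  have pf := commutator_eq_top_of_simple (G := G) (not_comm_of_card_not_prime (by rw [hN]; norm_num))
  obtain ⟨t, ht, i2⟩ := exists_central_of_prime (G := G) 2 (by rw [hN]; norm_num)
  obtain ⟨a, I, -, b1, b2, b3, b4, -, b6, b7⟩ := coli F hV (D := 186624) hN (by norm_num) pf hF
    (w := ![-256, 864, 729, 729]) (by decide) ht
  rw [b1] at i2
  have c := fun (m : ℤ) (k : ℕ) hm (a : ℤ) => cop (m := m) (a := a) k Nat.prime_two hm (by norm_num) i2 rfl
  have d0 : (-729 : ℤ) ∣ _ := (b4 0).2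
  have d1 := c 8 3 (by norm_num) _ (dvd_trans (by decide) (b4 1).2)
  have e2 : a 2 = 0 := Int.eq_zero_of_abs_lt_dvd (c 256 8 (by norm_num) _ (b4 2).2) (b4 2).1
  have e3 : a 3 = 0 := Int.eq_zero_of_abs_lt_dvd (c 256 8 (by norm_num) _ (b4 3).2) (b4 3).1
  simp only [Fin.sum_univ_four, Matrix.cons_val, e2, e3] at b3 b7
  have e0 : a 0 = 1 + a 1 := by
    have : 1 + (-1 * a 0 + 1 * a 1 + 1 * 0 + 1 * 0) = 0 := b3
    omega
  rw [e0] at d0 b7
  have hI : I ∣ 729 := (Nat.Coprime.pow_right 8 ((Nat.coprime_comm.1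
    ((Nat.Prime.coprime_iff_not_dvd Nat.prime_two).2 fun e => i2 (e.mul_left 5))))).dvd_of_dvd_mul_left
    (Dvd.intro_left _ b2)
  refine chkB I (mem_dvs (by norm_num) hI) _ (mem_ml (by norm_num) d1 (b4 1).1)
    (neg_dvd.1 d0) _ (List.mem_range.2 (Nat.lt_succ_of_le b6)) ?_
  rw [← div_of b2 (by norm_num), b7]; push_cast; ring

theorem not_54 (hN : Nat.card G = 25920) (F : Full h 4) (hV : h.V = ⊥)
    (hF : ∀ j, F.s j * deg (F.c j) = ![-64, -54, 36, 81] j)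
    (hZ : ∀ j g, ∃ a : ℤ, (F.c j).1 g = a) : False := by
  obtain ⟨u, hu, i3⟩ := exists_central_of_prime (G := G) 3 (by rw [hN]; norm_num)
  choose a ha using fun j => hZ j u
  obtain ⟨I, b1, b2, b3, b4, b5, b7⟩ := col F hV (D := 5184) hN (by norm_num) hF
    (w := ![-81, -96, 144, 64]) (by decide) (u := u) (by rintro rfl; simp at hu)
    (by rw [hu]; decide) ha
  rw [b1] at i3
  have c := fun (m : ℤ) (k : ℕ) hm (a : ℤ) => cop (m := m) (a := a) k Nat.prime_three hm (by norm_num) i3 rfl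
  have d0 : (-64 : ℤ) ∣ _ := (b4 0).2
  have d1 := c 27 3 (by norm_num) _ (dvd_trans (by decide) (b4 1).2)
  have d2 := c 9 2 (by norm_num) _ (dvd_trans (by decide) (b4 2).2)
  have e3 : a 3 = 0 := Int.eq_zero_of_abs_lt_dvd (c 81 4 (by norm_num) _ (b4 3).2) (b4 3).1
  simp only [Fin.sum_univ_four, Matrix.cons_val, e3] at b3 b5 b7
  have e0 : a 0 = 1 - a 1 + a 2 := by
    have : 1 + (-1 * a 0 + -1 * a 1 + 1 * a 2 + 1 * 0) = 0 := b3
    omega
  rw [e0] at d0 b5 b7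
  have hI : I ∣ 64 := (Nat.Coprime.pow_right 4 ((Nat.coprime_comm.1
    ((Nat.Prime.coprime_iff_not_dvd Nat.prime_three).2 fun e => i3 (e.mul_left 5))))).dvd_of_dvd_mul_left
    (Dvd.intro_left _ b2)
  refine chkC I (mem_dvs (by norm_num) hI) _ (mem_ml (by norm_num) d1 (b4 1).1) _
    (mem_ml (by norm_num) d2 (b4 2).1) (neg_dvd.1 d0) ?_ ⟨prs h u u, ?_⟩
  · rw [← div_of b2 (by norm_num)]; linarith
  · rw [← div_of b2 (by norm_num), mul_comm _ (prs h u u : ℤ), b7]; push_cast; ring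

theorem t6 (hN : Nat.card G = 25920) (F : Full h 4) (hV : h.V = ⊥)
    (hF : ∀ j, F.s j * deg (F.c j) = ![-64, -24, 6, 81] j) {t : G} (hn : t ∈ Nx r)
    (ht : orderOf t = 2) : (F.c 2).1 t = 2 := by
  have pf := commutator_eq_top_of_simple (G := G) (not_comm_of_card_not_prime (by rw [hN]; norm_num))
  have z2 : t ^ 2 = 1 := ht ▸ pow_orderOf_eq_one t
  obtain ⟨a, I, b0, b1, b2, b3, b4, b5, b6, b7⟩ := coli F hV (D := 5184) hN (by norm_num) pf hF
    (w := ![-81, -216, 864, 64]) (by decide) ht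
  have n1 : h.nu ⟨t, hn⟩ ≠ 1 := fun e => by
    have := orderOf_dvd_natCard _ ((h.nu_eq_one_iff _).1 e)
    rw [h.card_Cx, hV, card_bot, ht] at this
    omega
  have n2 : h.nu ⟨t, hn⟩ = -1 := (by decide : ∀ u : (ZMod 5)ˣ, u ≠ 1 → u ^ 2 = 1 → u = -1) _ n1
    (by rw [← map_pow, show (⟨t, hn⟩ : Nx r) ^ 2 = 1 from Subtype.ext z2, map_one])
  have n3 : t * r * t⁻¹ = r⁻¹ := by
    have := h.nu_spec ⟨t, hn⟩
    rwa [n2, Units.val_neg, Units.val_one, h.xp_neg, xp_one] at this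
  have k := kk_pos h (by norm_num) z2 (IsConj.refl t) n3
  rw [show kk h t = 1 by omega] at b7
  have l2 : |a 2| < 6 := (b4 2).1
  have m2 : 4 ∣ a 2 - 6 := (b0 2).2
  have l2' := abs_lt.1 l2
  rw [(b0 2).1]
  by_contra e
  have e2 : a 2 = -2 := by
    have : a 2 ≠ 2 := fun e' => e (by rw [e']; rfl)
    omega
  have m0 : 4 ∣ a 0 - 64 := (b0 0).2
  have m1 : 4 ∣ a 1 - 24 := (b0 1).2
  have d3 : (81 : ℤ) ∣ _ := (b4 3).2
  simp only [Fin.sum_univ_four, Matrix.cons_val, e2] at b3 b5 b7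
  have e3 : a 3 = a 0 + a 1 + 1 := by
    have : 1 + (-1 * a 0 + -1 * a 1 + 1 * -2 + 1 * a 3) = 0 := b3
    omega
  rw [e3] at d3 b5 b7
  refine chkT _ (mem_ml (by norm_num) (by omega) (b4 0).1) _
    (mem_ml (by norm_num) (by omega) (b4 1).1) I (mem_dvs (by norm_num) (Dvd.intro_left _ b2)) ?_
    (neg_dvd.1 (b4 0).2) (neg_dvd.1 (b4 1).2) d3 ?_
  · rw [← div_of b2 (by norm_num)]; push_cast at b7; linarith
  · rw [← div_of b2 (by norm_num)]; linarith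

end TQ
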