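import Cfsg.Agent.TQ.Int
import Cfsg.Agent.JT.RS
import Cfsg.Agent.H8.Blk

/-! Simple groups of order `5 * 2 ^ a * 3 ^ c`: the numerical data of the principal 5-block. -/

set_option autoImplicit false
set_option linter.unusedSectionVars false

namespace TQ
open Cfsg H8 H2 Subgroup

variable {G : Type*} [Group G] [Fintype G] [IsSimpleGroup G] {p n : ℕ} [hp : Fact p.Prime]
  {r : G}

theorem full_bt (nc : ¬ IsMulCommutative G) {h : DefOne p r} (F : Full h n) (hV : h.V = ⊥)
    (q : ℕ) [hq : Fact q.Prime] (qp : q ≠ p) {a : ℕ} (hN : q ^ a ∣ Nat.card G) :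
    ∃ I : Finset (Fin n), (∀ j ∈ I, ∀ k, (F.s j * deg (F.c j)).natAbs ≠ q ^ k) ∧
      (q : ℤ) ^ a ∣ 1 + ∑ j ∈ I, F.s j * deg (F.c j) := by
  classical
  rcases a with _ | a
  · exact ⟨∅, by simp, by simp⟩
  obtain ⟨P, hP⟩ := Sylow.exists_subgroup_card_pow_prime q hN
  refine ⟨Finset.univ.filter fun j => F.c j ∈ L.B0 q G, fun j hj k e => ?_, ?_⟩
  · refine not_mem_B0_of_deg_pow nc ((dvd_pow_self q a.succ_ne_zero).trans hN) (F.ne_one j)
      (k := k) ?_ (Finset.mem_filter.1 hj).2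
    rw [← e]; rcases F.s_eq j with e | e <;> simp [e]
  have e := B0_sum_deg_isIntegral P (IsPGroup.of_card hP) (y := r) (by
    rw [h.ord]; exact mt (Nat.prime_dvd_prime_iff_eq hq.out hp.out).1 qp)
  have e1 : ∑ χ ∈ L.B0 q G, deg χ * χ.1 r = ((1 + ∑ j ∈ Finset.univ.filter
      fun j => F.c j ∈ L.B0 q G, F.s j * deg (F.c j) : ℤ) : ℂ) := by
    rw [← Fintype.sum_ite_mem, F.sum_irr _ fun χ a b => by
      have := F.other' hV a b (i := 1) one_ne_zero
      rw [xp_one] at this
      simp [this], if_pos (show one1 G ∈ _ from L.triv_mem_B0), deg_one1, one1_apply,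
      Finset.sum_filter]
    push_cast
    congr 1
    · simp
    refine Finset.sum_congr rfl fun j _ => ?_
    split_ifs
    · rw [F.val_self, mul_comm]
    · rfl
  rw [e1, hP] at e
  have q0 : ((q ^ (a + 1) : ℕ) : ℂ) ≠ 0 := by exact_mod_cast (pow_pos hq.out.pos _).ne'
  obtain ⟨b, hb⟩ := exists_int_of_mul e (m := (q ^ (a + 1) : ℕ))
    (by exact_mod_cast (pow_pos hq.out.pos _).ne') (mul_div_cancel₀ _ q0)
  rw [div_eq_iff q0] at hb
  exact ⟨b, by rw [mul_comm]; exact_mod_cast hb⟩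

theorem full_sq {h : DefOne p r} (F : Full h n) {g : G} {a : Fin n → ℤ}
    (ha : ∀ j, (F.c j).1 g = a j) : 1 + ∑ j, a j * a j ≤ Nat.card (Cx g) := by
  classical
  have h1 := sum_normSq g
  have h2 : ∑ χ ∈ insert (one1 G) (Finset.univ.image F.c), Complex.normSq (χ.1 g) ≤ _ :=
    Finset.sum_le_univ_sum_of_nonneg fun χ => Complex.normSq_nonneg (χ.1 g)
  rw [h1, Finset.sum_insert (by simpa using fun j => F.ne_one j),
    Finset.sum_image fun a _ b _ e => F.inj e] at h2
  simp only [ha, Pi.one_apply, map_one, Complex.normSq_intCast] at h2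
  exact_mod_cast h2

theorem full_cc' {h : DefOne p r} (F : Full h n) (j : Fin n) (hj : cc (F.c j) ≠ F.c j) :
    ∃ k, k ≠ j ∧ cc (F.c k) ≠ F.c k ∧ F.s k * deg (F.c k) = F.s j * deg (F.c j) := by
  obtain ⟨k, hk⟩ := F.mem_of_const (χ := cc (F.c j)) (a := F.s j)
    (fun e => F.ne_one j (Subtype.ext (funext fun g => by rw [← inv_inv g, ← cc_apply, e]; rfl)))
    (by rcases F.s_eq j with e | e <;> simp [e]) fun v hv => by
      rw [cc_apply, val_inv (F.val_mul j hv)]
  have c : cc (F.c k) = F.c j := Subtype.ext (funext fun g => by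
    rw [cc_apply, hk, cc_apply, inv_inv])
  refine ⟨k, fun e => hj (by rw [← hk, e]), fun e => hj (by rw [← hk, ← e, c]), ?_⟩
  have := F.val_self k
  rw [hk, cc_apply, val_inv (F.val_self j)] at this
  rw [hk, deg_cc, show F.s k = F.s j by exact_mod_cast this.symm]

theorem V_bot (nc : ¬ IsMulCommutative G) {a c : ℕ} (hN : Nat.card G = 5 * 2 ^ a * 3 ^ c)
    (h : DefOne 5 r) : h.V = ⊥ := by
  by_contra hV
  obtain ⟨s, hs, hsV⟩ := Nat.exists_prime_and_dvd fun h1 => hV (card_eq_one.1 h1)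
  have := Fact.mk hs
  obtain ⟨v, hv, hvs⟩ := exists_mem_V h s hsV
  have hsp : s ≠ 5 := by rintro rfl; exact h.not_dvd_card_V hsV
  have hsG : s ∣ 2 ^ a * 3 ^ c := by
    have := orderOf_dvd_natCard v
    rw [hvs, hN, mul_assoc] at this
    exact ((Nat.coprime_primes hs Nat.prime_five).2 hsp).dvd_of_dvd_mul_left this
  have hc : Commute v r := mem_Cx.1 (h.V_le hv)
  rcases (Nat.Prime.dvd_mul hs).1 hsG with e | e
  · exact not_commute_of_three_primes nc Nat.prime_two Nat.prime_three (by norm_num) (by norm_num)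
      hN h.ord (hvs.trans ((Nat.prime_dvd_prime_iff_eq hs Nat.prime_two).1
        (hs.dvd_of_dvd_pow e))) hc
  · exact not_commute_of_three_primes nc Nat.prime_three Nat.prime_two (by norm_num) (by norm_num)
      (a := c) (b := a) (by rw [hN]; ring) h.ord
      (hvs.trans ((Nat.prime_dvd_prime_iff_eq hs Nat.prime_three).1 (hs.dvd_of_dvd_pow e))) hc

theorem n5 {a c : ℕ} (hN : Nat.card G = 5 * 2 ^ a * 3 ^ c) (nc : ¬ IsMulCommutative G)
    (h : DefOne 5 r) (hV : h.V = ⊥) (he : Nat.card h.H = 4) (F : Full h 4) :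
    N5 a c fun j => F.s j * deg (F.c j) := by
  classical
  have pf := commutator_eq_top_of_simple nc
  have cV : Nat.card h.V = 1 := by rw [hV, card_bot]
  have sg : ∀ j, F.s j = 1 ∧ 2 ≤ F.s j * deg (F.c j) ∨ F.s j = -1 ∧ F.s j * deg (F.c j) < 0 :=
    fun j => by
      have := two_le_deg pf (F.ne_one j)
      rcases F.s_eq j with e | e <;> rw [e] <;> omega
  refine ⟨F.mono, F.sum_deg, fun j => by have := F.mod j; omega,
    fun j => by have := sg j; omega, fun j => ?_, ?_, ?_, ?_,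
    full_bt nc F hV 2 (by norm_num) ⟨5 * 3 ^ c, by rw [hN]; ring⟩,
    full_bt nc F hV 3 (by norm_num) ⟨5 * 2 ^ a, by rw [hN]; ring⟩⟩
  · have e := (Cx r).index_mul_card
    rw [h.card_Cx, cV, hN] at e
    have := sgn_dvd (F.s_eq j) (F.dvd j)
    rw [show (Cx r).index = 2 ^ a * 3 ^ c by rw [mul_assoc] at e; omega] at this
    exact_mod_cast this
  · have := full_sq F (g := 1) (a := fun j => deg (F.c j)) fun j => by rw [deg_eq]; simp
    rw [card_Cx_one, hN] at this
    rw [Finset.sum_congr rfl fun j _ => show F.s j * deg (F.c j) * (F.s j * deg (F.c j)) =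
      deg (F.c j) * deg (F.c j) by rcases F.s_eq j with e | e <;> simp [e]]
    exact_mod_cast this
  · obtain ⟨e1, e2, -⟩ := loc_num nc h (m := 2 ^ a * 3 ^ c) (by rw [hN]; ring)
    rw [he, cV] at e1
    omega
  · have e := JT.rs h (by norm_num) rfl he F
    have s0 := F.sum_deg
    rw [Fin.sum_univ_four] at e s0
    have m1 := F.mono (show (0 : Fin 4) ≤ 1 by decide)
    have m2 := F.mono (show (1 : Fin 4) ≤ 2 by decide)
    have m3 := F.mono (show (2 : Fin 4) ≤ 3 by decide)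
    have g0 := sg 0
    have g1 := sg 1
    have g2 := sg 2
    have g3 := sg 3
    by_cases d : F.s 1 * deg (F.c 1) = F.s 2 * deg (F.c 2)
    · exact .inr (.inr (.inl d))
    have k : ∀ i j : Fin 4, (∀ k, k ≠ i → F.s k * deg (F.c k) = F.s i * deg (F.c i) → k = j) →
        cc (F.c i) ≠ F.c i → cc (F.c j) ≠ F.c j ∧ F.s j * deg (F.c j) = F.s i * deg (F.c i) :=
      fun i j H hi => by
        obtain ⟨k, k1, k2, k3⟩ := full_cc' F i hi
        obtain rfl := H k k1 k3
        exact ⟨k2, k3⟩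
    dsimp only at m1 m2 m3 ⊢
    have k0 := k 0 1 fun k k1 k2 => by fin_cases k <;> simp at k1 k2 ⊢ <;> omega
    have k1 := k 1 0 fun k k1 k2 => by fin_cases k <;> simp at k1 k2 ⊢ <;> omega
    have k2 := k 2 3 fun k k1 k2 => by fin_cases k <;> simp at k1 k2 ⊢ <;> omega
    have k3 := k 3 2 fun k k1 k2 => by fin_cases k <;> simp at k1 k2 ⊢ <;> omega
    have t : ∀ j, (cc (F.c j) ≠ F.c j) = (¬ cc (F.c j) = F.c j) := fun _ => rfl
    rw [t, t] at k0 k1 k2 k3
    by_cases h0 : cc (F.c 0) = F.c 0 <;> by_cases h1 : cc (F.c 1) = F.c 1 <;>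
      by_cases h2 : cc (F.c 2) = F.c 2 <;> by_cases h3 : cc (F.c 3) = F.c 3 <;>
      simp only [h0, h1, h2, h3, if_true, if_false, not_true, not_false_iff, true_and, false_and,
        forall_const, false_imp_iff] at e k0 k1 k2 k3 <;> omega

end TQ
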