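import Cfsg.Agent.TQ.Stmt
import Cfsg.Agent.IX.Ch2

/-! The principal 3-block for Sylow 3-subgroups of order 3, and Schur's bound. -/

set_option autoImplicit false
set_option linter.unusedSectionVars false

namespace TQ
open Cfsg H8 H2 Subgroup MQ

variable {G : Type*} [Group G] [Fintype G] [IsSimpleGroup G]

theorem exists_t3 (hG : ¬ IsMulCommutative G) {m : ℕ} (hN : Nat.card G = 3 * m) (hm : ¬ 3 ∣ m) :
    ∃ (x : G) (h : DefOne 3 x) (F : Full h 2) (n : ℕ) (α : G → ℤ), T3 h F n α := by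
  obtain ⟨x, h⟩ := exists_defOne hN hm
  obtain ⟨h1, -, -, h4, h5⟩ := loc_num hG h hN
  have he : Nat.card h.H = 2 := by have := Nat.le_of_dvd (by norm_num) h4; omega
  obtain ⟨F⟩ := exists_full h (n := 2) rfl he
  have pf := commutator_eq_top_of_simple hG
  have d0 := two_le_deg pf (F.ne_one 0)
  have d1 := two_le_deg pf (F.ne_one 1)
  have sd := F.sum_deg
  have mo := F.mono (show (0 : Fin 2) ≤ 1 by decide)
  have m1 := F.mod 1
  simp only [Fin.sum_univ_two] at sd mo
  have ss : F.s 0 = -1 ∧ F.s 1 = 1 := by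
    rcases F.s_eq 0 with e | e <;> rcases F.s_eq 1 with e' | e' <;> rw [e, e'] at sd mo <;> omega
  rw [ss.1, ss.2] at sd
  rw [ss.2] at m1
  have v0 : ∀ g, ¬ 3 ∣ orderOf g → (F.c 0).1 g = (F.c 1).1 g + 1 := fun g hg => by
    have := F.lin g hg
    rw [Fin.sum_univ_two, ss.1, ss.2] at this
    push_cast at this
    linear_combination -this
  obtain ⟨t, ht⟩ := exists_prime_orderOf_dvd_card' (G := G) 2
    (by rw [hN, ← h1, he]; exact ⟨3 * (Nx x).index * Nat.card h.V, by ring⟩)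
  obtain ⟨a, a1, -⟩ := inv_val pf (F.c 1) (ht ▸ pow_orderOf_eq_one t)
  have a3 := abs_lt.1 (irr_int_abs_lt hG (F.ne_one 1) (by rintro rfl; simp at ht) a1)
  have dd : (deg (F.c 0) : ℂ) = deg (F.c 1) + 1 := by
    exact_mod_cast (show deg (F.c 0) = deg (F.c 1) + 1 by omega)
  have key : ∀ g, ∃ b : ℤ, (F.c 1).1 g = b := fun g => by
    by_cases hg : 3 ∣ orderOf g
    · obtain ⟨y, i, hi, v, hv, e⟩ := h.exists_conj_sing hg
      refine ⟨F.s 1, ?_⟩
      rw [← F.val 1 i hi v hv, ← e]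
      exact val_conj _ (isConj_iff.2 ⟨y, by group⟩)
    have e := MQ.Full.prs_eq F g t
    rw [Fin.sum_univ_two, ss.1, ss.2, v0 g hg, v0 t (by rw [ht]; decide), a1, dd] at e
    have g0 := card_ne_zero_complex (G := G)
    have n0 : (deg (F.c 1) : ℂ) ≠ 0 := by exact_mod_cast (deg_pos _).ne'
    have n1 : (deg (F.c 1) : ℂ) + 1 ≠ 0 := Nat.cast_add_one_ne_zero _
    refine exists_int_of_mul (char_isIntegral (irr_isCharacter (F.c 1).2) g)
      (m := (Cx g).index * (Cx t).index * Nat.card h.V * (deg (F.c 1) - a))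
      (a := (Cx g).index * (Cx t).index * Nat.card h.V * (deg (F.c 1) - a) * deg (F.c 1) -
        prs h g t * Nat.card G * deg (F.c 1) * (deg (F.c 1) + 1)) ?_ ?_
    · have := index_Cx_pos g
      have := index_Cx_pos t
      have : 0 < Nat.card h.V := Nat.card_pos
      have : (0 : ℤ) < deg (F.c 1) - a := by omega
      positivity
    · push_cast at e ⊢
      rw [e]
      field_simp
      ring
  choose α hα using key
  exact ⟨x, h, F, deg (F.c 1), α, ss.1, ss.2, by omega, rfl, d1, by omega, hα,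
    fun g hg => by rw [v0 g hg, hα]; simp⟩

variable {χ : IrrCharacter G} {α : G → ℤ} {q : ℕ}

theorem schur_lt (hG : ¬ IsMulCommutative G) (h1 : χ ≠ one1 G) (hα : ∀ g, χ.1 g = α g)
    (hq : q.Prime) {u : G} (hu : orderOf u = q) :
    ∃ k : ℤ, 0 < k ∧ α u = deg χ - q * k ∧ (q - 1) * k ≤ deg χ := by
  have : Fact q.Prime := ⟨hq⟩
  have u1 : u ≠ 1 := by rintro rfl; rw [orderOf_one] at hu; exact hq.one_lt.ne hu
  have h2 := abs_lt.1 (irr_int_abs_lt hG h1 u1 (hα u))
  obtain ⟨k, hk⟩ := dvd_val_sub_deg q χ (k := 1) (by rw [pow_one, ← hu, pow_orderOf_eq_one]) (hα u)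
  have h3 := IX.prime_bd χ hu (hα u)
  have q0 : (0 : ℤ) < q := by exact_mod_cast hq.pos
  refine ⟨-k, by nlinarith, by linarith, ?_⟩
  have e : α u = deg χ + q * k := by linarith
  rw [e] at h3
  nlinarith

/-- a rational character of degree less than `q - 1` excludes the prime `q` -/
theorem schur1 (hG : ¬ IsMulCommutative G) (h1 : χ ≠ one1 G) (hα : ∀ g, χ.1 g = α g)
    (hq : q.Prime) (hd : deg χ + 1 < q) : ¬ q ∣ Nat.card G := fun h => by
  have : Fact q.Prime := ⟨hq⟩
  obtain ⟨u, hu⟩ := exists_prime_orderOf_dvd_card' (G := G) q h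
  obtain ⟨k, k0, -, k2⟩ := schur_lt hG h1 hα hq hu
  have : (deg χ : ℤ) + 1 < q := by exact_mod_cast hd
  nlinarith

/-- a rational character of degree at most `q` excludes `q ^ 2` -/
theorem schur2 (hG : ¬ IsMulCommutative G) (h1 : χ ≠ one1 G) (hα : ∀ g, χ.1 g = α g)
    (hq : q.Prime) (q3 : 3 ≤ q) (hd : deg χ ≤ q) : ¬ q ^ 2 ∣ Nat.card G := fun h => by
  classical
  have : Fact q.Prime := ⟨hq⟩
  obtain ⟨K, hK⟩ := Sylow.exists_subgroup_card_pow_prime q h
  have hd' : (deg χ : ℤ) ≤ q := by exact_mod_cast hd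
  have q3' : (3 : ℤ) ≤ q := by exact_mod_cast q3
  have d2 : (2 : ℤ) ≤ deg χ := by exact_mod_cast two_le_deg (commutator_eq_top_of_simple hG) h1
  have v : ∀ u : K, u ≠ 1 → α u = deg χ - q := fun u hu => by
    have h2 := abs_lt.1 (irr_int_abs_lt hG h1 (fun e => hu (Subtype.ext e)) (hα u))
    obtain ⟨k, hk⟩ := dvd_val_sub_deg q χ (k := 2) (u := (u : G))
      (by rw [← hK]; exact_mod_cast congrArg Subtype.val (pow_card_eq_one' (x := u))) (hα u)
    have k1 : k < 0 := by nlinarith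
    have k2 : -2 < k := by nlinarith
    obtain rfl : k = -1 := by omega
    linarith
  obtain ⟨n, hn⟩ := char_classInner_nat (char_restrict (irr_isCharacter χ.2) K) char_one
  unfold classInner at hn
  rw [hK, ← Finset.add_sum_erase _ _ (Finset.mem_univ 1),
    Finset.sum_congr rfl (g := fun _ => ((deg χ - q : ℤ) : ℂ)) fun u hu => by
      simp [hα, v u (Finset.ne_of_mem_erase hu)]] at hn
  have q0 : (q : ℂ) ≠ 0 := Nat.cast_ne_zero.2 hq.ne_zero
  rw [Finset.sum_const, Finset.card_erase_of_mem (Finset.mem_univ _), Finset.card_univ,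
    ← Nat.card_eq_fintype_card, hK, nsmul_eq_mul, Nat.cast_sub (Nat.one_le_pow _ _ hq.pos)] at hn
  simp only [OneMemClass.coe_one, deg_eq, Pi.one_apply, map_one, mul_one] at hn
  push_cast at hn
  field_simp at hn
  have e : (deg χ + (q ^ 2 - 1) * (deg χ - q) : ℤ) = q ^ 2 * n := by exact_mod_cast hn
  have e2 : (q : ℤ) * 1 = q * (q * (n - (deg χ - q))) := by linear_combination e
  have e3 := mul_left_cancel₀ (by omega) e2
  have := Int.le_of_dvd one_pos ⟨_, e3⟩
  omega

end TQ
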