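import Mathlib

/-! Consecutive divisors of `2 ^ a * 5 * q ^ b`. -/

set_option autoImplicit false

namespace TQ.G1

theorem geom_odd {x : ℤ} (hx : x % 2 = 1) (j : ℕ) :
    (∑ i ∈ Finset.range j, x ^ i) % 2 = j % 2 := by
  induction j with
  | zero => simp
  | succ j ih =>
    have : x ^ j % 2 = 1 := Int.odd_iff.1 (Int.odd_iff.2 hx).pow
    rw [Finset.sum_range_succ]; push_cast; omega

theorem odd_case {x : ℤ} (hx : x % 2 = 1) (h5 : 5 ≤ |x|) {j i : ℕ} (hj : j % 2 = 1) (h3 : 3 ≤ j)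
    (h : x ^ j - 1 ∣ 2 ^ i * 5) : False := by
  have e := geom_sum_mul x j
  have o := geom_odd hx j
  set S := ∑ i ∈ Finset.range j, x ^ i
  have c : IsCoprime S (2 ^ i) := by
    refine IsCoprime.pow_right ⟨1, -(S / 2), by omega⟩
  have d : S ∣ 5 := c.dvd_of_dvd_mul_left ((Dvd.intro _ e).trans h)
  have l : |S| ≤ 5 := Int.le_of_dvd (by norm_num) ((abs_dvd _ _).2 d)
  have l1 : |x ^ j - 1| ≤ 5 * (|x| + 1) := by
    rw [← e, abs_mul]
    exact mul_le_mul l ((abs_sub _ _).trans (by simp)) (abs_nonneg _) (by norm_num)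
  have l2 : |x| ^ j - 1 ≤ |x ^ j - 1| := by
    have := abs_sub_abs_le_abs_sub (x ^ j) 1
    rwa [abs_pow, abs_one] at this
  have l3 : |x| ^ 3 ≤ |x| ^ j := pow_le_pow_right₀ (by omega) h3
  nlinarith [mul_le_mul h5 h5 (by norm_num) (abs_nonneg x)]

theorem pw {q j i e : ℕ} (hq : q.Prime) (q5 : 5 ≤ q) (h : e ∣ 2 ^ i * 5)
    (he : e + 1 = q ^ j ∨ e = q ^ j + 1) : j ≤ 1 := by
  by_contra hc
  have q2 : q % 2 = 1 := hq.eq_two_or_odd.resolve_left (by omega)
  have q3 : q % 3 ≠ 0 := fun c => by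
    have := (Nat.prime_dvd_prime_iff_eq Nat.prime_three hq).1 (Nat.dvd_of_mod_eq_zero c); omega
  have hz : (e : ℤ) ∣ 2 ^ i * 5 := by exact_mod_cast h
  rcases Nat.even_or_odd' j with ⟨k, rfl | rfl⟩
  · rw [pow_mul'] at he
    have Q2 : q ^ k % 2 = 1 := Nat.odd_iff.1 (Nat.odd_iff.2 q2).pow
    have Q3 : q ^ k % 3 ≠ 0 := fun c => q3 (Nat.mod_eq_zero_of_dvd
      (Nat.prime_three.dvd_of_dvd_pow (Nat.dvd_of_mod_eq_zero c)))
    have Q5 : 5 ≤ q ^ k := q5.trans (Nat.le_self_pow (by omega) q)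
    generalize q ^ k = Q at *
    rcases he with he | he
    · have : Q ^ 2 % 3 = 1 := by
        rw [Nat.pow_mod]
        rcases (by omega : Q % 3 = 1 ∨ Q % 3 = 2) with c | c <;> rw [c]
      rcases (Nat.Prime.dvd_mul Nat.prime_three).1 ((show 3 ∣ e by omega).trans h) with c | c
      · exact absurd (Nat.prime_three.dvd_of_dvd_pow c) (by norm_num)
      · omega
    · have : Q ^ 2 % 4 = 1 := by
        rw [Nat.pow_mod]
        rcases (by omega : Q % 4 = 1 ∨ Q % 4 = 3) with c | c <;> rw [c]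
      obtain ⟨u, v, hu, hv, rfl⟩ := exists_dvd_and_dvd_of_dvd_mul h
      obtain ⟨m, -, rfl⟩ := (Nat.dvd_prime_pow Nat.prime_two).1 hu
      have := Nat.le_of_dvd (by norm_num) hv
      have : 25 ≤ Q ^ 2 := by nlinarith
      match m with
      | 0 => omega
      | 1 => omega
      | m + 2 => rw [pow_add, mul_right_comm] at he; omega
  · rcases he with he | he
    · refine odd_case (x := q) (j := 2 * k + 1) (i := i) (by omega) (by simpa using q5) (by omega)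
        (by omega) ?_
      rwa [show (q : ℤ) ^ (2 * k + 1) - 1 = e by
        have : ((e + 1 : ℕ) : ℤ) = (q ^ (2 * k + 1) : ℕ) := by rw [he]
        push_cast at this; omega]
    · refine odd_case (x := -q) (j := 2 * k + 1) (i := i) (by omega) (by simpa using q5) (by omega)
        (by omega) ?_
      rw [Odd.neg_pow ⟨k, rfl⟩, show -(q : ℤ) ^ (2 * k + 1) - 1 = -e by rw [he]; push_cast; ring]
      exact hz.neg_left

theorem two_pow (i : ℕ) : 2 ^ i % 15 = 2 ^ (i % 4) := by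
  conv_lhs => rw [← Nat.div_add_mod i 4, pow_add, pow_mul, Nat.mul_mod, Nat.pow_mod]
  have : i % 4 < 4 := Nat.mod_lt _ (by norm_num)
  generalize i % 4 = r at *
  interval_cases r <;> simp

theorem aur {q j i : ℕ} (hq : q.Prime) (q5 : 5 ≤ q) (h : 2 ^ i + 1 = 5 * q ^ j) :
    2 ^ i = 4 ∨ 2 ^ i = 64 ∧ q = 13 := by
  have h1 := two_pow i
  have h2 : i % 4 < 4 := Nat.mod_lt _ (by norm_num)
  have h3 : i % 4 = 2 := by
    generalize i % 4 = r at *
    interval_cases r <;> omega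
  obtain ⟨k, rfl⟩ : ∃ k, i = 4 * k + 2 := ⟨i / 4, by omega⟩
  obtain ⟨u, hu⟩ : ∃ u, 2 ^ k = u + 1 := ⟨2 ^ k - 1, by have := Nat.two_pow_pos k; omega⟩
  have e : 2 ^ (4 * k + 2) = 4 * (u + 1) ^ 4 := by rw [← hu]; ring
  rw [e] at h ⊢
  have f : (2 * u ^ 2 + 2 * u + 1) * (2 * u ^ 2 + 6 * u + 5) = 5 * q ^ j := by rw [← h]; ring
  have cp : ∀ m, ¬ q ∣ m → m ∣ 5 * q ^ j → m ≤ 5 := fun m h1 h2 => Nat.le_of_dvd (by norm_num)
    ((((Nat.Prime.coprime_iff_not_dvd hq).2 h1).symm.pow_right j).dvd_of_dvd_mul_right h2)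
  by_cases c1 : q ∣ 2 * u ^ 2 + 2 * u + 1
  · by_cases c2 : q ∣ 2 * u ^ 2 + 6 * u + 5
    · have : q ∣ 2 ^ (k + 2) := by
        have := (Nat.dvd_add_right c1).1 (show q ∣ 2 * u ^ 2 + 2 * u + 1 + 2 ^ (k + 2) by
          rw [pow_add, hu]; convert c2 using 1; ring)
        exact this
      have := Nat.le_of_dvd two_pos (hq.dvd_of_dvd_pow this)
      omega
    · have := cp _ c2 (Dvd.intro_left _ f)
      have : u = 0 := by omega
      left; rw [this]; rfl
  · have := cp _ c1 (Dvd.intro _ f)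
    have : u ≤ 1 := by nlinarith
    interval_cases u
    · left; rfl
    · right
      refine ⟨rfl, ?_⟩
      have e13 : q ^ j = 13 := by omega
      have j0 : j ≠ 0 := by rintro rfl; simp at e13
      exact (Nat.prime_dvd_prime_iff_eq hq (by norm_num)).1 (e13 ▸ dvd_pow_self q j0)

/-- the odd member `o` and the even member `e` -/
theorem oe {o e a b q : ℕ} (hq : q.Prime) (q5 : 5 ≤ q) (h1 : o ∣ 2 ^ a * 5 * q ^ b)
    (h2 : e ∣ 2 ^ a * 5 * q ^ b) (ho : o % 2 = 1) (he : e + 1 = o ∨ e = o + 1) (o1 : o ≠ 1) :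
    o = 5 ∨ o = q ∨ ∃ i j, e = 2 ^ i ∧ o = 5 * q ^ j := by
  have c : ∀ p, p.Prime → p ∣ o → ¬ p ∣ e := fun p hp h k => hp.one_lt.ne' <| Nat.dvd_one.1 <| by
    rcases he with rfl | rfl
    · exact (Nat.dvd_add_right k).1 h
    · exact (Nat.dvd_add_right h).1 k
  have h3 : o ∣ 5 * q ^ b := (((Nat.Prime.coprime_iff_not_dvd Nat.prime_two).2
    (by omega)).symm.pow_right a).dvd_of_dvd_mul_left (mul_assoc (2 ^ a) 5 _ ▸ h1)
  obtain ⟨u, v, hu, hv, rfl⟩ := exists_dvd_and_dvd_of_dvd_mul h3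
  obtain ⟨j, -, rfl⟩ := (Nat.dvd_prime_pow hq).1 hv
  rcases Nat.eq_zero_or_pos j with rfl | j0
  · rcases (Nat.dvd_prime Nat.prime_five).1 hu with rfl | rfl
    · simp at o1
    · simp
  have h4 : e ∣ 2 ^ a * 5 := (((Nat.Prime.coprime_iff_not_dvd hq).2 (c q hq
    ((dvd_pow_self q j0.ne').mul_left u))).symm.pow_right b).dvd_of_dvd_mul_right h2
  rcases (Nat.dvd_prime Nat.prime_five).1 hu with rfl | rfl
  · rw [one_mul] at he ⊢
    have := pw hq q5 h4 he
    obtain rfl : j = 1 := by omega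
    simp
  · have h5 : e ∣ 2 ^ a := ((Nat.Prime.coprime_iff_not_dvd Nat.prime_five).2 (c 5 Nat.prime_five
      (Nat.dvd_mul_right _ _))).symm.dvd_of_dvd_mul_right h4
    obtain ⟨i, -, rfl⟩ := (Nat.dvd_prime_pow Nat.prime_two).1 h5
    exact .inr (.inr ⟨i, j, rfl, rfl⟩)

end TQ.G1

namespace TQ
open G1

theorem g1 {n a b q : ℕ} (hq : q.Prime) (q5 : 5 ≤ q) (h1 : n ∣ 2 ^ a * 5 * q ^ b)
    (h2 : n + 1 ∣ 2 ^ a * 5 * q ^ b) (n3 : n % 3 = 1) (n2 : 2 ≤ n) :
    n = 4 ∨ n = q ∨ n + 1 = q ∨ (n = 64 ∧ q = 13) := by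
  rcases Nat.mod_two_eq_zero_or_one n with c | c
  · rcases oe hq q5 h2 h1 (by omega) (.inl rfl) (by omega) with h | h | ⟨i, j, h, k⟩
    · omega
    · omega
    · rcases aur hq q5 (h ▸ k) with l | l <;> omega
  · rcases oe hq q5 h1 h2 c (.inr rfl) (by omega) with h | h | ⟨i, j, h, k⟩
    · omega
    · omega
    · have h1 := two_pow i
      have h2 : i % 4 < 4 := Nat.mod_lt _ (by norm_num)
      generalize i % 4 = r at *
      interval_cases r <;> omega

end TQ
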