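import Cfsg.Agent.TQ.Int
import Cfsg.Agent.S0996

/-! Simple groups of order `2 ^ a * 3 * 5 * 11`. -/

set_option autoImplicit false
set_option linter.unusedSectionVars false

namespace TQ
open Cfsg H8 H2 Subgroup MQ

variable {G : Type*} [Group G] [Fintype G] [IsSimpleGroup G] {p n : ℕ} [hp : Fact p.Prime]
  {x : G}

/-- the exceptional characters are integer valued on `p`-regular elements -/
theorem exc_int {h : DefOne p x} (T : Gen h n) (hV : h.V = ⊥) (hd : ∀ j, deg (T.c j) ≠ deg T.E)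
    (h1 : deg T.E ≠ 1) (h0 : ¬ p ∣ deg T.E) {g : G} (hg : ¬ p ∣ orderOf g) :
    ∃ a : ℤ, T.E.1 g = a := by
  have hc := irr_isCharacter T.E.2
  refine (FT.chr_top_iff.mpr hc).vchr.int_of_aut fun τ _ => ?_
  obtain ⟨k, hk, hτ⟩ := FT.exists_pow_of_aut τ (n := Nat.card G) Nat.card_pos
  have e : τ (T.E.1 g) = (galC T.E hk).1 g := JK.aut_char hc τ hk hτ pow_card_eq_one' Nat.card_pos
  have d := deg_galC T.E hk
  rcases T.mem_of_const (χ := galC T.E hk) (a := (galC T.E hk).1 x)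
    (fun e => h1 (by rw [← d, e, deg_one1])) (fun e => h0 (d ▸ dvd_deg_of_zero _ h.pow_p e))
    (fun v hv => by rw [hV, mem_bot] at hv; rw [hv, mul_one]) with ⟨j, hj⟩ | hj
  · exact absurd (by rw [hj, d]) (hd j)
  · rw [e, T.reg _ hj g hg]

theorem sum_sub_nat {χ : G → ℂ} (hχ : IsCharacter G χ) (S : Subgroup G) [Fintype S] :
    ∃ m : ℕ, ∑ u : S, χ u = Nat.card S * m := by
  obtain ⟨m, hm⟩ := char_classInner_nat (char_restrict hχ S) char_one
  refine ⟨m, ?_⟩
  rw [← hm, classInner, ← mul_assoc, mul_inv_cancel₀ card_ne_zero_complex, one_mul]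
  simp

/-- Blichfeldt's bound for a character of degree five -/
theorem blich5 (nc : ¬ IsMulCommutative G) {θ : IrrCharacter G} (hd : deg θ = 5) {a : ℕ}
    (ha : 2 ^ a ∣ Nat.card G) (hθ : ∀ (g : G) (k : ℕ), g ^ 2 ^ k = 1 → ∃ b : ℤ, θ.1 g = b) :
    2 ^ a ∣ 384 := by
  classical
  obtain ⟨S, hS⟩ := Sylow.exists_subgroup_card_pow_prime 2 ha
  have c := irr_isCharacter θ.2
  obtain ⟨m2, h2⟩ := sum_sub_nat (char_mul c c) S
  obtain ⟨m4, h4⟩ := sum_sub_nat (char_mul (char_mul c c) (char_mul c c)) S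
  have h1 : θ ≠ one1 G := fun e => by rw [e, deg_one1] at hd; omega
  have e : ∑ u : S, (θ.1 u * θ.1 u * (θ.1 u * θ.1 u) - 10 * (θ.1 u * θ.1 u) + 9) = 384 := by
    rw [Finset.sum_eq_single 1]
    · rw [coe_one, deg_eq, hd]; norm_num
    · intro u _ hu
      have u2 : (u : G) ^ 2 ^ a = 1 := by
        rw [← hS]; exact_mod_cast congrArg Subtype.val (pow_card_eq_one' (x := u))
      obtain ⟨b, hb⟩ := hθ u a u2
      have b1 := abs_lt.1 (irr_int_abs_lt nc h1 (fun e => hu (Subtype.ext e)) hb)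
      have b2 := dvd_val_sub_deg 2 θ u2 hb
      rw [hd] at b1 b2
      obtain rfl | rfl | rfl | rfl : b = 3 ∨ b = 1 ∨ b = -1 ∨ b = -3 := by omega
      all_goals rw [hb]; norm_num
    · simp
  simp only [Pi.mul_apply] at h2 h4
  rw [Finset.sum_add_distrib, Finset.sum_sub_distrib, ← Finset.mul_sum, h2, h4, Finset.sum_const,
    Finset.card_univ, ← Nat.card_eq_fintype_card, hS, nsmul_eq_mul] at e
  have : ((2 ^ a : ℕ) : ℤ) * (m4 - 10 * m2 + 9) = (384 : ℕ) := by
    have : (((2 ^ a : ℕ) * (m4 - 10 * m2 + 9) : ℤ) : ℂ) = 384 := by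
      push_cast at e ⊢; linear_combination e
    exact_mod_cast this
  exact Int.natCast_dvd_natCast.1 ⟨_, this.symm⟩

theorem odd_dvd15 {a d : ℕ} (hd : d ∣ 2 ^ a * 15) (ho : ¬ 2 ∣ d) :
    d = 1 ∨ d = 3 ∨ d = 5 ∨ d = 15 := by
  have := (Nat.Coprime.pow_right a ((Nat.coprime_two_right.2 (Nat.odd_iff.2 (by omega))))
    ).dvd_of_dvd_mul_left hd
  have h := Nat.le_of_dvd (by norm_num) this
  interval_cases d <;> omega

theorem g11 {a : ℕ} (nc : ¬ IsMulCommutative G) (hN : Nat.card G = 2 ^ a * 3 * 5 * 11) :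
    Concl G := by
  have hN' : Nat.card G = 11 * (2 ^ a * 15) := by rw [hN]; ring
  have pf := commutator_eq_top_of_simple nc
  obtain ⟨x, h⟩ := exists_defOne (p := 11) hN' fun e => by
    have := (Nat.Coprime.pow_right a (by norm_num : Nat.Coprime 11 2)).dvd_of_dvd_mul_left e
    omega
  obtain ⟨h1, h2, -, h4, h5⟩ := loc_num nc h hN'
  obtain ⟨n, he⟩ : ∃ n, Nat.card h.H = n + 1 := ⟨_, (Nat.sub_add_cancel h5.le).symm⟩
  obtain ⟨T⟩ := exists_gen h he
  have ix : (Cx x).index ∣ 2 ^ a * 15 := by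
    rw [h.index_Cx, ← h1]; exact dvd_mul_right _ _
  have ev : ∀ j, 2 ∣ deg (T.c j) := fun j => by
    by_contra e
    have := odd_dvd15 ((T.dvd j).trans ix) e
    have := two_le_deg pf (T.ne_one j)
    have m := T.mod j
    rcases T.s_eq j with s | s <;> rw [s] at m <;> omega
  have oE : ¬ 2 ∣ deg T.E := fun e => by
    have s := T.sum_deg
    have : (2 : ℤ) ∣ ∑ j, T.q j := Finset.dvd_sum fun j _ =>
      Dvd.dvd.mul_left (by exact_mod_cast ev j) _
    have : (2 : ℤ) ∣ T.q0 := Dvd.dvd.mul_left (by exact_mod_cast e) _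
    omega
  have d1 := odd_dvd15 (T.dvd0.trans ix) oE
  have d2 := two_le_deg pf (T.X1 _ T.E_mem)
  have m := T.mod0
  have n1 : n = 1 ∨ n = 4 ∨ n = 9 := by
    rw [he] at h4 h5
    have := Nat.le_of_dvd (by norm_num) h4
    have : n ≤ 9 := by omega
    interval_cases n <;> omega
  have d5 : deg T.E = 5 ∧ n = 4 := by rcases T.s0_eq with s | s <;> rw [s] at m <;> omega
  obtain ⟨d5, rfl⟩ := d5
  have hV : h.V = ⊥ := by
    by_contra hV
    have := (T.large pf hV).2
    omega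
  have b := blich5 nc d5 (a := a) ⟨165, by rw [hN]; ring⟩ fun g k hg =>
    exc_int T hV (fun j e => oE (e ▸ ev j)) (by omega) (by omega) fun e => by
      have := (by norm_num : Nat.Prime 11).dvd_of_dvd_pow (e.trans (orderOf_dvd_of_pow_eq_one hg))
      omega
  rw [he, hV, card_bot] at h1
  have a9 : a < 9 := by
    by_contra a9
    have := (pow_dvd_pow 2 (show 9 ≤ a by omega)).trans b
    omega
  have i12 : (Nx x).index = 12 := by interval_cases a <;> omega
  rcases Cfsg.Agent.S0996.result pf 11 x h.ord (le_antisymm (fun g hg =>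
    h.mem_zpowers_iff.mpr (h.mem_zpowers_of_V_eq_bot hV hg)) (zpowers_le.2 self_mem_Cx))
    (by rw [h.card_sylow, i12]; norm_num) with ⟨F, _, _, hF, -, e⟩ | ⟨m, F, _, _, -, hm, -⟩
  · exact .inl ⟨F, _, _, by omega, e⟩
  · have : 5 ∣ 2 ^ m := ⟨2, by omega⟩
    exact absurd (Nat.prime_five.dvd_of_dvd_pow this) (by norm_num)

end TQ
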