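import Cfsg.Agent.TQ.Stmt
import Cfsg.Agent.IX.Ch2
import Cfsg.Agent.H8.Blk

/-! Degrees `1, 64, 65` in the principal 3-block: `169` does not divide the order. -/

set_option autoImplicit false
set_option linter.unusedSectionVars false
set_option linter.unusedVariables false

namespace TQ
open Cfsg H8 H2 Subgroup
open scoped ComplexConjugate

instance fact13 : Fact (Nat.Prime 13) := ⟨by norm_num⟩

variable {G : Type*} [Group G] [Fintype G] [IsSimpleGroup G] {x : G} {h : DefOne 3 x}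
  {F : Full h 2} {α : G → ℤ}

theorem g13_fix {ψ : G → ℂ} (hψ : IsCharacter G ψ) (D : Subgroup G) [Fintype D]
    (hD : Nat.card D = 13) {n : G} (hn : n ∈ normalizer (D : Set G)) {k : ℕ}
    (hk : n ^ 13 ^ k = 1) {a b : ℤ} (ha : ∑ d : D, ψ (n * d) = 13 * a)
    (hb : ∑ d : D, ψ d = 13 * b) : 13 ∣ a - b ∧ |a| ≤ |b| := by
  classical
  refine ⟨?_, ?_⟩
  · obtain ⟨m, ρ, rfl⟩ := hψ
    have := dvd_char_sub 13 (isChar_fixed ρ D) (u := ⟨n, hn⟩) (y := 1) (k := k) (Subtype.ext hk)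
      (Commute.one_right _) (a := a) (b := b) ?_ ?_
    · exact_mod_cast this
    · rw [mul_one]
      show LinearMap.trace ℂ _ (ρ n * avg ρ D) = _
      rw [trace_mul_avg, ha, hD]; push_cast; ring
    · show LinearMap.trace ℂ _ (ρ 1 * avg ρ D) = _
      rw [trace_mul_avg]
      simp only [one_mul]
      rw [hb, hD]; push_cast; ring
  · have := norm_sum_coset_le hψ D hn
    rw [ha, hb, norm_mul, norm_mul, Complex.norm_intCast, Complex.norm_intCast] at this
    have h2 := le_of_mul_le_mul_left this (by simp)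
    exact_mod_cast h2

theorem g13_zp {ψ : G → ℂ} (hψ : IsCharacter G ψ) {w d : G} (hw : orderOf w = 13)
    (hd : d ∈ zpowers w) (d1 : d ≠ 1) {a : ℤ} (ha : ψ w = a) : ψ d = a := by
  obtain ⟨k, rfl⟩ := mem_powers_iff_mem_zpowers.2 hd
  refine IX.val_pow_int hψ ha ?_
  rw [hw, Nat.coprime_comm, Nat.Prime.coprime_iff_not_dvd (by norm_num)]
  intro h1
  exact d1 (orderOf_dvd_iff_pow_eq_one.1 (hw ▸ h1))

theorem g13_sum {ψ : G → ℂ} (hψ : IsCharacter G ψ) {w : G} (hw : orderOf w = 13)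
    [Fintype (zpowers w)] {a : ℤ} (ha : ψ w = a) :
    ∑ d : zpowers w, ψ d = ψ 1 + 12 * a := by
  classical
  rw [← Finset.add_sum_erase _ _ (Finset.mem_univ 1), Finset.sum_congr rfl (g := fun _ => (a : ℂ))
    fun d hd => g13_zp hψ hw d.2 (fun e => Finset.ne_of_mem_erase hd (Subtype.ext e)) ha,
    Finset.sum_const, Finset.card_erase_of_mem (Finset.mem_univ _), Finset.card_univ,
    ← Nat.card_eq_fintype_card, Nat.card_zpowers, hw]
  simp

namespace T3
variable (T : T3 h F 64 α)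
include T

theorem g13_nc : ¬ IsMulCommutative G := by
  intro hc
  have h1 : (Nat.card G).Prime := Group.is_simple_iff_prime_card.1 inferInstance
  have h2 := deg_dvd_card (F.c 1)
  rw [T.d1] at h2
  rcases h1.eq_one_or_self_of_dvd _ h2 with e | e
  · omega
  · rw [← e] at h1
    norm_num at h1

theorem g13_rng {w : G} (hw : orderOf w = 13) : ∃ m : ℤ, 1 ≤ m ∧ m ≤ 5 ∧ α w = 64 - 13 * m := by
  have w1 : w ≠ 1 := by rintro rfl; simp at hw
  have h1 := dvd_val_sub_deg 13 (F.c 1) (k := 1) (u := w) (by rw [pow_one, ← hw, pow_orderOf_eq_one])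
    (T.val w)
  have h2 := irr_int_abs_lt T.g13_nc (F.ne_one 1) w1 (T.val w)
  have h3 := IX.prime_bd (F.c 1) hw (T.val w)
  rw [T.d1] at h1 h2 h3
  obtain ⟨m, hm⟩ := h1
  have h4 := abs_lt.1 h2
  push_cast at hm h3 h4
  exact ⟨-m, by omega, by omega, by omega⟩

theorem g13_val0 {w : G} {k : ℕ} (hw : w ^ 13 ^ k = 1) : (F.c 0).1 w = (α w + 1 : ℤ) :=
  T.val0 w fun h3 => by
    have := Nat.Prime.dvd_of_dvd_pow Nat.prime_three (h3.trans (orderOf_dvd_of_pow_eq_one hw))
    omega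

theorem g13_notB0 (h13 : 13 ∣ Nat.card G) : F.c 0 ∉ L.B0 13 G := by
  classical
  intro hχ
  obtain ⟨z, hz, hz'⟩ := exists_central_of_prime 13 h13
  obtain ⟨m, m1, m5, hm⟩ := T.g13_rng hz
  have h0 := T.g13_val0 (w := z) (k := 1) (by rw [pow_one, ← hz, pow_orderOf_eq_one])
  have := L.MM_om_sub_of_mem_B0 (isClassFunction_indicator z)
    (fun g => by split_ifs; exacts [isIntegral_one, isIntegral_zero]) hχ
  have h2 := sum_indicator_mul (f := 1) (fun _ _ => rfl) z
  simp only [Pi.one_apply, mul_one] at h2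
  rw [L.om, sum_indicator_mul (L.irr_class _), h0, h2, ← index_centralizer_eq, deg_eq, T.d0,
    hm] at this
  have h3 := this.mul_II (L.II_natCast 5)
  have h4 : L.MM 13 ((-((Cx z).index * m) : ℤ) : ℂ) := by
    convert h3 using 1
    push_cast
    ring
  have h5 := L.MM_intCast_iff.1 h4
  rw [dvd_neg] at h5
  rcases (Int.prime_iff_natAbs_prime.2 (by norm_num) : Prime (13 : ℤ)).dvd_or_dvd h5 with h6 | h6
  · exact hz' (by exact_mod_cast h6)
  · have := Int.le_of_dvd (by omega) h6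
    omega

theorem g13_two (h13 : 13 ∣ Nat.card G) {w : G} (hw : orderOf w = 13) : α w = -1 ∨ α w = 25 := by
  classical
  obtain ⟨m, m1, m5, hm⟩ := T.g13_rng hw
  by_cases hc : ∃ u ∈ h.V, IsConj w u
  · obtain ⟨u, hu, hwu⟩ := hc
    have h1 := dvd_char_sub 3 (irr_isCharacter (F.c 1).2) (u := x) (y := u) (k := 1)
      (by rw [pow_one]; exact h.pow_p) (mem_Cx.1 (h.V_le hu)).symm (F.val_mul 1 hu)
      ((val_conj _ hwu).trans (T.val w))
    rw [T.s1] at h1
    omega
  · left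
    have hw' : L.PElt 13 w := ⟨1, by rw [pow_one, ← hw, pow_orderOf_eq_one]⟩
    have h1 : ∀ v : h.V, ∑ χ ∈ L.B0 13 G, χ.1 (x * v) * conj (χ.1 w) = 0 := fun v => by
      obtain ⟨u, y, hu, hy, huy, e, hu', -⟩ := L.exists_decomp (p := 13) (x * v)
      have := L.B0_orth hu hy huy hw' L.Reg_one (Commute.one_right w) (fun hc' => hc ⟨u, ?_, hc'.symm⟩)
      · rwa [← e, mul_one] at this
      · refine h.mem_V'.2 ⟨(zpowers_le.2 (mul_mem self_mem_Cx (h.V_le v.2))) hu', fun h3 => ?_⟩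
        obtain ⟨k, hk⟩ := hu
        have := Nat.Prime.dvd_of_dvd_pow Nat.prime_three (h3.trans (orderOf_dvd_of_pow_eq_one hk))
        omega
    have h2 : ∑ χ : IrrCharacter G,
        (if χ ∈ L.B0 13 G then (∑ v : h.V, χ.1 (x * v)) * conj (χ.1 w) else 0) = 0 := by
      rw [Finset.sum_ite_mem, Finset.univ_inter]
      simp only [Finset.sum_mul]
      rw [Finset.sum_comm]
      exact Finset.sum_eq_zero fun v _ => h1 v
    rw [F.sum_irr _ (fun χ c1 c2 => by
      have := F.other χ c1 c2 1 one_ne_zero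
      rw [xp_one] at this
      rw [this]; simp), Fin.sum_univ_two, if_neg (T.g13_notB0 h13),
      if_pos (show one1 G ∈ L.B0 13 G from L.triv_mem_B0),
      Finset.sum_congr rfl fun (v : h.V) _ => F.val_mul 1 v.2, T.val, T.s1] at h2
    have h3 : (Fintype.card h.V : ℂ) ≠ 0 := by simp
    split_ifs at h2
    · have h4 : (Fintype.card h.V : ℂ) * (1 + α w) = 0 := by
        rw [← h2]; simp; ring
      have h5 : ((1 + α w : ℤ) : ℂ) = 0 := by
        push_cast; exact (mul_eq_zero.1 h4).resolve_left h3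
      have h6 : 1 + α w = 0 := by exact_mod_cast h5
      omega
    · simp at h2

end T3

theorem g13 (T : T3 h F 64 α) (h169 : 169 ∣ Nat.card G) : False := by
  classical
  have h13 : 13 ∣ Nat.card G := dvd_trans (by norm_num) h169
  obtain ⟨A, hA⟩ := Sylow.exists_subgroup_card_pow_prime (G := G) 13 (n := 2) h169
  have hcm : ∀ a ∈ A, ∀ b ∈ A, a * b = b * a := fun a ha b hb =>
    congrArg Subtype.val ((IsPGroup.isMulCommutative_of_card_eq_prime_sq hA).is_comm.comm ⟨a, ha⟩ ⟨b, hb⟩)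
  have hp : ∀ a ∈ A, a ^ 13 ^ 2 = 1 := fun a ha => by
    rw [← hA]; exact congrArg Subtype.val (pow_card_eq_one' (x := (⟨a, ha⟩ : A)))
  have hψ := irr_isCharacter (F.c 0).2
  have hv : ∀ a ∈ A, (F.c 0).1 a = (α a + 1 : ℤ) := fun a ha => T.g13_val0 (hp a ha)
  have hm : ∀ a ∈ A, (13 : ℤ) ∣ α a + 1 := fun a ha => by
    have := dvd_val_sub_deg 13 (F.c 0) (hp a ha) (hv a ha)
    rw [T.d0] at this
    omega
  have key : ∀ w ∈ A, orderOf w = 13 → ∀ n ∈ A, ∀ a : ℤ,
      ∑ d : zpowers w, (F.c 0).1 (n * d) = 13 * a →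
      (α w = -1 ∧ 13 ∣ a - 5 ∧ |a| ≤ 5) ∨ (α w = 25 ∧ 13 ∣ a - 29) := by
    intro w hw ho n hn a ha
    have hn' : n ∈ normalizer (zpowers w : Set G) := by
      refine centralizer_le_normalizer _ ?_
      rw [centralizer_zpowers]
      exact mem_Cx.2 (hcm n hn w hw)
    have hs := g13_sum hψ ho (hv w hw)
    rw [deg_eq, T.d0] at hs
    rcases T.g13_two h13 ho with e | e
    · have := g13_fix hψ _ (by rw [Nat.card_zpowers, ho]) hn' (hp n hn) (b := 5) ha
        (by rw [hs, e]; norm_num)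
      exact Or.inl ⟨e, this.1, by simpa using this.2⟩
    · have := g13_fix hψ _ (by rw [Nat.card_zpowers, ho]) hn' (hp n hn) (b := 29) ha
        (by rw [hs, e]; norm_num)
      exact Or.inr ⟨e, this.1⟩
  have hcst : ∀ w : G, orderOf w = 13 → ∀ (f : zpowers w → ℂ) (c : ℂ), (∀ d, f d = c) →
      ∑ d, f d = 13 * c := fun w hw f c hf => by
    rw [Finset.sum_congr rfl fun d _ => hf d, Finset.sum_const, Finset.card_univ,
      ← Nat.card_eq_fintype_card, Nat.card_zpowers, hw]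
    simp
  by_cases hc : ∃ n ∈ A, n ^ 13 ≠ 1
  · obtain ⟨n, hn, n1⟩ := hc
    have ho : orderOf (n ^ 13) = 13 := orderOf_eq_prime (by rw [← pow_mul]; exact hp n hn) n1
    have h1 := key _ (pow_mem hn 13) ho n hn (α n + 1) (hcst _ ho _ _ fun d => by
      obtain ⟨k, hk⟩ := mem_powers_iff_mem_zpowers.2 d.2
      rw [← hk]
      show (F.c 0).1 (n * (n ^ 13) ^ k) = _
      rw [← pow_mul, ← pow_succ']
      refine IX.val_pow_int hψ (hv n hn) ?_
      refine Nat.Coprime.coprime_dvd_right (orderOf_dvd_of_pow_eq_one (hp n hn)) ?_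
      refine Nat.Coprime.pow_right _ ?_
      rw [Nat.coprime_comm, Nat.Prime.coprime_iff_not_dvd (by norm_num)]
      omega)
    have h2 := hm n hn
    omega
  · push Not at hc
    have ho : ∀ a ∈ A, a ≠ 1 → orderOf a = 13 := fun a ha a1 => orderOf_eq_prime (hc a ha) a1
    have hex : ∀ w ∈ A, w ≠ 1 → ∃ n ∈ A, ∀ d : zpowers w, n * d ∈ A ∧ n * d ≠ 1 := by
      intro w hw w1
      have h1 : ¬ A ≤ zpowers w := fun h1 => by
        have := Nat.le_of_dvd Nat.card_pos (card_dvd_of_le h1)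
        rw [hA, Nat.card_zpowers, ho w hw w1] at this
        omega
      obtain ⟨n, hn, hn'⟩ := SetLike.not_le_iff_exists.1 h1
      refine ⟨n, hn, fun d => ⟨mul_mem hn (zpowers_le.2 hw d.2), fun e => hn' ?_⟩⟩
      rw [eq_inv_of_mul_eq_one_left e]
      exact inv_mem d.2
    by_cases hc' : ∃ w ∈ A, w ≠ 1 ∧ α w = -1
    · obtain ⟨w, hw, w1, e⟩ := hc'
      obtain ⟨n, hn, hd⟩ := hex w hw w1
      have h1 : ∀ d : zpowers w, ∃ j : ℤ, (F.c 0).1 (n * d) = 13 * (2 * j) := fun d => by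
        rw [hv _ (hd d).1]
        rcases T.g13_two h13 (ho _ (hd d).1 (hd d).2) with e | e
        · exact ⟨0, by rw [e]; norm_num⟩
        · exact ⟨1, by rw [e]; norm_num⟩
      choose j hj using h1
      have h2 := key w hw (ho w hw w1) n hn (2 * ∑ d, j d) (by
        simp only [hj]; push_cast; rw [Finset.mul_sum, Finset.mul_sum])
      rw [abs_le] at h2
      omega
    · push Not at hc'
      have : Nontrivial A := Finite.one_lt_card_iff_nontrivial.1 (by rw [hA]; norm_num)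
      obtain ⟨⟨w, hw⟩, w1⟩ := exists_ne (1 : A)
      have w1' : w ≠ 1 := fun e => w1 (Subtype.ext e)
      obtain ⟨n, hn, hd⟩ := hex w hw w1'
      have h2 := key w hw (ho w hw w1') n hn 26 (hcst _ (ho w hw w1') _ _ fun d => by
        rw [hv _ (hd d).1, (T.g13_two h13 (ho _ (hd d).1 (hd d).2)).resolve_left
          (hc' _ (hd d).1 (hd d).2)]
        norm_num)
      have h3 := hc' w hw w1'
      omega

end TQ
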