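import Cfsg.Agent.TQ.G0
import Cfsg.Agent.JT.L0

/-! No simple groups of order `2 ^ a * 105` or `2 ^ a * 195`. -/

set_option autoImplicit false
set_option linter.unusedSectionVars false

namespace TQ
open Cfsg H8 H2 Subgroup MQ

variable {G : Type*} [Group G] [Fintype G] [IsSimpleGroup G] {a : ℕ}

theorem odd_dvd {d m : ℕ} (h : d ∣ 2 ^ a * m) (ho : d % 2 = 1) : d ∣ m :=
  (Nat.Coprime.pow_right a ((Nat.coprime_two_right).2 (Nat.odd_iff.2 ho))).dvd_of_dvd_mul_left h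

theorem dvd15 {d : ℕ} (h : d ∣ 15) : d = 1 ∨ d = 3 ∨ d = 5 ∨ d = 15 := by
  have := Nat.le_of_dvd (by decide) h
  interval_cases d <;> omega

theorem dvd35 {d : ℕ} (h : d ∣ 35) : d = 1 ∨ d = 5 ∨ d = 7 ∨ d = 35 := by
  have := Nat.le_of_dvd (by decide) h
  interval_cases d <;> omega

theorem nc15 {q : ℕ} (hN : Nat.card G = 2 ^ a * 3 * 5 * q) : ¬ IsMulCommutative G :=
  not_comm_of_card_not_prime fun h => by
    have h3 := (Nat.prime_dvd_prime_iff_eq Nat.prime_three h).1 ⟨2 ^ a * 5 * q, by rw [hN]; ring⟩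
    have h5 := (Nat.prime_dvd_prime_iff_eq Nat.prime_five h).1 ⟨2 ^ a * 3 * q, by rw [hN]; ring⟩
    omega

theorem g13b (hN : Nat.card G = 2 ^ a * 3 * 5 * 13) : False := by
  have : Fact (Nat.Prime 13) := ⟨by norm_num⟩
  have nc := nc15 hN
  have pf := commutator_eq_top_of_simple nc
  have hN' : Nat.card G = 13 * (2 ^ a * 15) := by rw [hN]; ring
  obtain ⟨y, h⟩ := exists_defOne hN' fun c => by have := dvd15 (odd_dvd c rfl); omega
  obtain ⟨h1, -, -, h4, h5⟩ := loc_num nc h hN'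
  have i1 : (Cx y).index ∣ 2 ^ a * 15 := ⟨Nat.card h.V, by rw [h.index_Cx, h1]⟩
  obtain ⟨n, he, ⟨T⟩⟩ := JT.ex_gen h
  have ev : ∀ j, 2 ∣ deg (T.c j) := fun j => by
    by_contra c
    have := dvd15 (odd_dvd ((T.dvd j).trans i1) (by omega))
    have := two_le_deg pf (T.ne_one j)
    have := T.mod j
    rcases T.s_eq j with e | e <;> rw [e] at this <;> omega
  have s := T.sum_deg
  have : (2 : ℤ) ∣ ∑ j, T.q j := Finset.dvd_sum fun j _ =>
    (Int.natCast_dvd_natCast.2 (ev j)).mul_left _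
  have m0 := T.mod0
  have d0 := two_le_deg pf (T.X1 _ T.E_mem)
  have l := Nat.le_of_dvd (by decide) h4
  rw [he] at h4 h5 l
  have k : T.q0 = -15 ∧ n = 1 ∨ T.q0 = -3 ∧ n = 2 := by
    unfold Gen.q0 at s ⊢
    have l' : n < 12 := l
    rcases T.s0_eq with e | e <;> rw [e] at s m0 ⊢ <;>
      have := dvd15 (odd_dvd (T.dvd0.trans i1) (by omega)) <;> interval_cases n <;> omega
  rcases k with ⟨k, rfl⟩ | ⟨k, rfl⟩
  · rw [k, Fin.sum_univ_one, Gen.q] at s
    have d : deg (T.c 0) = 14 := by rcases T.s_eq 0 with e | e <;> rw [e] at s <;> omega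
    have := dvd15 (odd_dvd ((by decide : 7 ∣ 14).trans (d ▸ (T.dvd 0).trans i1)) rfl)
    omega
  · rw [k, Fin.sum_univ_two, Gen.q, Gen.q] at s
    have mo := T.mono (show (0 : Fin 2) ≤ 1 by decide)
    have m1 := T.mod 0
    have m2 := T.mod 1
    have a0 := (T.dvd 0).trans i1
    have a1 := (T.dvd 1).trans i1
    have b0 := two_le_deg pf (T.ne_one 0)
    have b1 := two_le_deg pf (T.ne_one 1)
    obtain ⟨u, hu⟩ := ev 0
    obtain ⟨w, hw⟩ := ev 1
    beta_reduce at mo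
    rw [hu] at a0
    rw [hw] at a1
    have c0 := fun c => dvd15 (odd_dvd ((dvd_mul_left u 2).trans a0) c)
    have c1 := fun c => dvd15 (odd_dvd ((dvd_mul_left w 2).trans a1) c)
    clear a0 a1 i1 h1 hN hN'
    rw [hu] at s mo m1 b0
    rw [hw] at s mo m2 b1
    have e := T.s_eq 0
    have e' := T.s_eq 1
    generalize T.s 0 = s0 at *
    generalize T.s 1 = s1 at *
    have : w = u + 1 ∧ u % 13 = 6 := by
      rcases e with rfl | rfl <;> rcases e' with rfl | rfl <;> omega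
    omega

theorem g7 (hN : Nat.card G = 2 ^ a * 3 * 5 * 7) : False := by
  classical
  have nc := nc15 hN
  have hN' : Nat.card G = 3 * (2 ^ a * 35) := by rw [hN]; ring
  obtain ⟨x, h, F, n, α, T⟩ := exists_t3 nc hN' fun c => by have := dvd35 (odd_dvd c rfl); omega
  obtain ⟨h1, -⟩ := loc_num nc h hN'
  have i1 : (Cx x).index ∣ 2 ^ a * 35 := ⟨Nat.card h.V, by rw [h.index_Cx, h1]⟩
  have a0 := T.d0 ▸ (F.dvd 0).trans i1
  have a1 := T.d1 ▸ (F.dvd 1).trans i1
  have n2 := T.n2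
  have n3 := T.n3
  have n6 : ¬ n + 1 < 7 := fun c => schur1 nc (F.ne_one 1) T.val (q := 7) (by norm_num) (T.d1 ▸ c)
    ⟨2 ^ a * 15, by rw [hN]; ring⟩
  obtain rfl : n = 7 := by
    have c0 := fun c => dvd35 (odd_dvd a0 c)
    have c1 := fun c => dvd35 (odd_dvd a1 c)
    have c2 : n ≠ 34 := fun c => by
      have := dvd35 (odd_dvd ((by decide : 17 ∣ 34).trans (c ▸ a1)) rfl)
      omega
    omega
  by_cases c : 5 ∣ Nat.card h.V
  · obtain ⟨r, hr, o⟩ := exists_mem_V h 5 c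
    obtain ⟨β, hβ, e⟩ := F.res 1
    have e1 := e ⟨r, hr⟩
    rw [T.s1, if_pos rfl, T.val] at e1
    obtain ⟨b, hb⟩ := exists_int_of_mul (char_isIntegral hβ ⟨r, hr⟩) (m := 3) (a := α r - 1)
      (by decide) (by push_cast at e1 ⊢; linear_combination -e1)
    rw [hb] at e1
    have e2 : α r = 3 * b + 1 := by exact_mod_cast e1
    obtain ⟨k, k0, k1, k2⟩ := schur_lt nc (F.ne_one 1) T.val Nat.prime_five o
    rw [T.d1] at k1 k2
    omega
  have hN5 : Nat.card G = 5 * (2 ^ a * 21) := by rw [hN]; ring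
  obtain ⟨r, k⟩ := exists_defOne hN5 fun c => absurd (odd_dvd c rfl) (by decide)
  obtain ⟨-, -, -, h4, h5⟩ := loc_num nc k hN5
  obtain ⟨m, he, ⟨S⟩⟩ := JT.ex_gen k
  have rg : ∀ g ∈ Cx x, ¬ 5 ∣ orderOf g := fun g hg e => c (by
    have := e.trans (orderOf_dvd_natCard _ hg)
    rw [h.card_Cx] at this
    exact (by decide : Nat.Coprime 5 3).dvd_of_dvd_mul_left this)
  have z : ∀ φ, φ ≠ one1 G → mu h φ ≠ 0 → φ = F.c 0 ∧ deg φ = 8 ∨ φ = F.c 1 ∧ deg φ = 7 :=
    fun φ e1 e2 => by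
    by_contra e3
    refine e2 (Full.mu_other F e1 fun j e => e3 ?_)
    subst e
    fin_cases j
    exacts [.inl ⟨rfl, T.d0⟩, .inr ⟨rfl, T.d1⟩]
  have s := JT.mu_gen S h rg
  rw [Finset.sum_eq_zero fun j _ => mul_eq_zero_of_right _ (by
    by_contra e
    have := z _ (S.ne_one j) e
    have := S.mod j
    rcases S.s_eq j with e | e <;> rw [e] at this <;> omega)] at s
  have e0 : mu h S.E ≠ 0 := fun e => by simp [e] at s
  have zE := z _ (S.X1 _ S.E_mem) e0
  have c1 : S.X.card ≤ 1 := Finset.card_le_one.2 fun θ hθ θ' hθ' => by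
    have k : ∀ θ ∈ S.X, θ = S.E := fun θ hθ => by
      have := z θ (S.X1 _ hθ) (by
        rw [show mu h θ = mu h S.E from congrArg (· / _) (Finset.sum_congr rfl fun v _ =>
          S.reg θ hθ _ (rg _ (mul_mem self_mem_Cx (h.V_le v.2))))]
        exact e0)
      have d := S.deg_X hθ
      rcases this with e | e <;> rcases zE with e' | e' <;> first | omega | exact e.1.trans e'.1.symm
    rw [k θ hθ, k θ' hθ']
  have cx := S.cardX
  have m0 := S.mod0
  have m3 : m = 3 := by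
    have := Nat.le_of_dvd (by decide) h4
    have : S.X.card * (m + 1) ≤ 1 * (m + 1) := Nat.mul_le_mul_right _ c1
    omega
  subst m3
  rcases S.s0_eq with e | e <;> rw [e] at m0 <;> omega

end TQ
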