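import Cfsg.Agent.TQ.Stmt
import Cfsg.Agent.JK.Gal

/-! Characters of a principal block of defect one that are determined by their degree are
integer valued. -/

set_option autoImplicit false
set_option linter.unusedSectionVars false

namespace TQ
open Cfsg H8 H2 Subgroup

variable {G : Type*} [Group G] [Fintype G] {p n : ℕ} [Fact p.Prime] {x : G} {h : DefOne p x}

theorem int_of_gal (χ : IrrCharacter G)
    (H : ∀ (k : ℕ) (hk : k.Coprime (Nat.card G)), (∀ (g : G) (a : ℤ), χ.1 g = a →
      (galC χ hk).1 g = a) → galC χ hk = χ) : ∃ α : G → ℤ, ∀ g, χ.1 g = α g := by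
  have hc := irr_isCharacter χ.2
  suffices ∀ g, ∃ m : ℤ, χ.1 g = m from ⟨fun g => (this g).choose, fun g => (this g).choose_spec⟩
  intro g
  refine (FT.chr_top_iff.mpr hc).vchr.int_of_aut fun τ _ => ?_
  obtain ⟨k, hk, hτ⟩ := FT.exists_pow_of_aut τ (n := Nat.card G) Nat.card_pos
  have e : ∀ g, τ (χ.1 g) = (galC χ hk).1 g := fun g =>
    JK.aut_char hc τ hk hτ pow_card_eq_one' Nat.card_pos
  rw [e, H k hk fun g a ha => by rw [← e, ha, map_intCast]]

theorem full_int (F : Full h n) (j : Fin n) (hd : ∀ k, deg (F.c k) = deg (F.c j) → k = j) :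
    ∃ α : G → ℤ, ∀ g, (F.c j).1 g = α g := by
  refine int_of_gal _ fun k hk H => ?_
  by_cases h1 : galC (F.c j) hk = one1 G
  · have := deg_galC (F.c j) hk
    rw [h1, deg_one1] at this
    refine absurd (Subtype.ext (funext fun g => ?_)) (F.ne_one j)
    obtain ⟨g, rfl⟩ := (powCoprime hk.symm).surjective g
    exact congrFun (congrArg Subtype.val h1) g
  obtain ⟨i, hi⟩ := F.mem_of_const (χ := galC (F.c j) hk) (a := F.s j) h1
    (by rcases F.s_eq j with e | e <;> simp [e]) fun v hv => H _ _ (F.val_mul j hv)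
  rw [← hi, hd i (by rw [hi, deg_galC])]

end TQ
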