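import Cfsg.Agent.H2.Loc

/-! Integral forms of integer valued characters containing a trivial character of a subgroup once. -/

set_option autoImplicit false
set_option linter.unusedSectionVars false

namespace TQ
open Cfsg H8 H2 Subgroup Module

variable {G : Type*} [Group G] [Fintype G]

/-- the translates of the function `g ↦ ∑ h, χ (g h)` lie in a space of dimension `χ 1` -/
theorem lat_space (χ : IrrCharacter G) (H : Subgroup G) [Fintype H]
    (hH : ∑ h : H, χ.1 h = Nat.card H) : ∃ W : Submodule ℂ (G → ℂ), finrank ℂ W ≤ deg χ ∧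
      ∀ g : G, (fun x => ∑ h : H, χ.1 (x * g * h)) ∈ W := by
  obtain ⟨n, ρ, hρ⟩ := irr_isCharacter χ.2
  have hn : n = deg χ := by
    have := deg_eq χ
    rw [← hρ, Representation.char_one] at this
    simpa using this
  have c0 : (Nat.card H : ℂ) ≠ 0 := card_ne_zero_complex
  set E : (Fin n → ℂ) →ₗ[ℂ] (Fin n → ℂ) := ∑ h : H, ρ h with hE
  have e1 : ∀ k : H, ρ k * E = E := fun k => by
    rw [hE, Finset.mul_sum]
    exact Fintype.sum_equiv (Equiv.mulLeft k) _ _ fun h => by simp
  set e : (Fin n → ℂ) →ₗ[ℂ] (Fin n → ℂ) := (Nat.card H : ℂ)⁻¹ • E with he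
  have e2 : E * E = (Nat.card H : ℂ) • E := by
    conv_lhs => rw [hE, Finset.sum_mul]
    simp only [← hE, e1, Finset.sum_const, Finset.card_univ, Nat.card_eq_fintype_card,
      Nat.cast_smul_eq_nsmul]
  have e3 : IsIdempotentElem e := by
    rw [IsIdempotentElem, he, smul_mul_smul_comm, e2, smul_smul, inv_mul_cancel_right₀ c0]
  have t : ∀ g : G, LinearMap.trace ℂ _ (ρ g * E) = ∑ h : H, χ.1 (g * h) := fun g => by
    rw [hE, Finset.mul_sum, map_sum]
    exact Finset.sum_congr rfl fun h _ => by rw [← map_mul, ← hρ]; rfl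
  have t1 : LinearMap.trace ℂ _ e = 1 := by
    have := t 1
    simp only [map_one, one_mul, hH] at this
    rw [he, map_smul, this, smul_eq_mul, inv_mul_cancel₀ c0]
  have r1 : finrank ℂ (LinearMap.range e) = 1 := by
    have := (LinearMap.IsIdempotentElem.isProj_range e e3).trace
    rw [t1] at this
    exact_mod_cast this.symm
  obtain ⟨v, -, hv⟩ := finrank_eq_one_iff'.1 r1
  obtain ⟨l, hl⟩ : ∃ l : (Fin n → ℂ) →ₗ[ℂ] ℂ, E = l.smulRight v.1 := by
    choose c hc using fun i : Fin n => hv ⟨e (Pi.single i 1), LinearMap.mem_range_self _ _⟩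
    refine ⟨∑ i, (Nat.card H * c i) • LinearMap.proj i, (Pi.basisFun ℂ (Fin n)).ext fun i => ?_⟩
    have h1 : c i • v.1 = e (Pi.single i 1) := congrArg Subtype.val (hc i)
    have h2 : E (Pi.single i 1) = (Nat.card H : ℂ) • e (Pi.single i 1) := by
      rw [he, LinearMap.smul_apply, smul_smul, mul_inv_cancel₀ c0, one_smul]
    rw [Pi.basisFun_apply, h2, ← h1, LinearMap.smulRight_apply, smul_smul]
    congr 1
    simp [Pi.single_apply]
  let Φ : (Fin n → ℂ) →ₗ[ℂ] (G → ℂ) := LinearMap.pi fun x => l ∘ₗ ρ x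
  refine ⟨LinearMap.range Φ, (LinearMap.finrank_range_le Φ).trans (by simp [hn]), fun g =>
    ⟨ρ g v.1, funext fun x => ?_⟩⟩
  rw [← t, hl, show ρ (x * g) * l.smulRight v.1 = l.smulRight (ρ (x * g) v.1) from by
    ext; simp, LinearMap.trace_smulRight]
  simp [Φ]

theorem sum_irr_zero (χ : IrrCharacter G) (h1 : χ ≠ one1 G) : ∑ g, χ.1 g = 0 := by
  have h := irr_classInner χ.2 (one1 G).2
  rw [if_neg fun e => h1 (Subtype.ext e), classInner] at h
  simpa [one1] using (mul_eq_zero.1 h).resolve_left (inv_ne_zero card_ne_zero_complex)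

/-- translation -/
def tau (g : G) : Module.End ℤ (G → ℤ) := LinearMap.funLeft ℤ ℤ (· * g)

/-- translation on an invariant lattice -/
def tauL (L : Submodule ℤ (G → ℤ)) (hL : ∀ g, ∀ φ ∈ L, tau g φ ∈ L) : G →* Module.End ℤ L where
  toFun g := (tau g).restrict (hL g)
  map_one' := LinearMap.ext fun φ => Subtype.ext (funext fun x => congrArg φ.1 (mul_one x))
  map_mul' g k := LinearMap.ext fun φ => Subtype.ext (funext fun x =>
    congrArg φ.1 (mul_assoc x g k).symm)

theorem rank_le (L : Submodule ℤ (G → ℤ)) (W : Submodule ℂ (G → ℂ))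
    (hc : ∀ φ ∈ L, (algebraMap ℤ ℂ ∘ φ) ∈ W) : finrank ℤ L ≤ finrank ℂ W := by
  let b := Module.finBasis ℤ L
  have l1 : LinearIndependent ℤ fun i => (b i).1 :=
    b.linearIndependent.map' L.subtype L.ker_subtype
  have l2 : LinearIndependent ℂ fun i => algebraMap ℤ ℂ ∘ (b i).1 :=
    linearIndependent_algebraMap_comp_iff.2 l1
  have li : LinearIndependent ℂ fun i => (⟨_, hc _ (b i).2⟩ : W) :=
    LinearIndependent.of_comp W.subtype l2
  simpa using li.fintype_card_le_finrank

theorem lat (χ : IrrCharacter G) (h1 : χ ≠ one1 G) (hZ : ∀ g, ∃ a : ℤ, χ.1 g = a)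
    (H : Subgroup G) [Fintype H] (hH : ∑ h : H, χ.1 h = Nat.card H) :
    ∃ d ≤ deg χ, ∃ M : G →* Matrix (Fin d) (Fin d) ℤ, ∃ g, M g ≠ 1 := by
  obtain ⟨W, hW, hm⟩ := lat_space χ H hH
  choose a ha using hZ
  obtain ⟨f, hf⟩ : ∃ f : G → G → ℤ, ∀ g x, f g x = ∑ h : H, a (x * g * h) := ⟨_, fun _ _ => rfl⟩
  have τf : ∀ g k, tau g (f k) = f (g * k) := fun g k => funext fun x => by
    show f k (x * g) = _
    simp [hf, mul_assoc]
  have hL : ∀ g, ∀ φ ∈ Submodule.span ℤ (Set.range f), tau g φ ∈ Submodule.span ℤ (Set.range f) :=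
    fun g => (Submodule.span_le (p := (Submodule.span ℤ (Set.range f)).comap (tau g))).2 (by
      rintro _ ⟨k, rfl⟩
      exact Submodule.subset_span ⟨g * k, (τf g k).symm⟩)
  have hc : ∀ φ ∈ Submodule.span ℤ (Set.range f), (algebraMap ℤ ℂ ∘ φ) ∈ W := fun φ hφ => by
    induction hφ using Submodule.span_induction with
    | mem φ h =>
      obtain ⟨g, rfl⟩ := h
      convert hm g using 1
      funext x; simp [hf, ha]
    | zero => convert W.zero_mem using 1; funext x; simp
    | add φ ψ _ _ h k => convert W.add_mem h k using 1; funext x; simp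
    | smul c φ _ h => convert W.smul_mem (c : ℂ) h using 1; funext x; simp
  have m1 : f 1 ∈ Submodule.span ℤ (Set.range f) := Submodule.subset_span ⟨1, rfl⟩
  generalize Submodule.span ℤ (Set.range f) = L at hL hc m1
  let A := LinearMap.toMatrixAlgEquiv (Module.finBasis ℤ L)
  refine ⟨_, (rank_le L W hc).trans hW, A.toRingEquiv.toMonoidHom.comp (tauL L hL),
    by_contra fun e => ?_⟩
  have e1 : ∀ g, f g 1 = f 1 1 := fun g => by
    have : tauL L hL g = 1 := A.injective (by
      rw [map_one]; exact not_not.1 (not_exists.1 e g))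
    have : tau g (f 1) 1 = f 1 1 := congrArg (fun T : Module.End ℤ L => (T ⟨f 1, m1⟩).1 1) this
    rwa [τf, mul_one] at this
  have e2 : ∀ g, ∑ h : H, χ.1 (g * h) = Nat.card H := fun g => by
    have := e1 g
    simp only [hf, one_mul] at this
    rw [← hH]
    simp only [ha]
    exact_mod_cast this
  have e3 : ∑ g, ∑ h : H, χ.1 (g * h) = 0 := by
    rw [Finset.sum_comm]
    refine Finset.sum_eq_zero fun h _ => ?_
    exact (Fintype.sum_equiv (Equiv.mulRight (h : G)) _ χ.1 fun _ => rfl).trans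
      (sum_irr_zero χ h1)
  simp only [e2, Finset.sum_const, Finset.card_univ, nsmul_eq_mul, mul_eq_zero,
    Nat.cast_eq_zero] at e3
  exact e3.elim Fintype.card_ne_zero Nat.card_pos.ne'

end TQ
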