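import Cfsg.Agent.TQ.Lat

/-! Reduction modulo 2 of an integral representation of a simple group of order 25920. -/

set_option autoImplicit false
set_option linter.unusedSectionVars false

namespace TQ
open Cfsg H8 H2 Subgroup Matrix

variable {G : Type*} [Group G] [Fintype G] {d : ℕ}

theorem mink {A : Matrix (Fin d) (Fin d) ℤ} (h3 : A ^ 3 = 1)
    (h2 : A.map (Int.castRingHom (ZMod 2)) = 1) : A = 1 := by
  have e : ∀ i j, (2 : ℤ) ∣ (A - 1) i j := fun i j => by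
    have := congrFun (congrFun h2 i) j
    refine (ZMod.intCast_zmod_eq_zero_iff_dvd _ 2).1 ?_
    rw [Matrix.sub_apply, Int.cast_sub, sub_eq_zero]
    rw [map_apply, eq_intCast] at this
    rw [this, one_apply, one_apply]
    split_ifs <;> simp
  choose b hb using e
  obtain ⟨B, rfl⟩ : ∃ B : Matrix (Fin d) (Fin d) ℤ, A = 1 + 2 * B :=
    ⟨of b, by rw [← sub_eq_iff_eq_add', two_mul]; ext i j; simp [hb, two_mul]⟩
  have k : B = (2 : ℤ) • (B * -(1 + 3 * B + 2 * B * B)) := by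
    refine smul_right_injective _ (two_ne_zero (α := ℤ)) ?_
    simp only [two_smul]
    rw [← sub_eq_zero, ← sub_eq_zero.2 h3]
    noncomm_ring
  have k2 : ∀ n : ℕ, ∃ C, B = (2 : ℤ) ^ n • (B * C) := fun n => by
    induction n with
    | zero => exact ⟨1, by simp⟩
    | succ n ih =>
      obtain ⟨C, hC⟩ := ih
      refine ⟨-(1 + 3 * B + 2 * B * B) * C, ?_⟩
      rw [pow_succ, mul_smul, ← mul_assoc, ← smul_mul_assoc, ← k]
      exact hC
  have : B = 0 := by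
    ext i j
    obtain ⟨C, hC⟩ := k2 (B i j).natAbs
    refine Int.eq_zero_of_abs_lt_dvd (m := 2 ^ (B i j).natAbs) ⟨_, congrFun (congrFun hC i) j⟩ ?_
    rw [Int.abs_eq_natAbs]
    exact_mod_cast Nat.lt_two_pow_self
  simp [this]

theorem half (C : Matrix (Fin d) (Fin d) ℤ) (h : ∀ x : Fin d → ℤ, 2 ∣ x ⬝ᵥ C *ᵥ x) :
    ∃ C' : Matrix (Fin d) (Fin d) ℤ, ∀ x : Fin d → ℤ, x ⬝ᵥ C *ᵥ x = 2 * (x ⬝ᵥ C' *ᵥ x) := by
  have h1 : ∀ i, 2 ∣ C i i := fun i => by simpa using h (Pi.single i 1)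
  have h2 : ∀ i j, 2 ∣ C i j + C j i := fun i j => by
    have := h (Pi.single i 1 + Pi.single j 1)
    simp only [mulVec_add, add_dotProduct, dotProduct_add, single_dotProduct, mulVec_single,
      one_mul, MulOpposite.op_one, one_smul, col_apply] at this
    have := h1 i
    have := h1 j
    omega
  have t : ∀ (D : Matrix (Fin d) (Fin d) ℤ) (x : Fin d → ℤ),
      x ⬝ᵥ (D + Dᵀ) *ᵥ x = 2 * (x ⬝ᵥ D *ᵥ x) := fun D x => by
    rw [add_mulVec, dotProduct_add, mulVec_transpose, dotProduct_comm x (x ᵥ* D),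
      ← dotProduct_mulVec, two_mul]
  let C' : Matrix (Fin d) (Fin d) ℤ := of fun i j =>
    if i < j then (C i j + C j i) / 2 else if i = j then C i i / 2 else 0
  refine ⟨C', fun x => ?_⟩
  have e : C + Cᵀ = (2 : ℤ) • (C' + C'ᵀ) := by
    ext i j
    have := h1 i
    have := h2 i j
    simp only [C', Matrix.add_apply, transpose_apply, Matrix.smul_apply, of_apply, smul_eq_mul]
    rcases lt_trichotomy i j with a | rfl | a
    · simp only [a, a.not_gt, a.ne', if_true, if_false]; omega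
    · simp only [lt_irrefl, if_true, if_false]; omega
    · simp only [a, a.not_gt, a.ne', if_true, if_false]; omega
  have := t C x
  rw [e, smul_mulVec, dotProduct_smul, t, smul_eq_mul] at this
  omega

theorem odd_form (P : Matrix (Fin d) (Fin d) ℤ → Prop)
    (hP : ∀ C C', P C → (∀ x : Fin d → ℤ, x ⬝ᵥ C *ᵥ x = 2 * (x ⬝ᵥ C' *ᵥ x)) → P C')
    (x0 : Fin d → ℤ) : ∀ (n : ℕ) (C : Matrix (Fin d) (Fin d) ℤ), P C → (x0 ⬝ᵥ C *ᵥ x0).natAbs = n →
      n ≠ 0 → ∃ C, P C ∧ ∃ x : Fin d → ℤ, ¬ 2 ∣ x ⬝ᵥ C *ᵥ x := fun n => by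
  induction n using Nat.strong_induction_on with
  | _ n ih =>
    intro C h1 h2 h3
    by_cases h : ∀ x : Fin d → ℤ, 2 ∣ x ⬝ᵥ C *ᵥ x
    · obtain ⟨C', h'⟩ := half C h
      have := h' x0
      exact ih _ (by omega) C' (hP _ _ h1 h') rfl (by omega)
    · exact ⟨C, h1, not_forall.1 h⟩

theorem inv_form (hd : d ≠ 0) (M : G →* Matrix (Fin d) (Fin d) ℤ) :
    ∃ C : Matrix (Fin d) (Fin d) ℤ, (∀ g x, (M g *ᵥ x) ⬝ᵥ C *ᵥ (M g *ᵥ x) = x ⬝ᵥ C *ᵥ x) ∧
      ∃ x : Fin d → ℤ, ¬ 2 ∣ x ⬝ᵥ C *ᵥ x := by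
  have e : ∀ x : Fin d → ℤ, x ⬝ᵥ (∑ g, (M g)ᵀ * M g) *ᵥ x = ∑ g, (M g *ᵥ x) ⬝ᵥ (M g *ᵥ x) :=
    fun x => by
      rw [sum_mulVec, dotProduct_sum]
      exact Finset.sum_congr rfl fun g _ => by
        rw [← mulVec_mulVec, dotProduct_mulVec, vecMul_transpose]
  refine odd_form _ (fun C C' h h' g x => ?_) 1 _ (∑ g, (M g)ᵀ * M g) (fun g x => ?_) rfl ?_
  · have := h g x
    rw [h', h'] at this
    omega
  · rw [e, e]
    exact Fintype.sum_equiv (Equiv.mulRight g) _ _ fun k => by simp [mulVec_mulVec]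
  · rw [e]
    have := Finset.single_le_sum (f := fun g => (M g *ᵥ 1) ⬝ᵥ (M g *ᵥ 1))
      (fun g _ => Finset.sum_nonneg fun i _ => mul_self_nonneg _) (Finset.mem_univ 1)
    simp only [map_one, one_mulVec, one_dotProduct_one, Fintype.card_fin] at this
    omega

theorem mod2 [IsSimpleGroup G] (hN : Nat.card G = 25920) (hd : d ≤ 6)
    (M : G →* Matrix (Fin d) (Fin d) ℤ) (hM : ∃ g, M g ≠ 1) :
    ∃ (ρ : G →* GL (Fin 6) (ZMod 2)) (Q : QuadraticForm (ZMod 2) (Fin 6 → ZMod 2)),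
      Function.Injective ρ ∧ Q ≠ 0 ∧
      ∀ g v, Q ((ρ g : Matrix (Fin 6) (Fin 6) (ZMod 2)) *ᵥ v) = Q v := by
  let ρ : G →* GL (Fin d) (ZMod 2) :=
    ((Int.castRingHom (ZMod 2)).mapMatrix.toMonoidHom.comp M).toHomUnits
  have hρ : ∀ g, (ρ g : Matrix (Fin d) (Fin d) (ZMod 2)) = (M g).map (Int.castRingHom (ZMod 2)) :=
    fun g => rfl
  have inj : Function.Injective ρ := by
    refine (MonoidHom.ker_eq_bot_iff ρ).1 ((ρ.normal_ker.eq_bot_or_eq_top).resolve_right fun e => ?_)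
    obtain ⟨u, hu⟩ := exists_prime_orderOf_dvd_card' (G := G) 3 (by rw [hN]; norm_num)
    have h1 : M u = 1 := mink (by rw [← map_pow, ← hu, pow_orderOf_eq_one, map_one]) (by
      rw [← hρ, MonoidHom.mem_ker.1 (e ▸ mem_top u : u ∈ ρ.ker)]; rfl)
    rcases M.toHomUnits.normal_ker.eq_bot_or_eq_top with k | k
    · have : u ∈ M.toHomUnits.ker := Units.ext h1
      rw [k, mem_bot] at this
      simp [this] at hu
    · obtain ⟨g, hg⟩ := hM
      exact hg (congrArg Units.val (MonoidHom.mem_ker.1 (k ▸ mem_top g : g ∈ M.toHomUnits.ker)))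
  obtain rfl : d = 6 := by
    have := card_dvd_of_injective ρ inj
    rw [hN, card_GL_field, ZMod.card] at this
    interval_cases d <;> first | rfl | exact absurd this (by decide)
  obtain ⟨C, h1, x, h2⟩ := inv_form (by norm_num) M
  have q : ∀ x : Fin 6 → ℤ, (C.map (Int.castRingHom (ZMod 2))).toQuadraticForm'
      (Int.castRingHom (ZMod 2) ∘ x) = Int.castRingHom (ZMod 2) (x ⬝ᵥ C *ᵥ x) := fun x => by
    rw [toQuadraticForm', LinearMap.BilinMap.toQuadraticMap_apply, toLinearMap₂'_apply',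
      RingHom.map_dotProduct]
    congr 1
    exact funext fun i => (RingHom.map_mulVec _ C x i).symm
  refine ⟨ρ, (C.map (Int.castRingHom (ZMod 2))).toQuadraticForm', inj, fun e => h2 ?_,
    fun g v => ?_⟩
  · have := q x
    rw [e] at this
    exact (ZMod.intCast_zmod_eq_zero_iff_dvd _ 2).1 this.symm
  · obtain ⟨x, rfl⟩ : ∃ x : Fin 6 → ℤ, v = Int.castRingHom (ZMod 2) ∘ x :=
      ⟨fun i => (v i).val, funext fun i => by simp⟩
    rw [hρ, show (M g).map (Int.castRingHom (ZMod 2)) *ᵥ (Int.castRingHom (ZMod 2) ∘ x) =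
      Int.castRingHom (ZMod 2) ∘ (M g *ᵥ x) from funext fun i =>
        (RingHom.map_mulVec _ _ x i).symm, q, q, h1]

end TQ
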