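import Cfsg.Agent.TQ.Mod2
import Cfsg.Agent.TQ.Int
import Cfsg.Agent.JT.RS

/-! The character of degree six contains the trivial character of `N(P)` once. -/

set_option autoImplicit false
set_option linter.unusedSectionVars false

namespace TQ
open Cfsg H8 H2 Subgroup Matrix

variable {G : Type*} [Group G] [Fintype G] [IsSimpleGroup G] {r : G}

theorem n20 (nc : ¬ IsMulCommutative G) (h : DefOne 5 r) (hV : h.V = ⊥) (he : Nat.card h.H = 4)
    {χ : IrrCharacter G} (hd : deg χ = 6) {α : G → ℤ} (hα : ∀ g, χ.1 g = α g)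
    (hv : ∀ i : ZMod 5, i ≠ 0 → χ.1 (xp r i) = (1 : ℤ)) [Fintype (Nx r)] :
    ∑ g : Nx r, χ.1 g = Nat.card (Nx r) := by
  classical
  have pf := commutator_eq_top_of_simple nc
  have cN : Nat.card (Nx r) = 20 := by rw [h.card_Nx, h.card_Cx, hV, he, card_bot]
  obtain ⟨n, n4, hn⟩ := h.exists_gen
  rw [hV, mem_bot] at n4
  replace n4 : (n : G) ^ 4 = 1 := n4
  let f : Fin 4 × ZMod 5 → Nx r := fun z => ⟨n ^ z.1.1 * xp r z.2,
    mul_mem (pow_mem n.2 _) (Cx_le_Nx (xp_mem_Cx _))⟩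
  have bj : Function.Bijective f := by
    refine Function.Surjective.bijective_of_nat_card_le (fun ⟨y, hy⟩ => ?_) (by rw [cN]; simp)
    obtain ⟨k, i, v, hv, e⟩ := hn y hy
    rw [hV, mem_bot] at hv
    refine ⟨(⟨k % 4, Nat.mod_lt _ (by decide)⟩, i), Subtype.ext ?_⟩
    show (n : G) ^ (k % 4) * xp r i = y
    rw [e, hv, mul_one, ← pow_eq_pow_mod k n4]
  have nC : ∀ k : Fin 4, k ≠ 0 → (n : G) ^ k.1 ∉ Cx r := fun k k0 c => by
    obtain ⟨i, hi⟩ := h.mem_zpowers_of_V_eq_bot hV c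
    exact k0 (congrArg Prod.fst (bj.1 (a₁ := (k, 0)) (a₂ := (0, i)) (Subtype.ext (by
      show (n : G) ^ k.1 * xp r 0 = (n : G) ^ 0 * xp r i
      rw [xp_zero, pow_zero, mul_one, one_mul, hi]))))
  have s : ∀ k : Fin 4, k ≠ 0 → ∑ i : ZMod 5, χ.1 ((n : G) ^ k.1 * xp r i) = 5 * α (n ^ k.1) ∧
      |α (n ^ k.1)| ≤ 2 := fun k k0 => by
    refine ⟨?_, abs_le_of_coset h χ hv (m := 2) (by rw [hd]; rfl) (pow_mem n.2 _) (nC k k0) (hα _)⟩
    rw [← sum_zpowers h fun g => χ.1 ((n : G) ^ k.1 * g), sum_coset h χ (pow_mem n.2 _) (nC k k0), hα]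
    rfl
  have s0 : ∑ i : ZMod 5, χ.1 ((n : G) ^ (0 : Fin 4).1 * xp r i) = 10 := by
    rw [sum_xp_const (a := (1 : ℤ)) fun i hi => by simpa using hv i hi]
    simp [xp_zero, deg_eq, hd]; norm_num
  obtain ⟨b, hb⟩ := JT.fix_nat χ (Nx r).subtype
  have hb' : ∑ g : Nx r, χ.1 g = _ := hb
  rw [hb']
  rw [← bj.sum_comp fun g : Nx r => χ.1 g, Fintype.sum_prod_type, Fin.sum_univ_four] at hb'
  have e1 := s 1 (by decide)
  have e2 := s 2 (by decide)
  have e3 := s 3 (by decide)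
  have i3 : (n : G) ^ 3 = n⁻¹ := eq_inv_of_mul_eq_one_left (by rw [← pow_succ, n4])
  have r1 : χ.1 (n : G)⁻¹ = χ.1 n := by rw [hα n]; exact val_inv (hα n)
  have a3 : α (n ^ 3) = α (n ^ 1) := by
    rw [i3, hα, hα] at *
    rw [pow_one]; exact_mod_cast r1
  obtain ⟨a, ha, h8⟩ := four_val pf χ n4 r1 (hα _)
  obtain ⟨t, ht, h4⟩ := inv_val pf χ (z := (n : G) ^ 2) (by rw [← pow_mul, n4])
  rw [hα] at ha ht
  have ha' : α (n ^ 1) = a := by rw [pow_one]; exact_mod_cast ha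
  have ht' : α (n ^ 2) = t := by exact_mod_cast ht
  have k : (10 + 5 * α (n ^ 1) + 5 * α (n ^ 2) + 5 * α (n ^ 3) : ℤ) = 20 * b := by
    have : (10 + 5 * α (n ^ 1) + 5 * α (n ^ 2) + 5 * α (n ^ 3) : ℂ) = 20 * b := by
      rw [cN] at hb'
      rw [← s0]
      erw [← e1.1, ← e2.1, ← e3.1]
      exact hb'
    exact_mod_cast this
  have b1 := abs_le.1 (show |α (n ^ 1)| ≤ 2 from e1.2)
  have b2 := abs_le.1 (show |α (n ^ 2)| ≤ 2 from e2.2)
  rw [hd] at h8 h4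
  obtain rfl : b = 1 := by omega
  simp

/-- the representation modulo two -/
theorem six (hN : Nat.card G = 25920) (h : DefOne 5 r) (hV : h.V = ⊥) (he : Nat.card h.H = 4)
    (F : Full h 4) (hF : ∀ j, F.s j * deg (F.c j) = ![-64, -24, 6, 81] j) :
    ∃ (ρ : G →* GL (Fin 6) (ZMod 2)) (Q : QuadraticForm (ZMod 2) (Fin 6 → ZMod 2)),
      Function.Injective ρ ∧ Q ≠ 0 ∧
      ∀ g v, Q ((ρ g : Matrix (Fin 6) (Fin 6) (ZMod 2)) *ᵥ v) = Q v := by
  classical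
  have d : ∀ j, (deg (F.c j) : ℤ) = |![-64, -24, 6, 81] j| := fun j => by
    rw [← hF]; rcases F.s_eq j with e | e <;> simp [e]
  have d2 : deg (F.c 2) = 6 := by
    have : (deg (F.c 2) : ℤ) = 6 := d 2
    exact_mod_cast this
  have s2 : F.s 2 = 1 := by
    have := hF 2
    rw [d2] at this
    exact mul_right_cancel₀ (b := (6 : ℤ)) (by decide) this
  obtain ⟨α, hα⟩ := full_int F 2 fun k e => by
    have := d k
    rw [e, d2] at this
    clear e
    revert this k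
    decide
  obtain ⟨n, hn, M, hM⟩ := lat (F.c 2) (F.ne_one 2) (fun g => ⟨_, hα g⟩) (Nx r)
    (n20 (not_comm_of_card_not_prime (by rw [hN]; norm_num)) h hV he d2 hα fun i hi => by
      simpa [s2] using F.val 2 i hi 1 (one_mem _))
  exact mod2 hN (d2 ▸ hn) M hM

end TQ
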