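import Cfsg.Prelude.Def_Classical

/-! The order of `O₆⁻(2)` is at most 51840; identification of simple subgroups of order 25920. -/

set_option autoImplicit false

namespace TQ.O6
open Matrix Subgroup

theorem step {Γ α : Type*} [Group Γ] [Finite Γ] (f : Γ →* Equiv.Perm α) (S : Subgroup Γ) (v : α)
    (T : Finset α) (h : ∀ g ∈ S, f g v ∈ T) :
    Nat.card S ≤ T.card * Nat.card ↥(S ⊓ (MulAction.stabilizer (Equiv.Perm α) v).comap f) := by
  let := MulAction.compHom α (f.comp S.subtype)
  set K := (MulAction.stabilizer (Equiv.Perm α) v).comap f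
  have e : MulAction.stabilizer S v = K.subgroupOf S := rfl
  have e2 : Nat.card (K.subgroupOf S) = Nat.card ↥(S ⊓ K) := by
    rw [← inf_subgroupOf_left]
    exact Nat.card_congr (subgroupOfEquivOfLe inf_le_left).toEquiv
  have e3 : (MulAction.orbit S v).ncard ≤ T.card := by
    rw [← Set.ncard_coe_finset]
    refine Set.ncard_le_ncard ?_
    rintro _ ⟨n, rfl⟩
    exact h n.1 n.2
  rw [← (K.subgroupOf S).index_mul_card, e2, ← e, MulAction.index_stabilizer]
  exact Nat.mul_le_mul_right _ e3

/-- vectors -/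
abbrev V := Fin 6 → ZMod 2

/-- the sum of three norm forms -/
def Qs (v : V) : ZMod 2 :=
  v 0 * v 0 + v 0 * v 1 + v 1 * v 1 + v 2 * v 2 + v 2 * v 3 + v 3 * v 3 + v 4 * v 4 + v 4 * v 5 +
    v 5 * v 5

/-- the natural action -/
@[reducible] def act : MulAction (GL (Fin 6) (ZMod 2)) V where
  smul g v := g.1 *ᵥ v
  one_smul v := one_mulVec v
  mul_smul g k v := (mulVec_mulVec v g.1 k.1).symm

/-- the natural permutation representation -/
def pf : GL (Fin 6) (ZMod 2) →* Equiv.Perm V := @MulAction.toPermHom _ _ _ act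

/-- the orthogonal group -/
def X : Subgroup (GL (Fin 6) (ZMod 2)) where
  carrier := {g | ∀ v, Qs (g.1 *ᵥ v) = Qs v}
  mul_mem' {a b} ha hb v := by rw [Units.val_mul, ← mulVec_mulVec, ha, hb]
  one_mem' v := by simp
  inv_mem' {a} ha v := by rw [← ha, mulVec_mulVec]; simp

/-- basis vectors -/
def e (i : Fin 6) : V := fun j => if j = i then 1 else 0

/-- the pointwise stabilizers -/
def S : ℕ → Subgroup (GL (Fin 6) (ZMod 2))
  | 0 => X
  | n + 1 => S n ⊓ (MulAction.stabilizer (Equiv.Perm V) (e (Fin.ofNat 6 n))).comap pf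

/-- possible images -/
def T (n : ℕ) : Finset V := Finset.univ.filter fun w => Qs w = Qs (e (Fin.ofNat 6 n)) ∧
  ∀ j ∈ List.range n, Qs (w + e (Fin.ofNat 6 j)) = Qs (e (Fin.ofNat 6 n) + e (Fin.ofNat 6 j))

theorem mem_S {n : ℕ} {g : GL (Fin 6) (ZMod 2)} (h : g ∈ S n) :
    g ∈ X ∧ ∀ j < n, g.1 *ᵥ e (Fin.ofNat 6 j) = e (Fin.ofNat 6 j) := by
  induction n with
  | zero => exact ⟨h, by simp⟩
  | succ n ih =>
    refine ⟨(ih h.1).1, fun j hj => ?_⟩
    rcases Nat.lt_succ_iff_lt_or_eq.1 hj with l | rfl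
    · exact (ih h.1).2 j l
    · exact h.2

theorem S_le (n : ℕ) : Nat.card (S n) ≤ (T n).card * Nat.card (S (n + 1)) :=
  step pf _ _ _ fun g hg => Finset.mem_filter.2 ⟨Finset.mem_univ _, (mem_S hg).1 _, fun j hj => by
    have := (mem_S hg).1 (e (Fin.ofNat 6 n) + e (Fin.ofNat 6 j))
    rw [mulVec_add, (mem_S hg).2 j (List.mem_range.1 hj)] at this
    exact this⟩

theorem cT : (T 0).card = 36 ∧ (T 1).card = 20 ∧ (T 2).card = 6 ∧ (T 3).card = 2 ∧
    (T 4).card = 3 ∧ (T 5).card = 2 := by decide +kernel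

theorem S6 : S 6 = ⊥ := eq_bot_iff.2 fun g hg => by
  refine mem_bot.2 (Units.ext (Matrix.ext fun i j => ?_))
  have := congrFun ((mem_S hg).2 j j.2) i
  rw [Fin.ofNat_val_eq_self] at this
  simpa [e, mulVec, dotProduct, one_apply] using this

theorem card_X : Nat.card X ≤ 51840 := by
  have h0 := S_le 0
  have h1 := S_le 1
  have h2 := S_le 2
  have h3 := S_le 3
  have h4 := S_le 4
  have h5 := S_le 5
  obtain ⟨a, b, c, d, f, g⟩ := cT
  rw [S6, card_bot, g] at h5
  rw [a] at h0; rw [b] at h1; rw [c] at h2; rw [d] at h3; rw [f] at h4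
  change Nat.card (S 0) ≤ _
  simp only [Nat.reduceAdd] at *
  omega

theorem iso {G H : Type*} [Group G] [Finite G] [IsSimpleGroup G] [Group H]
    (hN : Nat.card G = 25920) (φ : G →* GL (Fin 6) (ZMod 2)) (inj : Function.Injective φ)
    (hQ : ∀ g v, Qs ((φ g).1 *ᵥ v) = Qs v) (hH : Nat.card H = 25920)
    (π : H →* GL (Fin 6) (ZMod 2)) (inj' : Function.Injective π)
    (hQ' : ∀ g v, Qs ((π g).1 *ᵥ v) = Qs v) : Nonempty (G ≃* H ⧸ center H) := by
  have c1 : Nat.card φ.range = 25920 := (Nat.card_congr (φ.ofInjective inj).toEquiv).symm.trans hN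
  have c2 : Nat.card π.range = 25920 := (Nat.card_congr (π.ofInjective inj').toEquiv).symm.trans hH
  have l1 : φ.range ≤ X := by rintro _ ⟨g, rfl⟩; exact hQ g
  have l2 : π.range ≤ X := by rintro _ ⟨g, rfl⟩; exact hQ' g
  have i1 : π.range.relIndex X ≤ 2 := by
    have := (π.range.subgroupOf X).index_mul_card
    rw [Nat.card_congr (subgroupOfEquivOfLe l2).toEquiv, c2] at this
    have := card_X
    unfold relIndex; omega
  have i2 : (π.range.comap φ).index ≤ 2 := by
    rw [index_comap]
    exact (relIndex_le_of_le_right l1 index_ne_zero_of_finite).trans i1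
  have i3 : (π.range.comap φ).index = 1 := by
    by_contra h
    have h0 : (π.range.comap φ).index ≠ 0 := index_ne_zero_of_finite
    have h2 : (π.range.comap φ).index = 2 := by omega
    rcases (normal_of_index_eq_two h2).eq_bot_or_eq_top with k | k <;> rw [k] at h2
    · rw [index_bot, hN] at h2; omega
    · rw [index_top] at h2; omega
  have l3 : φ.range ≤ π.range := by
    rintro _ ⟨g, rfl⟩
    exact (index_eq_one.1 i3 ▸ mem_top g : g ∈ π.range.comap φ)
  have e1 : G ≃* H := ((φ.ofInjective inj).trans (MulEquiv.subgroupCongr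
    (eq_of_le_of_card_ge l3 (by rw [c1, c2])))).trans (π.ofInjective inj').symm
  have : IsSimpleGroup H := e1.symm.isSimpleGroup
  have z : center H = ⊥ := (normal_of_characteristic (center H)).eq_bot_or_eq_top.resolve_right
    fun k => by
      let : CommGroup H := Group.commGroupOfCenterEqTop k
      have : Finite H := Nat.finite_of_card_ne_zero (by omega)
      have := IsSimpleGroup.prime_card (α := H)
      rw [hH] at this; norm_num at this
  exact ⟨e1.trans ((QuotientGroup.quotientMulEquivOfEq z).trans QuotientGroup.quotientBot).symm⟩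

end TQ.O6
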