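import Cfsg.Agent.TQ.O6

/-! Normal form of an invariant quadratic form. -/

set_option autoImplicit false

namespace TQ.O6
open Matrix Subgroup

/-- an element of order 9 -/
def uM : Matrix (Fin 6) (Fin 6) (ZMod 2) := !![0, 0, 0, 0, 0, 1; 0, 0, 0, 0, 1, 1;
  1, 0, 0, 0, 0, 0; 0, 1, 0, 0, 0, 0; 0, 0, 1, 0, 0, 0; 0, 0, 0, 1, 0, 0]

/-- its action -/
def uf (v : V) : V := ![v 5, v 4 + v 5, v 0, v 1, v 2, v 3]

theorem uM_mulVec : ∀ v, uM *ᵥ v = uf v := by decide +kernel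

theorem uM_pow (k : ℕ) (v : V) : (uM ^ k) *ᵥ v = uf^[k] v := by
  induction k generalizing v with
  | zero => simp
  | succ k ih => rw [pow_succ, ← mulVec_mulVec, ih, uM_mulVec]; rfl

theorem uf9 : ∀ v, uf^[9] v = v := by decide +kernel

theorem uM9 : uM ^ 9 = 1 :=
  Matrix.toLin'.injective (LinearMap.ext fun v => by
    rw [toLin'_apply, toLin'_apply, uM_pow, uf9, one_mulVec])

/-- decoding of vectors -/
def dv (n : ℕ) : V := fun i => ((n >>> i.1) % 2 : ℕ)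

/-- decoding of matrices -/
def dm (n : ℕ) : Matrix (Fin 6) (Fin 6) (ZMod 2) := Matrix.of fun i => dv (n >>> (6 * i.1))

/-- the orbit labels -/
def ob (v : V) : Fin 8 := ([0, 1, 1, 1, 1, 2, 3, 4, 1, 4, 2, 3, 1, 3, 4, 2, 1, 3, 2, 4, 2, 5, 5, 6,
  3, 7, 5, 7, 4, 7, 6, 6, 1, 4, 3, 2, 4, 6, 7, 6, 2, 6, 5, 5, 3, 7, 7, 5, 1, 2, 4, 3, 3, 5, 7, 7, 4,
  6, 6, 7, 2, 5, 6, 5] : List (Fin 8)).getD ((v 0).val + 2 * (v 1).val + 4 * (v 2).val +
    8 * (v 3).val + 16 * (v 4).val + 32 * (v 5).val) 0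

/-- orbit representatives -/
def rp (i : Fin 8) : V := dv (([0, 32, 40, 24, 56, 42, 58, 38] : List ℕ).getD i 0)

theorem orb : ∀ v, ∃ k ∈ List.range 9, v = uf^[k] (rp (ob v)) := by decide +kernel

/-- base changes -/
def YL : List (ℕ × ℕ) := [(68358743550, 43287862433), (63996403182, 7755741468),
  (66232100598, 53212185286), (3259171084, 13019915312), (14152443444, 57708755670),
  (16279086396, 44420390565), (55338828238, 59835398622)]

theorem YL_inv : ∀ c ∈ YL, dm c.1 * dm c.2 = 1 ∧ dm c.2 * dm c.1 = 1 := by decide +kernel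

theorem cls : ∀ q : Fin 8 → ZMod 2, q 0 = 0 → (∀ z ∈ [dv 8, dv 10, dv 6, dv 14],
    q (ob (dv 32 + dv 16 + z)) + (q (ob (dv 32)) + q (ob (dv 16)) + q (ob z)) =
      q (ob (dv 32 + dv 16)) + q (ob (dv 16 + z)) + q (ob (z + dv 32))) →
    (∀ i, q i = 0) ∨ ∃ c ∈ YL, ∀ v, q (ob (dm c.1 *ᵥ v)) = Qs v := by decide +kernel

theorem red0 (Q : QuadraticForm (ZMod 2) V) (hQ : Q ≠ 0) (h : ∀ v, Q (uf v) = Q v) :
    ∃ y : GL (Fin 6) (ZMod 2), ∀ v, Q (y.1 *ᵥ v) = Qs v := by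
  have it : ∀ k v, Q (uf^[k] v) = Q v := fun k => by
    induction k with
    | zero => simp
    | succ k ih => intro v; rw [Function.iterate_succ_apply, ih, h]
  have e : ∀ v, Q (rp (ob v)) = Q v := fun v => by
    obtain ⟨k, -, hk⟩ := orb v
    rw [← it k, ← hk]
  rcases cls (fun i => Q (rp i)) (by
      rw [show rp 0 = 0 by decide +kernel, map_zero]) (fun z _ => by
      simp only [e]; exact Q.map_add_add_add_map _ _ _) with c | ⟨c, hc, k⟩
  · exact absurd (QuadraticMap.ext fun v => (e v).symm.trans (c _)) hQ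
  · exact ⟨⟨_, _, (YL_inv c hc).1, (YL_inv c hc).2⟩, fun v => (e _).symm.trans (k v)⟩

theorem red {G : Type*} [Group G] [Finite G] (hN : Nat.card G = 25920)
    (ρ : G →* GL (Fin 6) (ZMod 2)) (hρ : Function.Injective ρ) (Q : QuadraticForm (ZMod 2) V)
    (hQ : Q ≠ 0) (inv : ∀ g v, Q ((ρ g).1 *ᵥ v) = Q v) :
    ∃ φ : G →* GL (Fin 6) (ZMod 2), Function.Injective φ ∧ ∀ g v, Qs ((φ g).1 *ᵥ v) = Qs v := by
  have : Fact (Nat.Prime 3) := ⟨Nat.prime_three⟩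
  let u : GL (Fin 6) (ZMod 2) := Units.ofPowEqOne uM 9 uM9 (by norm_num)
  have u9 : u ^ 3 ^ 2 = 1 := Units.ext (by simpa [u] using uM9)
  have c0 : Nat.card (GL (Fin 6) (ZMod 2)) = 3 ^ 4 * 248872960 := by
    rw [Matrix.card_GL_field]; simp [Fin.prod_univ_succ]
  have c1 : Nat.card ρ.range = 25920 := (Nat.card_congr (ρ.ofInjective hρ).toEquiv).symm.trans hN
  obtain ⟨K, hK⟩ := Sylow.exists_subgroup_card_pow_prime (G := ρ.range) 3 (n := 4)
    (by rw [c1]; norm_num)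
  have cK : Nat.card (K.map ρ.range.subtype) = 3 ^ 4 := by
    rw [card_map_of_injective Subtype.val_injective, hK]
  let P : Sylow 3 (GL (Fin 6) (ZMod 2)) := Sylow.ofCard _ (cK.trans (by
    rw [c0, Nat.factorization_mul (by norm_num) (by norm_num), Nat.factorization_pow]
    simp [Nat.prime_three.factorization_self,
      Nat.factorization_eq_zero_of_not_dvd (show ¬ 3 ∣ 248872960 by norm_num)]))
  have pu : IsPGroup 3 (zpowers u) := by
    rintro ⟨_, k, rfl⟩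
    exact ⟨2, Subtype.ext (by
      show (u ^ k) ^ 3 ^ 2 = 1
      rw [← zpow_natCast, ← _root_.zpow_mul, mul_comm, _root_.zpow_mul, zpow_natCast, u9,
        _root_.one_zpow])⟩
  obtain ⟨R, hR⟩ := pu.exists_le_sylow
  obtain ⟨x, hx⟩ := MulAction.exists_smul_eq (GL (Fin 6) (ZMod 2)) R P
  have m : x * u * x⁻¹ ∈ (P : Subgroup _) := by
    rw [← hx]; exact ⟨u, hR (mem_zpowers u), rfl⟩
  obtain ⟨⟨_, g, rfl⟩, -, hg⟩ := m
  have hg : ρ g = x * u * x⁻¹ := hg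
  obtain ⟨y, hy⟩ := red0 (Q.comp (Matrix.toLin' x.1)) (fun c => hQ (QuadraticMap.ext fun v => by
      simpa using DFunLike.congr_fun c ((x⁻¹).1 *ᵥ v))) fun v => by
    have := inv g (x.1 *ᵥ v)
    rw [hg, mulVec_mulVec, ← Units.val_mul, inv_mul_cancel_right, Units.val_mul,
      ← mulVec_mulVec] at this
    rw [← uM_mulVec]
    exact this
  refine ⟨(MulAut.conj (x * y)⁻¹).toMonoidHom.comp ρ, (MulAut.conj _).injective.comp hρ,
    fun g v => ?_⟩
  have hy : ∀ v, Q ((x * y).1 *ᵥ v) = Qs v := fun v => by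
    rw [Units.val_mul, ← mulVec_mulVec]; exact hy v
  rw [← hy, ← hy v, ← inv g ((x * y).1 *ᵥ v), mulVec_mulVec, mulVec_mulVec, ← Units.val_mul,
    ← Units.val_mul]
  simp [mul_assoc]

theorem psu_of {G H : Type*} [Group G] [Finite G] [IsSimpleGroup G] [Group H]
    (hN : Nat.card G = 25920) (ρ : G →* GL (Fin 6) (ZMod 2)) (hρ : Function.Injective ρ)
    (Q : QuadraticForm (ZMod 2) V) (hQ : Q ≠ 0) (inv : ∀ g v, Q ((ρ g).1 *ᵥ v) = Q v)
    (hH : Nat.card H = 25920) (π : H →* GL (Fin 6) (ZMod 2)) (inj' : Function.Injective π)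
    (hQ' : ∀ g v, Qs ((π g).1 *ᵥ v) = Qs v) : Nonempty (G ≃* H ⧸ center H) := by
  obtain ⟨φ, a, b⟩ := red hN ρ hρ Q hQ inv
  exact iso hN φ a b hH π inj' hQ'

end TQ.O6
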