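import Cfsg.Agent.MQ.Pc
import Cfsg.Prelude.Def_Classical

/-! Simple groups of order `2 ^ a * 3 * 5 * q ^ b`: interfaces. -/

set_option autoImplicit false

namespace TQ
open Cfsg H8 H2 Subgroup

/-- the conclusion -/
def Concl (G : Type*) [Group G] : Prop :=
  (∃ (F : Type) (_ : Field F) (_ : Fintype F),
      (Fintype.card F = 5 ∨ Fintype.card F = 9 ∨ Fintype.card F = 11 ∨ Fintype.card F = 16 ∨
        Fintype.card F = 31) ∧ Nonempty (G ≃* Matrix.ProjectiveSpecialLinearGroup (Fin 2) F)) ∨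
    (∃ (F : Type) (_ : Field F) (_ : Fintype F), Fintype.card F = 4 ∧
      Nonempty (G ≃* Cfsg.PSU 4 F 2))

/-- the quadratic form of minus type in dimension six -/
def Q0 (v : Fin 6 → ZMod 2) : ZMod 2 := v 0 * v 1 + v 2 * v 3 + v 4 * v 5 + v 4 + v 5

instance fact3 : Fact (Nat.Prime 3) := ⟨Nat.prime_three⟩

/-- the principal 3-block when `9` does not divide the order: degrees `1, n, n + 1` -/
structure T3 {G : Type*} [Group G] [Fintype G] {x : G} (h : DefOne 3 x) (F : Full h 2) (n : ℕ)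
    (α : G → ℤ) : Prop where
  s0 : F.s 0 = -1
  s1 : F.s 1 = 1
  d0 : deg (F.c 0) = n + 1
  d1 : deg (F.c 1) = n
  n2 : 2 ≤ n
  n3 : n % 3 = 1
  val : ∀ g, (F.c 1).1 g = α g
  val0 : ∀ g, ¬ 3 ∣ orderOf g → (F.c 0).1 g = (α g + 1 : ℤ)

/-- the numerical data of the principal 5-block of a group of order `5 * 2 ^ a * 3 ^ c` -/
structure N5 (a c : ℕ) (s : Fin 4 → ℤ) : Prop where
  mono : Monotone s
  sum : 1 + ∑ j, s j = 0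
  md : ∀ j, s j % 5 = 1
  ne : ∀ j, s j ≠ 1
  dv : ∀ j, s j ∣ 2 ^ a * 3 ^ c
  sq : 1 + ∑ j, s j * s j ≤ 5 * 2 ^ a * 3 ^ c
  syl : 2 ^ a * 3 ^ c % 5 = 4
  rs : (s 1 < 0 ∧ 0 < s 2) ∨ (s 0 = s 1 ∧ s 2 < 0) ∨ (s 1 = s 2) ∨ (0 < s 1 ∧ s 2 = s 3)
  bt2 : ∃ I : Finset (Fin 4), (∀ j ∈ I, ∀ k, (s j).natAbs ≠ 2 ^ k) ∧ 2 ^ a ∣ 1 + ∑ j ∈ I, s j
  bt3 : ∃ I : Finset (Fin 4), (∀ j ∈ I, ∀ k, (s j).natAbs ≠ 3 ^ k) ∧ 3 ^ c ∣ 1 + ∑ j ∈ I, s j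

end TQ
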