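import Cfsg.Agent.TQ.SU
import Cfsg.Agent.TQ.Red
import Cfsg.Agent.TQ.N20
import Cfsg.Agent.TQ.Stmt

/-! The case of order `25920`. -/

set_option autoImplicit false

namespace TQ
open Cfsg H8 H2 Subgroup Matrix

theorem psu {G : Type*} [Group G] [Fintype G] [IsSimpleGroup G] {r : G}
    (hN : Nat.card G = 25920) (h : DefOne 5 r) (hV : h.V = ⊥) (he : Nat.card h.H = 4)
    (F : Full h 4) (hF : ∀ j, F.s j * deg (F.c j) = ![-64, -24, 6, 81] j) : Concl G := by
  obtain ⟨ρ, Q, a, b, c⟩ := six hN h hV he F hF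
  exact Or.inr ⟨U6.K4, inferInstance, inferInstance, H2.F4.card_F4,
    O6.psu_of hN ρ a Q b c SU.card_su SU.π SU.π_inj SU.π_Q⟩

end TQ
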