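import Cfsg.Agent.TQ.SU1
import Cfsg.Agent.TQ.O6

/-! The embedding of `SU₄(2)` into `O₆⁻(2)` by the exterior square. -/

set_option autoImplicit false
set_option maxRecDepth 100000
open Matrix

namespace TQ.SU

open U6

def alt {R : Type*} [CommRing R] (p q r s t u : R) : Matrix (Fin 4) (Fin 4) R :=
  !![0, p, q, r; -p, 0, s, t; -q, -s, 0, u; -r, -t, -u, 0]

def star {R : Type*} [CommRing R] (X : Matrix (Fin 4) (Fin 4) R) : Matrix (Fin 4) (Fin 4) R :=
  alt (X 2 3) (-X 1 3) (X 1 2) (X 0 3) (-X 0 2) (X 0 1)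

theorem ent {R : Type*} [CommRing R] (A : Matrix (Fin 4) (Fin 4) R) (p q r s t u : R)
    (i j : Fin 4) : (A * alt p q r s t u * Aᵀ) i j =
      p * (A i 0 * A j 1 - A i 1 * A j 0) + q * (A i 0 * A j 2 - A i 2 * A j 0) +
      r * (A i 0 * A j 3 - A i 3 * A j 0) + s * (A i 1 * A j 2 - A i 2 * A j 1) +
      t * (A i 1 * A j 3 - A i 3 * A j 1) + u * (A i 2 * A j 3 - A i 3 * A j 2) := by
  simp [mul_apply, Fin.sum_univ_four, alt]
  ring

theorem is_alt {R : Type*} [CommRing R] (A : Matrix (Fin 4) (Fin 4) R) (p q r s t u : R) :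
    ∃ p' q' r' s' t' u', A * alt p q r s t u * Aᵀ = alt p' q' r' s' t' u' := by
  refine ⟨(A * alt p q r s t u * Aᵀ) 0 1, (A * alt p q r s t u * Aᵀ) 0 2,
    (A * alt p q r s t u * Aᵀ) 0 3, (A * alt p q r s t u * Aᵀ) 1 2, (A * alt p q r s t u * Aᵀ) 1 3,
    (A * alt p q r s t u * Aᵀ) 2 3, ?_⟩
  refine Matrix.ext fun i j => ?_
  rw [ent, ent, ent, ent, ent, ent, ent]
  fin_cases i <;> fin_cases j <;> simp [alt] <;> ring

theorem star_conj {R : Type*} [CommRing R] (A : Matrix (Fin 4) (Fin 4) R) (p q r s t u : R) :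
    Aᵀ * star (A * alt p q r s t u * Aᵀ) * A = A.det • star (alt p q r s t u) := by
  have := ent Aᵀ
  simp only [transpose_transpose] at this
  refine Matrix.ext fun i j => ?_
  rw [star, this, ent, ent, ent, ent, ent, ent, det4]
  fin_cases i <;> fin_cases j <;> simp [alt, star] <;> ring

def ι (a : ZMod 2) : K4 := if a = 0 then 0 else 1
def cK (a b : ZMod 2) : K4 := ι a + ι b * ω

abbrev V6 := Fin 6 → ZMod 2

def Sm (a b c : K4) : M4 := alt a b c (σ c) (-σ b) (σ a)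
def Em (v : V6) : M4 := Sm (cK (v 0) (v 1)) (cK (v 2) (v 3)) (cK (v 4) (v 5))

theorem cK_add : ∀ a b c d : ZMod 2, cK (a + c) (b + d) = cK a b + cK c d := by decide +kernel
theorem cK_inj : ∀ a b c d : ZMod 2, cK a b = cK c d → a = c ∧ b = d := by decide +kernel
theorem cK_surj : ∀ x : K4, ∃ a b, cK a b = x := by decide +kernel
theorem ι_inj : ∀ a b : ZMod 2, ι a = ι b → a = b := by decide +kernel
theorem ng : ∀ a : K4, -a = a := fun _ => rfl
theorem σσ (a : K4) : σ (σ a) = a := cj_cj a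
theorem nrm : ∀ a b c d e f : ZMod 2, cK a b * σ (cK a b) + cK c d * σ (cK c d) +
    cK e f * σ (cK e f) = ι (a * a + a * b + b * b + c * c + c * d + d * d + e * e + e * f + f * f) := by
  decide +kernel

theorem Em_add (v w : V6) : Em (v + w) = Em v + Em w := by
  refine Matrix.ext fun i j => ?_
  fin_cases i <;> fin_cases j <;> simp [Em, Sm, alt, cK_add, ng, add_comm]

theorem Em_inj : Function.Injective Em := fun v w e => by
  obtain ⟨h0, h1⟩ := cK_inj _ _ _ _ (congrFun (congrFun e 0) 1)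
  obtain ⟨h2, h3⟩ := cK_inj _ _ _ _ (congrFun (congrFun e 0) 2)
  obtain ⟨h4, h5⟩ := cK_inj _ _ _ _ (congrFun (congrFun e 0) 3)
  funext i
  fin_cases i
  exacts [h0, h1, h2, h3, h4, h5]

theorem Sm_surj (a b c : K4) : ∃ v, Em v = Sm a b c := by
  obtain ⟨a0, a1, rfl⟩ := cK_surj a
  obtain ⟨b0, b1, rfl⟩ := cK_surj b
  obtain ⟨c0, c1, rfl⟩ := cK_surj c
  exact ⟨![a0, a1, b0, b1, c0, c1], rfl⟩

theorem Sm_bar (a b c : K4) : (Sm a b c).map σ = star (Sm a b c) := by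
  refine Matrix.ext fun i j => ?_
  fin_cases i <;> fin_cases j <;> simp [Sm, star, alt, σσ]

theorem Sm_mul (a b c : K4) : Sm a b c * (Sm a b c).map σ = (a * σ a + b * σ b + c * σ c) • 1 := by
  have t : (2 : K4) = 0 := by decide +kernel
  refine Matrix.ext fun i j => ?_
  fin_cases i <;> fin_cases j <;> simp [Sm, alt, σσ, mul_apply, Fin.sum_univ_four, ng] <;>
    first | ring1 | (ring_nf; simp [t])

theorem Em_mul (v : V6) : Em v * (Em v).map σ = ι (O6.Qs v) • 1 := by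
  rw [Em, Sm_mul, nrm]; rfl

variable (g : Cfsg.SU 4 K4 2)

theorem u1 : g.1.1ᵀ * g.1.1.map σ = 1 := (mem_iff _).1 g.2
theorem u2 : g.1.1.map σ * g.1.1ᵀ = 1 := mul_eq_one_comm.1 (u1 g)
theorem u3 : g.1.1 * (g.1.1.map σ)ᵀ = 1 := by
  have := congrArg transpose (u2 g)
  rwa [transpose_mul, transpose_transpose, transpose_one] at this

theorem ex (v : V6) : ∃ w, Em w = g.1.1 * Em v * g.1.1ᵀ := by
  have h := star_conj g.1.1 (cK (v 0) (v 1)) (cK (v 2) (v 3)) (cK (v 4) (v 5))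
    (σ (cK (v 4) (v 5))) (-σ (cK (v 2) (v 3))) (σ (cK (v 0) (v 1)))
  obtain ⟨p, q, r, s, t, u, e⟩ := is_alt g.1.1 (cK (v 0) (v 1)) (cK (v 2) (v 3)) (cK (v 4) (v 5))
    (σ (cK (v 4) (v 5))) (-σ (cK (v 2) (v 3))) (σ (cK (v 0) (v 1)))
  change _ * Em v * _ = _ at e
  change _ * star (_ * Em v * _) * _ = _ • star (Em v) at h
  rw [g.1.2, one_smul, Em, ← Sm_bar, ← Em] at h
  have k : (g.1.1 * Em v * g.1.1ᵀ).map σ = star (g.1.1 * Em v * g.1.1ᵀ) := by
    rw [Matrix.map_mul, Matrix.map_mul, ← h, transpose_map]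
    simp only [← Matrix.mul_assoc]
    rw [u2, Matrix.one_mul, Matrix.mul_assoc, u3, Matrix.mul_one]
  rw [e] at k ⊢
  obtain ⟨w, hw⟩ := Sm_surj p q r
  refine ⟨w, hw.trans ?_⟩
  have k1 : σ p = u := congrFun (congrFun k 0) 1
  have k2 : σ q = -t := congrFun (congrFun k 0) 2
  have k3 : σ r = s := congrFun (congrFun k 0) 3
  rw [Sm, k1, k2, k3, neg_neg]

noncomputable def fn (v : V6) : V6 := (ex g v).choose
theorem fn_spec (v : V6) : Em (fn g v) = g.1.1 * Em v * g.1.1ᵀ := (ex g v).choose_spec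

noncomputable def lin : V6 →ₗ[ZMod 2] V6 :=
  AddMonoidHom.toZModLinearMap 2 (AddMonoidHom.mk' (fn g) fun v w => Em_inj (by
    rw [Em_add, fn_spec, fn_spec, fn_spec, Em_add, Matrix.mul_add, Matrix.add_mul]))

theorem lin_apply (v : V6) : lin g v = fn g v := rfl

noncomputable def π0 : Cfsg.SU 4 K4 2 →* Matrix (Fin 6) (Fin 6) (ZMod 2) where
  toFun g := LinearMap.toMatrix' (lin g)
  map_one' := by
    rw [← LinearMap.toMatrix'_id]
    congr 1
    refine LinearMap.ext fun v => Em_inj ?_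
    rw [lin_apply, fn_spec]
    simp
  map_mul' a b := by
    rw [← LinearMap.toMatrix'_comp]
    congr 1
    refine LinearMap.ext fun v => Em_inj ?_
    rw [LinearMap.comp_apply, lin_apply, lin_apply, lin_apply, fn_spec, fn_spec, fn_spec]
    simp [Matrix.mul_assoc]

theorem π0_mul (v : V6) : π0 g *ᵥ v = fn g v := by
  change LinearMap.toMatrix' (lin g) *ᵥ v = _
  rw [← Matrix.toLin'_apply, Matrix.toLin'_toMatrix', lin_apply]

theorem Qfn (v : V6) : O6.Qs (fn g v) = O6.Qs v := by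
  have h := Em_mul (fn g v)
  rw [fn_spec, Matrix.map_mul, Matrix.map_mul, transpose_map] at h
  simp only [Matrix.mul_assoc] at h
  rw [← Matrix.mul_assoc g.1.1ᵀ, u1, Matrix.one_mul, ← Matrix.mul_assoc (Em v), Em_mul,
    Matrix.smul_mul, Matrix.mul_smul, Matrix.one_mul, u3] at h
  exact (ι_inj _ _ (by simpa using congrFun (congrFun h 0) 0)).symm

theorem kz1 : ∀ x y : K4, (∀ a, x * a = σ a * σ y) → x = 0 := by decide +kernel
theorem kz2 : ∀ x y : K4, (∀ a, x * σ a = a * σ y) → x = 0 := by decide +kernel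
theorem kd : ∀ a b c d : K4, a = σ b → a = σ c → b = σ c → d = σ c → a * b * c * d = 1 →
    a = 1 ∧ b = 1 ∧ c = 1 ∧ d = 1 := by decide +kernel

theorem triv (h : ∀ v, fn g v = v) : g = 1 := by
  have k : ∀ a b c : K4, g.1.1 * Sm a b c = Sm a b c * g.1.1.map σ := fun a b c => by
    obtain ⟨v, hv⟩ := Sm_surj a b c
    have := fn_spec g v
    rw [h, hv] at this
    conv_rhs => rw [this, Matrix.mul_assoc, u1, Matrix.mul_one]
  have hd := g.1.2
  rw [det4] at hd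
  suffices g.1.1 = 1 from Subtype.ext (Subtype.ext this)
  generalize g.1.1 = A at k hd
  have k' : ∀ a b c : K4, ∀ i j, (A * Sm a b c) i j = (Sm a b c * A.map σ) i j :=
    fun a b c i j => by rw [k]
  simp only [mul_apply, Fin.sum_univ_four, map_apply] at k'
  have z20 : A 2 0 = 0 := kz1 _ (A 3 1) fun a => by
    simpa [Sm, alt, ng] using k' a 0 0 2 1
  have z30 : A 3 0 = 0 := kz1 _ (A 2 1) fun a => by
    simpa [Sm, alt, ng] using k' a 0 0 3 1
  have z21 : A 2 1 = 0 := kz1 _ (A 3 0) fun a => by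
    simpa [Sm, alt, ng] using k' a 0 0 2 0
  have z31 : A 3 1 = 0 := kz1 _ (A 2 0) fun a => by
    simpa [Sm, alt, ng] using k' a 0 0 3 0
  have z03 : A 0 3 = 0 := kz2 _ (A 1 2) fun a => by
    simpa [Sm, alt, ng] using k' a 0 0 0 2
  have z13 : A 1 3 = 0 := kz2 _ (A 0 2) fun a => by
    simpa [Sm, alt, ng] using k' a 0 0 1 2
  have z02 : A 0 2 = 0 := kz2 _ (A 1 3) fun a => by
    simpa [Sm, alt, ng] using k' a 0 0 0 3
  have z12 : A 1 2 = 0 := kz2 _ (A 0 3) fun a => by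
    simpa [Sm, alt, ng] using k' a 0 0 1 3
  have z10 : A 1 0 = 0 := kz1 _ (A 3 2) fun a => by
    simpa [Sm, alt, ng] using k' 0 a 0 1 2
  have z32 : A 3 2 = 0 := kz1 _ (A 1 0) fun a => by
    simpa [Sm, alt, ng] using k' 0 a 0 3 0
  have z01 : A 0 1 = 0 := kz2 _ (A 2 3) fun a => by
    simpa [Sm, alt, ng] using k' 0 a 0 0 3
  have z23 : A 2 3 = 0 := kz2 _ (A 0 1) fun a => by
    simpa [Sm, alt, ng] using k' 0 a 0 2 1
  have d1 : A 0 0 = σ (A 1 1) := by simpa [Sm, alt, ng] using k' 1 0 0 0 1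
  have d2 : A 0 0 = σ (A 2 2) := by simpa [Sm, alt, ng] using k' 0 1 0 0 2
  have d3 : A 1 1 = σ (A 2 2) := by simpa [Sm, alt, ng] using k' 0 0 1 1 2
  have d4 : A 3 3 = σ (A 2 2) := by simpa [Sm, alt, ng] using k' 1 0 0 3 2
  obtain ⟨o0, o1, o2, o3⟩ := kd _ _ _ _ d1 d2 d3 d4 (by
    rw [← hd, z01, z02, z03, z12, z13, z23]; ring)
  refine Matrix.ext fun i j => ?_
  fin_cases i <;> fin_cases j
  exacts [o0, z01, z02, z03, z10, o1, z12, z13, z20, z21, o2, z23, z30, z31, z32, o3]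

/-- the embedding -/
noncomputable def π : Cfsg.SU 4 K4 2 →* GL (Fin 6) (ZMod 2) := π0.toHomUnits

theorem π_inj : Function.Injective π := by
  refine (injective_iff_map_eq_one π).2 fun g e => triv g fun v => ?_
  have : π0 g = 1 := congrArg Units.val e
  rw [← π0_mul, this, one_mulVec]

theorem π_Q (v : V6) : O6.Qs ((π g).1 *ᵥ v) = O6.Qs v := by
  change O6.Qs (π0 g *ᵥ v) = _
  rw [π0_mul, Qfn]

end TQ.SU

namespace TQ

theorem su4 : ∃ (F : Type) (_ : Field F) (_ : Fintype F), Fintype.card F = 4 ∧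
    Nat.card (Cfsg.SU 4 F 2) = 25920 ∧ ∃ π : Cfsg.SU 4 F 2 →* GL (Fin 6) (ZMod 2),
      Function.Injective π ∧ ∀ g v, O6.Qs ((π g).1 *ᵥ v) = O6.Qs v :=
  ⟨U6.K4, inferInstance, inferInstance, H2.F4.card_F4, SU.card_su, SU.π, SU.π_inj, SU.π_Q⟩

theorem u4s {G : Type*} [Group G] [Finite G] [IsSimpleGroup G] (hN : Nat.card G = 25920)
    (φ : G →* GL (Fin 6) (ZMod 2)) (inj : Function.Injective φ)
    (hQ : ∀ g v, O6.Qs ((φ g).1 *ᵥ v) = O6.Qs v) :
    ∃ (F : Type) (_ : Field F) (_ : Fintype F), Fintype.card F = 4 ∧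
      Nonempty (G ≃* Cfsg.PSU 4 F 2) :=
  ⟨U6.K4, inferInstance, inferInstance, H2.F4.card_F4,
    O6.iso hN φ inj hQ SU.card_su SU.π SU.π_inj SU.π_Q⟩

end TQ
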