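import Cfsg.Agent.U6.V

/-! The order of `SU₄(2)`. -/

set_option autoImplicit false
set_option maxRecDepth 100000
open Matrix

namespace TQ.SU

open U6

abbrev M4 := Matrix (Fin 4) (Fin 4) K4

def σ : K4 →+* K4 where
  toFun := cj
  map_one' := cj_one
  map_mul' := cj_mul
  map_zero' := cj_zero
  map_add' := cj_add

theorem σ_apply (a : K4) : σ a = cj a := rfl

theorem herm (u v : Fin 4 → K4) : Cfsg.hermForm 4 K4 2 u v = u ⬝ᵥ (σ ∘ v) := by
  simp only [Cfsg.hermForm, dotProduct, Function.comp, σ_apply, cj, sq]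

theorem mem_iff (g : SpecialLinearGroup (Fin 4) K4) :
    g ∈ Cfsg.SU 4 K4 2 ↔ g.1ᵀ * g.1.map σ = 1 := by
  change (∀ u v, Cfsg.hermForm 4 K4 2 (g.1 *ᵥ u) (g.1 *ᵥ v) = Cfsg.hermForm 4 K4 2 u v) ↔ _
  have k : ∀ u v : Fin 4 → K4, Cfsg.hermForm 4 K4 2 (g.1 *ᵥ u) (g.1 *ᵥ v) =
      u ⬝ᵥ ((g.1ᵀ * g.1.map σ) *ᵥ (σ ∘ v)) := fun u v => by
    have : σ ∘ (g.1 *ᵥ v) = g.1.map σ *ᵥ (σ ∘ v) := funext fun i => RingHom.map_mulVec σ g.1 v i
    rw [herm, this, ← mulVec_mulVec, dotProduct_mulVec u, vecMul_transpose]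
  constructor
  · intro h
    ext a b
    have := h (Pi.single a 1) (Pi.single b 1)
    have e : σ ∘ (Pi.single b 1 : Fin 4 → K4) = Pi.single b 1 := funext fun i => by
      by_cases c : i = b
      · subst c; simp
      · simp [c]
    rw [k, herm, e] at this
    simpa [one_apply, Pi.single_apply, eq_comm] using this
  · intro h u v
    rw [k, h, one_mulVec, herm]

theorem det4 {R : Type*} [CommRing R] (A : Matrix (Fin 4) (Fin 4) R) : A.det =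
    A 0 0 * (A 1 1 * A 2 2 * A 3 3 - A 1 1 * A 2 3 * A 3 2 - A 1 2 * A 2 1 * A 3 3 +
      A 1 2 * A 2 3 * A 3 1 + A 1 3 * A 2 1 * A 3 2 - A 1 3 * A 2 2 * A 3 1) -
    A 0 1 * (A 1 0 * A 2 2 * A 3 3 - A 1 0 * A 2 3 * A 3 2 - A 1 2 * A 2 0 * A 3 3 +
      A 1 2 * A 2 3 * A 3 0 + A 1 3 * A 2 0 * A 3 2 - A 1 3 * A 2 2 * A 3 0) +
    A 0 2 * (A 1 0 * A 2 1 * A 3 3 - A 1 0 * A 2 3 * A 3 1 - A 1 1 * A 2 0 * A 3 3 +
      A 1 1 * A 2 3 * A 3 0 + A 1 3 * A 2 0 * A 3 1 - A 1 3 * A 2 1 * A 3 0) -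
    A 0 3 * (A 1 0 * A 2 1 * A 3 2 - A 1 0 * A 2 2 * A 3 1 - A 1 1 * A 2 0 * A 3 2 +
      A 1 1 * A 2 2 * A 3 0 + A 1 2 * A 2 0 * A 3 1 - A 1 2 * A 2 1 * A 3 0) := by
  rw [det_succ_row_zero, Fin.sum_univ_four]
  simp only [det_fin_three, submatrix_apply]
  change (-1) ^ 0 * A 0 0 * (A 1 1 * A 2 2 * A 3 3 - A 1 1 * A 2 3 * A 3 2 - A 1 2 * A 2 1 * A 3 3 +
      A 1 2 * A 2 3 * A 3 1 + A 1 3 * A 2 1 * A 3 2 - A 1 3 * A 2 2 * A 3 1) +
    (-1) ^ 1 * A 0 1 * (A 1 0 * A 2 2 * A 3 3 - A 1 0 * A 2 3 * A 3 2 - A 1 2 * A 2 0 * A 3 3 +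
      A 1 2 * A 2 3 * A 3 0 + A 1 3 * A 2 0 * A 3 2 - A 1 3 * A 2 2 * A 3 0) +
    (-1) ^ 2 * A 0 2 * (A 1 0 * A 2 1 * A 3 3 - A 1 0 * A 2 3 * A 3 1 - A 1 1 * A 2 0 * A 3 3 +
      A 1 1 * A 2 3 * A 3 0 + A 1 3 * A 2 0 * A 3 1 - A 1 3 * A 2 1 * A 3 0) +
    (-1) ^ 3 * A 0 3 * (A 1 0 * A 2 1 * A 3 2 - A 1 0 * A 2 2 * A 3 1 - A 1 1 * A 2 0 * A 3 2 +
      A 1 1 * A 2 2 * A 3 0 + A 1 2 * A 2 0 * A 3 1 - A 1 2 * A 2 1 * A 3 0) = _
  ring

/-- the unit vectors -/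
def U : Finset V := ⟨(allV.filter fun x => hf x x = 1 : List V), by
  refine Multiset.coe_nodup.2 (List.Nodup.filter _ ?_); decide +kernel⟩

theorem mem_U (x : V) : x ∈ U ↔ hf x x = 1 := by
  change x ∈ (allV.filter fun x => hf x x = 1 : List V) ↔ _
  simp [mem_allV]

def S : Finset (Σ _ : V, Σ _ : V, V) :=
  U.sigma fun a => (U.filter fun b => hf a b = 0).sigma fun b =>
    (U.filter fun b => hf a b = 0).filter fun c => hf b c = 0

theorem card_S : S.card = 25920 := by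
  simp only [S, Finset.card_sigma]
  decide +kernel

def col (A : M4) (j : Fin 4) : V := (A 0 j, A 1 j, A 2 j, A 3 j)

theorem hf_col (A : M4) (i j : Fin 4) : hf (col A i) (col A j) = (Aᵀ * A.map σ) i j := by
  simp [hf, col, mul_apply, Fin.sum_univ_four, σ_apply]

/-- the cofactor vector -/
def cr {R : Type*} [CommRing R] (a b c : R × R × R × R) : R × R × R × R :=
  (-(a.2.1 * b.2.2.1 * c.2.2.2 - a.2.1 * c.2.2.1 * b.2.2.2 - b.2.1 * a.2.2.1 * c.2.2.2 +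
      b.2.1 * c.2.2.1 * a.2.2.2 + c.2.1 * a.2.2.1 * b.2.2.2 - c.2.1 * b.2.2.1 * a.2.2.2),
   a.1 * b.2.2.1 * c.2.2.2 - a.1 * c.2.2.1 * b.2.2.2 - b.1 * a.2.2.1 * c.2.2.2 +
      b.1 * c.2.2.1 * a.2.2.2 + c.1 * a.2.2.1 * b.2.2.2 - c.1 * b.2.2.1 * a.2.2.2,
   -(a.1 * b.2.1 * c.2.2.2 - a.1 * c.2.1 * b.2.2.2 - b.1 * a.2.1 * c.2.2.2 +
      b.1 * c.2.1 * a.2.2.2 + c.1 * a.2.1 * b.2.2.2 - c.1 * b.2.1 * a.2.2.2),
   a.1 * b.2.1 * c.2.2.1 - a.1 * c.2.1 * b.2.2.1 - b.1 * a.2.1 * c.2.2.1 +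
      b.1 * c.2.1 * a.2.2.1 + c.1 * a.2.1 * b.2.2.1 - c.1 * b.2.1 * a.2.2.1)

def mk4 (a b c d : V) : M4 :=
  !![a.1, b.1, c.1, d.1; a.2.1, b.2.1, c.2.1, d.2.1; a.2.2.1, b.2.2.1, c.2.2.1, d.2.2.1;
    a.2.2.2, b.2.2.2, c.2.2.2, d.2.2.2]

def bar (a : V) : V := (σ a.1, σ a.2.1, σ a.2.2.1, σ a.2.2.2)

theorem hf_bar (a b : V) : hf a (bar b) = a.1 * b.1 + a.2.1 * b.2.1 + a.2.2.1 * b.2.2.1 +
    a.2.2.2 * b.2.2.2 := by
  simp [hf, bar, σ_apply]

theorem det_mk (a b c d : V) : (mk4 a b c d).det = hf d (bar (cr a b c)) := by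
  rw [det4, hf_bar]; simp [mk4, cr]; ring

theorem gram (a b c : V) : hf (bar (cr a b c)) (bar (cr a b c)) =
    hf a a * hf b b * hf c c - hf a a * hf b c * hf c b - hf a b * hf b a * hf c c +
      hf a b * hf b c * hf c a + hf a c * hf b a * hf c b - hf a c * hf b b * hf c a := by
  rw [hf_bar]
  simp only [bar, cr, map_neg, map_add, map_sub, map_mul, hf, ← σ_apply]
  ring

theorem card_su : Nat.card (Cfsg.SU 4 K4 2) = 25920 := by
  let f : Cfsg.SU 4 K4 2 → (Σ _ : V, Σ _ : V, V) :=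
    fun g => ⟨col g.1.1 0, col g.1.1 1, col g.1.1 2⟩
  have k : ∀ g : Cfsg.SU 4 K4 2, ∀ i j, hf (col g.1.1 i) (col g.1.1 j) = if i = j then 1 else 0 :=
    fun g i j => by rw [hf_col, (mem_iff _).1 g.2, one_apply]
  have em : ∀ A : M4, A = mk4 (col A 0) (col A 1) (col A 2) (col A 3) := fun A => by
    ext i j; fin_cases i <;> fin_cases j <;> rfl
  have l : ∀ g : Cfsg.SU 4 K4 2, col g.1.1 3 =
      bar (cr (col g.1.1 0) (col g.1.1 1) (col g.1.1 2)) := fun g => by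
    have h1 : g.1.1.map σ * g.1.1ᵀ = 1 := mul_eq_one_comm.1 ((mem_iff _).1 g.2)
    have hd : hf (col g.1.1 3) (bar (cr (col g.1.1 0) (col g.1.1 1) (col g.1.1 2))) = 1 := by
      rw [← det_mk, ← em]; exact g.1.2
    have z0 : hf (col g.1.1 0) (bar (cr (col g.1.1 0) (col g.1.1 1) (col g.1.1 2))) = 0 := by
      rw [hf_bar]; simp only [cr]; ring
    have z1 : hf (col g.1.1 1) (bar (cr (col g.1.1 0) (col g.1.1 1) (col g.1.1 2))) = 0 := by
      rw [hf_bar]; simp only [cr]; ring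
    have z2 : hf (col g.1.1 2) (bar (cr (col g.1.1 0) (col g.1.1 1) (col g.1.1 2))) = 0 := by
      rw [hf_bar]; simp only [cr]; ring
    generalize bar (cr (col g.1.1 0) (col g.1.1 1) (col g.1.1 2)) = n at hd z0 z1 z2
    have e : ∀ x : V, g.1.1ᵀ *ᵥ ![σ x.1, σ x.2.1, σ x.2.2.1, σ x.2.2.2] =
        fun j => hf (col g.1.1 j) x := fun x => funext fun j => by
      simp [mulVec, dotProduct, Fin.sum_univ_four, hf, col, σ_apply]
    have e2 : g.1.1ᵀ *ᵥ ![σ n.1, σ n.2.1, σ n.2.2.1, σ n.2.2.2] = g.1.1ᵀ *ᵥ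
        ![σ (col g.1.1 3).1, σ (col g.1.1 3).2.1, σ (col g.1.1 3).2.2.1,
          σ (col g.1.1 3).2.2.2] := by
      rw [e, e]; funext j
      rw [k]
      fin_cases j
      · exact z0
      · exact z1
      · exact z2
      · exact hd
    have e3 := congrArg (fun x => g.1.1.map σ *ᵥ x) e2
    simp only [mulVec_mulVec, h1, one_mulVec] at e3
    have inj : Function.Injective σ := σ.injective
    exact (Prod.ext (inj (congrFun e3 0)) (Prod.ext (inj (congrFun e3 1))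
      (Prod.ext (inj (congrFun e3 2)) (inj (congrFun e3 3))))).symm
  have fi : Function.Injective f := fun g g' e => by
    have e0 : col g.1.1 0 = col g'.1.1 0 := congrArg (fun x => x.1) e
    have e1 : col g.1.1 1 = col g'.1.1 1 := congrArg (fun x => x.2.1) e
    have e2 : col g.1.1 2 = col g'.1.1 2 := congrArg (fun x => x.2.2) e
    refine Subtype.ext (Subtype.ext ?_)
    rw [em g.1.1, em g'.1.1, l, l, e0, e1, e2]
  have fr : Set.range f = ↑S := by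
    ext ⟨a, b, c⟩
    simp only [S, Finset.mem_coe, Finset.mem_sigma, Finset.mem_filter, mem_U, Set.mem_range]
    constructor
    · rintro ⟨g, e⟩
      have e0 : col g.1.1 0 = a := congrArg (fun x => x.1) e
      have e1 : col g.1.1 1 = b := congrArg (fun x => x.2.1) e
      have e2 : col g.1.1 2 = c := congrArg (fun x => x.2.2) e
      rw [← e0, ← e1, ← e2]
      simp [k]
    · rintro ⟨aa, ⟨bb, ab⟩, ⟨cc, ac⟩, bc⟩
      have ba := hf_symm ab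
      have ca := hf_symm ac
      have cb := hf_symm bc
      have dd : hf (bar (cr a b c)) (bar (cr a b c)) = 1 := by
        rw [gram, aa, bb, cc, ab, ac, bc]; ring
      have ad : hf a (bar (cr a b c)) = 0 := by rw [hf_bar]; simp only [cr]; ring
      have bd : hf b (bar (cr a b c)) = 0 := by rw [hf_bar]; simp only [cr]; ring
      have cd : hf c (bar (cr a b c)) = 0 := by rw [hf_bar]; simp only [cr]; ring
      have da := hf_symm ad
      have db := hf_symm bd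
      have dc := hf_symm cd
      refine ⟨⟨⟨mk4 a b c (bar (cr a b c)), by rw [det_mk, dd]⟩, (mem_iff _).2 ?_⟩, rfl⟩
      refine Matrix.ext fun i j => ?_
      rw [← hf_col]
      fin_cases i <;> fin_cases j
      exacts [aa, ab, ac, ad, ba, bb, bc, bd, ca, cb, cc, cd, da, db, dc, dd]
  rw [← Nat.card_range_of_injective fi, fr, Nat.card_coe_set_eq, Set.ncard_coe_finset, card_S]

end TQ.SU
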